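import Cfsg.Agent.H11.SimDSpec

/-! # S3694, slot SIM-D-D6U -/

set_option autoImplicit false

namespace H72.SimD6U

open Subgroup Cfsg H98 Matrix H0.Sim H11.SimD

theorem jobD_D6U : H11.SimD.JobD6U := by
  intro hf n F _ _ q g W₁ W₂ hc hg pp
  obtain ⟨ad, -, sy, -, -, -, -, -, sep⟩ := hf n F q hc
  have inv : ∀ x y, hermForm n F q ((g : Mt n F) *ᵥ x) ((g : Mt n F) *ᵥ y) = hermForm n F q x y :=
    fun x y => (show g ∈ GU n F q from hg) x y
  have z0 : (0 : F) ^ q = 0 := by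
    have := ad 0 0
    rw [add_zero] at this
    exact left_eq_add.1 this
  constructor
  · intro h
    refine Sb.mg_eq fun x hx => (pp _).2 fun w hw => ?_
    rw [← h] at hw
    obtain ⟨w', hw', rfl⟩ := mem_mg.1 hw
    rw [inv]
    exact (pp x).1 hx w' hw'
  · intro h
    refine Sb.mg_eq fun x hx => by_contra fun hn => ?_
    obtain ⟨y, h1, h2⟩ := sep W₁ _ hn
    have hy : y ∈ W₂ := (pp y).2 fun w hw => by rw [sy, h2 w hw, z0]
    rw [← h] at hy
    obtain ⟨y', hy', rfl⟩ := mem_mg.1 hy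
    rw [inv, sy, (pp y').1 hy' x hx, z0] at h1
    exact zero_ne_one h1

end H72.SimD6U
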