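import Cfsg.Agent.H53.SimXASpec

/-! # S3694, slot SIM-XA-EMB: the group of a block -/

set_option autoImplicit false

namespace H72.SimEMB

open Subgroup Cfsg Matrix H0.Sim H53.XA

variable {n b : ℕ} {F : Type} [Field F] {P : Matrix (Fin n) (Fin b) F} {P' : Matrix (Fin b) (Fin n) F}

theorem l1 (h : P' * P = 1) : (1 - P * P') * P = 0 := by
  rw [Matrix.sub_mul, Matrix.one_mul, Matrix.mul_assoc, h, Matrix.mul_one, sub_self]

theorem l2 (h : P' * P = 1) : P' * (1 - P * P') = 0 := by
  rw [Matrix.mul_sub, Matrix.mul_one, ← Matrix.mul_assoc, h, Matrix.one_mul, sub_self]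

theorem l3 (h : P' * P = 1) : (1 - P * P') * (1 - P * P') = 1 - P * P' := by
  rw [Matrix.mul_sub, Matrix.mul_one, ← Matrix.mul_assoc, l1 h, Matrix.zero_mul, sub_zero]

theorem l4 (h : P' * P = 1) (x : Mt b F) : (1 - P * P') * (P * x * P') = 0 := by
  rw [← Matrix.mul_assoc, ← Matrix.mul_assoc, l1 h, Matrix.zero_mul, Matrix.zero_mul]

theorem l5 (h : P' * P = 1) (x : Mt b F) : (P * x * P') * (1 - P * P') = 0 := by
  rw [Matrix.mul_assoc, l2 h, Matrix.mul_zero]

/-- `x ↦ 1 - f + P x P'`. -/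
def em (h : P' * P = 1) : Mt b F →* Mt n F where
  toFun x := 1 - P * P' + P * x * P'
  map_one' := by rw [Matrix.mul_one, sub_add_cancel]
  map_mul' x y := by
    rw [add_mul, mul_add, mul_add, l3 h, l4 h, l5 h, add_zero, zero_add]
    congr 1
    simp only [Matrix.mul_assoc]
    rw [← Matrix.mul_assoc P' P, h, Matrix.one_mul]

theorem em_apply (h : P' * P = 1) (x : Mt b F) : em h x = 1 - P * P' + P * x * P' := rfl

theorem em_left (h : P' * P = 1) (x : Mt b F) : P' * em h x * P = x := by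
  rw [em_apply, Matrix.mul_add, l2 h, zero_add]
  simp only [Matrix.mul_assoc]
  rw [h, Matrix.mul_one, ← Matrix.mul_assoc, h, Matrix.one_mul]

theorem em_inj (h : P' * P = 1) : Function.Injective (em h) := fun x y e => by
  rw [← em_left h x, e, em_left h y]

theorem em_det (h : P' * P = 1) (x : Mt b F) : (em h x).det = x.det := by
  have e : em h x = 1 + P * ((x - 1) * P') := by
    rw [em_apply, Matrix.sub_mul, Matrix.mul_sub, Matrix.one_mul, Matrix.mul_assoc]; abel
  rw [e, Matrix.det_one_add_mul_comm, Matrix.mul_assoc, h, Matrix.mul_one, add_sub_cancel]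

theorem cm {f y : Mt n F} (h1 : (1 - f) * y = 1 - f) (h2 : y * (1 - f) = 1 - f) :
    f * y = y - 1 + f ∧ y * f = y - 1 + f := by
  rw [sub_mul, one_mul] at h1
  rw [mul_sub, mul_one] at h2
  constructor
  · rw [← sub_eq_zero, ← neg_eq_zero, ← sub_eq_zero.2 h1]; abel
  · rw [← sub_eq_zero, ← neg_eq_zero, ← sub_eq_zero.2 h2]; abel

theorem em_right (h : P' * P = 1) {y : Mt n F} (h1 : (1 - P * P') * y = 1 - P * P')
    (h2 : y * (1 - P * P') = 1 - P * P') : em h (P' * y * P) = y := by
  obtain ⟨c1, c2⟩ := cm h1 h2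
  have e : P * (P' * y * P) * P' = (P * P') * (y * (P * P')) := by simp only [Matrix.mul_assoc]
  have e2 : P * P' * (P * P') = P * P' := by
    rw [Matrix.mul_assoc, ← Matrix.mul_assoc P', h, Matrix.one_mul]
  rw [em_apply, e, c2, ← c1, ← Matrix.mul_assoc, e2, c1]; abel

theorem job : EMB := by
  intro n F _ _ u q b f P P' hF fr
  obtain ⟨h, rfl, hs⟩ := fr
  have gam : ∀ x : GL (Fin b) F, Units.map (em h) x ∈ Gam n F u q ↔ x ∈ Gam b F u q := by
    intro x
    cases u with
    | false => exact ⟨fun _ => mem_top _, fun _ => mem_top _⟩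
    | true =>
      have hF' : Fintype.card F = q ^ 2 := hF
      have a1 : ad q P = P' := hs rfl
      have a2 : ad q P' = P := by rw [← a1, ad_ad hF']
      have a3 : ∀ m : Mt b F, ad q (em h m) = em h (ad q m) := fun m => by
        rw [em_apply, em_apply, ad_add hF', ad_sub hF', ad_one hF', ad_mul hF', ad_mul hF',
          ad_mul hF', a1, a2, Matrix.mul_assoc]
      rw [mem_gu hF', mem_gu hF', Units.coe_map, a3, ← map_mul, ← map_one (em h)]
      exact (em_inj h).eq_iff
  let ψ : Gam b F u q →* Gf u q (P * P') :=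
    ((Units.map (em h)).comp (Gam b F u q).subtype).codRestrict _ fun x =>
      ⟨(gam x).2 x.2, by
        show (1 - P * P') * em h _ = _
        rw [em_apply, mul_add, l3 h, l4 h, add_zero], by
        show em h _ * (1 - P * P') = _
        rw [em_apply, add_mul, l3 h, l5 h, add_zero]⟩
  have hψ : ∀ x, (ψ x : GL (Fin n) F) = Units.map (em h) (x : GL (Fin b) F) := fun _ => rfl
  have inj : Function.Injective ψ := fun x y e =>
    Subtype.ext (Units.ext (em_inj h (congrArg Units.val (congrArg Subtype.val e))))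
  have sur : Function.Surjective ψ := by
    intro y
    have k1 := em_right h y.2.2.1 y.2.2.2
    have k2 := em_right h (y⁻¹).2.2.1 (y⁻¹).2.2.2
    let x : GL (Fin b) F := ⟨P' * ((y : GL (Fin n) F) : Mt n F) * P,
      P' * (((y⁻¹ : Gf u q (P * P')) : GL (Fin n) F) : Mt n F) * P,
      em_inj h (by rw [map_mul, k1, k2, map_one]; exact Units.mul_inv _),
      em_inj h (by rw [map_mul, k1, k2, map_one]; exact Units.inv_mul _)⟩
    have k3 : Units.map (em h) x = y := Units.ext k1
    exact ⟨⟨x, (gam x).1 (k3 ▸ y.2.1)⟩, Subtype.ext k3⟩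
  refine ⟨MulEquiv.ofBijective ψ ⟨inj, sur⟩, fun x => ⟨rfl, ?_⟩⟩
  show (ψ x : GL (Fin n) F) ∈ _ ↔ _
  have d : Matrix.GeneralLinearGroup.det (ψ x : GL (Fin n) F) =
      Matrix.GeneralLinearGroup.det (x : GL (Fin b) F) := Units.ext (em_det h _)
  rw [Sg, Sg, mem_inf, mem_inf, MonoidHom.mem_ker, MonoidHom.mem_ker, d, hψ, gam]

end H72.SimEMB
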