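import Cfsg.Agent.H60.OreSpec

/-! Tower ORE (row S2444): scalar matrices, the block `{X - l} + edc ((X - l) (X - μ))`, and
fields with at least four elements. -/

set_option autoImplicit false

namespace H72.Ore
open Polynomial Module H53 H60.Ore Matrix

universe u
variable {F : Type u} [Field F]

theorem cm_zero : Cm (0 : Multiset F[X]) := fun n g hg => by
  have := (ed_eq_zero_iff _).1 hg
  exact ⟨1, 1, Subtype.ext (Matrix.toLin'.injective (Subsingleton.elim _ _))⟩

theorem exists_ne3 [Fintype F] (h : 4 ≤ Fintype.card F) (a b c : F) :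
    ∃ z, z ≠ a ∧ z ≠ b ∧ z ≠ c := by
  classical
  by_contra k
  have : (Finset.univ : Finset F) ⊆ {a, b, c} := fun z _ => by
    by_contra hz
    simp only [Finset.mem_insert, Finset.mem_singleton, not_or] at hz
    exact k ⟨z, hz⟩
  have h1 := Finset.card_le_card this
  have h2 : ({a, b, c} : Finset F).card ≤ 3 := Finset.card_le_three
  rw [Finset.card_univ] at h1
  omega

theorem cm_scalar {ι : Type*} [Fintype ι] [DecidableEq ι] {l : F} {A S : Matrix ι ι F}
    (hA : A.det = 1) (hS : S.det = 1) (h : A * S = l • (S * A)) :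
    Cm (Multiset.replicate (Fintype.card ι) (X - C l)) := by
  intro n g hg
  have hn : Fintype.card ι = n := by
    have := sum_natDegree_med g.1
    rw [hg] at this
    simpa using this
  have hl : g.1 = l • 1 := by
    have := (pow_eq_smul_one_iff_med g.1 1 l).2 fun P hP => by
      rw [hg] at hP
      rw [Multiset.eq_of_mem_replicate hP, pow_one]
    rwa [pow_one] at this
  let e : ι ≃ Fin n := Fintype.equivFinOfCardEq hn
  let a : Matrix.SpecialLinearGroup (Fin n) F := ⟨reindex e e A, by rw [det_reindex_self, hA]⟩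
  let b : Matrix.SpecialLinearGroup (Fin n) F := ⟨reindex e e S, by rw [det_reindex_self, hS]⟩
  have k : a * b = g * (b * a) := Subtype.ext (by
    change reindex e e A * reindex e e S = g.1 * (reindex e e S * reindex e e A)
    rw [hl, smul_mul_assoc, one_mul]
    simp only [reindex_apply, submatrix_mul_equiv, h]
    rfl)
  exact ⟨a, b, by rw [k]; group⟩

theorem chain_lin (l : F) (k : ℕ) : ∃ t, 2 * t = (k + 1) * (k + 2) ∧
    E (Multiset.replicate (k + 1) (X - C l)) {X - C 1} {X - C (l ^ (k + 1))} (l ^ t) True := by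
  induction k with
  | zero => exact ⟨1, rfl, by simpa using E.lin l 1⟩
  | succ k ih =>
    obtain ⟨t, h1, h2⟩ := ih
    refine ⟨t + (k + 2), by linarith, ?_⟩
    have := h2.chain (E.lin l (l ^ (k + 1)))
    rw [← pow_succ', ← pow_add] at this
    rw [Multiset.replicate_add (k + 1) 1]
    exact this.congr rfl rfl fun _ => .inl trivial

theorem jobSc : JobSc.{u} := by
  intro F _ _ l n hl
  rcases n with _ | n
  · exact cm_zero
  obtain ⟨t, h1, h2⟩ := chain_lin l n
  by_cases ht : l ^ t = 1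
  · exact E.cm (l := True) (h2.congr (by simp [hl]) ht id) (.inl trivial)
  obtain ⟨k, hk⟩ : Even (n + 1) := Nat.not_odd_iff_even.1 fun ⟨k, hk⟩ => ht (by
    rw [show t = (n + 1) * (k + 1) by nlinarith, pow_mul, hl, one_pow])
  have hm : l ^ k = -1 := by
    refine (mul_self_eq_one_iff.1 (by rw [← pow_add, ← hk, hl])).resolve_left fun h => ht ?_
    rw [show t = k * (n + 2) by nlinarith, pow_mul, h, one_pow]
  have h2' : ringChar F ≠ 2 := fun h => ht (by
    rw [show t = k * (n + 2) by nlinarith, pow_mul, hm, neg_one_eq_one_iff.2 h, one_pow])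
  obtain ⟨x, y, hxy⟩ := FiniteField.exists_root_sum_quadratic (f := (X ^ 2 : F[X]))
    (g := X ^ 2 - C l) (by simp) (degree_X_pow_sub_C (by norm_num) l)
    (FiniteField.odd_card_of_char_ne_two h2')
  have hxy : x ^ 2 + y ^ 2 = l := by
    simp only [eval_pow, eval_X, eval_sub, eval_C] at hxy
    linear_combination hxy
  obtain ⟨k, rfl⟩ : ∃ j, k = j + 1 := ⟨k - 1, by omega⟩
  let s : Matrix (Fin 2) (Fin 2) F := !![x, y; y, -x]
  let j : Matrix (Fin 2) (Fin 2) F := !![0, -1; 1, 0]
  let M : Fin (k + 1) → Matrix (Fin 2) (Fin 2) F := fun i => l ^ (i : ℕ) • s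
  let J : Fin (k + 1) → Matrix (Fin 2) (Fin 2) F := fun i => if i = Fin.last k then j else 1
  let σ : Equiv.Perm (Fin 2 × Fin (k + 1)) := Equiv.prodCongrRight fun _ => finRotate (k + 1)
  have key := cm_scalar (l := l) (A := blockDiagonal M) (S := (blockDiagonal J).submatrix σ.symm id)
    (by
      have : ∀ r : ℕ, ∏ i ∈ Finset.range r, (l ^ i • s).det = (-1) ^ r * l ^ (r * r) := fun r => by
        induction r with
        | zero => simp
        | succ r ih =>
          rw [Finset.prod_range_succ, ih, det_smul, det_fin_two_of, Fintype.card_fin,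
            show x * -x - y * y = -l by linear_combination -hxy]
          ring
      rw [det_blockDiagonal, ← Finset.prod_range fun i => (l ^ i • s).det, this, pow_mul, hm,
        ← mul_pow]
      simp)
    (by
      rw [det_permute, det_blockDiagonal, Finset.prod_eq_one fun i _ => by
        simp only [J]; split_ifs <;> simp [j], Equiv.Perm.sign_symm, Equiv.Perm.sign_prodCongrRight]
      simp [← pow_two])
    (by
      have e1 : (blockDiagonal M).submatrix σ σ = blockDiagonal fun i => M (finRotate (k + 1) i) := by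
        ext ⟨a, i⟩ ⟨b, i'⟩
        simp [σ, blockDiagonal_apply]
      have e2 : blockDiagonal M = ((blockDiagonal M).submatrix σ σ).submatrix σ.symm σ.symm := by
        simp
      have e3 : (blockDiagonal J).submatrix σ.symm id * blockDiagonal M =
          (blockDiagonal J * blockDiagonal M).submatrix σ.symm id := rfl
      rw [e3]
      conv_lhs => rw [e2, submatrix_mul_equiv, e1]
      rw [← blockDiagonal_mul, ← blockDiagonal_mul]
      change _ = (l • blockDiagonal fun i => J i * M i).submatrix σ.symm id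
      rw [← blockDiagonal_smul]
      congr 2
      funext i
      simp only [M, J, Pi.smul_apply]
      split_ifs with hi
      · subst hi
        rw [finRotate_last, mul_smul_comm, smul_smul, Fin.val_last, ← pow_succ', hm]
        simp [s, j]
      · rw [coe_finRotate_of_ne_last hi, mul_one, one_mul, smul_smul, pow_succ'])
  rwa [Fintype.card_prod, Fintype.card_fin, Fintype.card_fin, two_mul, ← hk] at key

theorem med_comp (c0 c1 c2 : F) {r : F} (hr : r ≠ 0) {p : F[X]}
    (hp : p = X ^ 3 - C c2 * X ^ 2 - C (c1 * r) * X - C (c0 * r ^ 2)) :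
    med !![0, 0, c0; r, 0, c1; 0, r, c2] = edc p := by
  have hm : p.Monic := by rw [hp]; monicity!
  refine ed_eq_edc hm.ne_zero (sim_cyc_of_vec (v := ![1, 0, 0]) (fun w => ?_) hm.ne_zero ?_ ?_)
  · refine ⟨C (w 0) + C (w 1 / r) * X + C (w 2 / r ^ 2) * X ^ 2, ?_⟩
    ext i; fin_cases i <;>
      simp [Matrix.toLin'_apply, Matrix.mulVec, dotProduct, pow_two, Fin.sum_univ_three,
        vecHead, vecTail] <;> field_simp
  · rw [hp]
    ext i; fin_cases i <;>
      simp [Matrix.toLin'_apply, Matrix.mulVec, dotProduct, pow_succ, Fin.sum_univ_three, vecHead,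
        vecTail] <;> ring
  · rw [finrank_fin_fun, hp]; compute_degree!

theorem med_tri {l μ u v t : F} (h : t * (μ - l) - v ≠ 0) :
    med !![l, 0, u; 0, l, v; 0, 0, μ] = (X - C l) ::ₘ edc ((X - C l) * (X - C μ)) := by
  have h1 : IsConj !![l, 0, 0; 0, l, 0; 0, 1, μ] !![l, 0, u; 0, l, v; 0, 0, μ] := by
    obtain ⟨c, hc⟩ := (Matrix.isUnit_iff_isUnit_det !![1, 0, u; 0, t, v; 0, 1, μ - l]).2
      (Ne.isUnit (by simpa [det_fin_three] using h))
    refine ⟨c, ?_⟩
    rw [SemiconjBy, hc]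
    ext i j; fin_cases i <;> fin_cases j <;> simp [Matrix.mul_apply, Fin.sum_univ_three] <;> ring
  have h2 : !![l, 0, 0; 0, l, 0; 0, 1, μ] =
      reindex finSumFinEquiv finSumFinEquiv (fromBlocks !![l] 0 0 !![l, 0; 1, μ]) := by
    ext i j; fin_cases i <;> fin_cases j <;> rfl
  have h3 : med !![l] = {X - C l} := by
    rw [← edc_lin]
    refine ed_eq_edc (X_sub_C_ne_zero l) (sim_cyc_of_vec (v := ![1]) (fun w => ⟨C (w 0), ?_⟩)
      (X_sub_C_ne_zero l) ?_ (by simp))
    · ext i; fin_cases i; simp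
    · ext i; fin_cases i; simp [Matrix.toLin'_apply, Matrix.mulVec, dotProduct]
  rw [← (isConj_iff_med_eq _ _).1 h1, h2, med_reindex, med_fromBlocks, h3, med_two one_ne_zero,
    Multiset.singleton_add]
  congr 2
  simp only [map_add, map_sub, map_mul, map_zero, map_one]
  ring

theorem jobR1 : JobR1.{u} := by
  intro F _ _ hF l μ hl h1 hμ
  have hd : dm ((X - C l) ::ₘ edc ((X - C l) * (X - C μ))) = l * (l * μ) := by
    rw [dm_cons, dm_edc ((monic_X_sub_C l).mul (monic_X_sub_C μ)),
      dt_mul (monic_X_sub_C l) (monic_X_sub_C μ), dt_lin, dt_lin]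
  refine ⟨by simp [hd, hl, hμ], fun a ω ha hω => ?_⟩
  rw [hd]
  set b := l * (l * μ) * a with hb
  have b0 : b ≠ 0 := by simp [hb, hl, hμ, ha]
  set ζ := ω / b with hζ
  obtain ⟨τ, t1, t2, t3⟩ := exists_ne3 hF ((a ^ 2 + ζ) / a) ((b ^ 2 + ζ) / b) ((l * a - b) / (1 - l))
  have ev : ∀ c : F, c ≠ 0 → τ ≠ (c ^ 2 + ζ) / c → (X ^ 2 - C τ * X + C ζ).eval c ≠ 0 :=
    fun c hc k k' => k (by
      simp only [eval_add, eval_sub, eval_pow, eval_X, eval_mul, eval_C] at k'
      rw [eq_div_iff hc]; linear_combination -k')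
  obtain ⟨t, ht⟩ : ∃ t, t * (μ - l) - l * (b + τ - μ * (a + τ)) ≠ 0 := by
    by_cases k : μ = l
    · refine ⟨0, fun k' => t3 ?_⟩
      rw [eq_div_iff (sub_ne_zero.2 h1.symm)]
      apply mul_left_cancel₀ hl
      rw [k] at k'
      linear_combination -k'
    · exact ⟨(l * (b + τ - μ * (a + τ)) + 1) / (μ - l), by
        rw [div_mul_cancel₀ _ (sub_ne_zero.2 k)]; simp⟩
  have eP := (med_comp (l ^ 2 * a * ζ) (-l * (ζ + a * τ)) (a + τ) (inv_ne_zero hl)
    (p := (X - C a) * (X ^ 2 - C τ * X + C ζ)) (by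
      rw [show -l * (ζ + a * τ) * l⁻¹ = -(ζ + a * τ) by field_simp,
        show l ^ 2 * a * ζ * l⁻¹ ^ 2 = a * ζ by field_simp]
      simp only [map_add, map_neg, map_mul]; ring)).trans (edc_lin_mul (ev a ha t1))
  have eY := (med_comp (b * ζ) (-(ζ + b * τ)) (b + τ) one_ne_zero
    (p := (X - C b) * (X ^ 2 - C τ * X + C ζ)) (by
      simp only [map_add, map_neg, map_mul, map_pow, map_one]; ring)).trans (edc_lin_mul (ev b b0 t2))
  refine E.intro (med_tri (u := l * (-(ζ + b * τ) + μ * l * (ζ + a * τ))) ht)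
    ⟨toLin' !![0, 0, l ^ 2 * a * ζ; l⁻¹, 0, -l * (ζ + a * τ); 0, l⁻¹, a + τ],
      toLin' !![0, 0, b * ζ; 1, 0, -(ζ + b * τ); 0, 1, b + τ], ?_, ?_, ?_, fun _ => ⟨b, ?_⟩⟩
  · rw [Module.End.mul_eq_comp, ← Matrix.toLin'_mul]
    congr 1
    ext i j; fin_cases i <;> fin_cases j <;> simp [Matrix.mul_apply, Fin.sum_univ_three, hl] <;>
      field_simp <;> ring
  · rw [med] at eP eY
    rw [eP, eY, ← Multiset.singleton_add, ← Multiset.singleton_add]; abel
  · rw [LinearMap.det_toLin', det_fin_three]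
    simp [hζ, b0, mul_div_cancel₀]
  · rw [med] at eY
    rw [eY]; exact Multiset.mem_cons_self _ _

theorem cm_nsmul {m : Multiset F[X]} (h : E m 0 0 1 True) (s : ℕ) : Cm (s • m) := by
  rcases s with _ | s
  · exact cm_zero
  refine E.cm (l := True) ?_ (.inl trivial)
  induction s with
  | zero => simpa using h
  | succ s ih =>
    rw [succ_nsmul]
    exact (ih.add h).congr (by simp) (one_mul 1) fun _ => .inl trivial

theorem cm_rep [Fintype F] (hF : 4 ≤ Fintype.card F) (K : Kit F) {f : F[X]} (hm : f.Monic)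
    (h2 : f.natDegree = 2) {s : ℕ} (hd : dt f ^ s = 1) : Cm (s • edc f) := by
  obtain ⟨z, z0, z1, z2⟩ := exists_ne3 hF 0 1 (-1)
  by_cases d1 : dt f = 1
  · refine cm_nsmul ((K.two f z z⁻¹ hm h2 (inv_ne_zero z0) ?_ ?_).congr (by simp [d1])
      (by simp [d1, z0]) id) s
    all_goals
      rw [ne_eq, inv_eq_iff_eq_inv, ← mul_eq_one_iff_eq_inv₀ (by simp [d1, z0])]
      simp [d1, mul_self_eq_one_iff, z1, z2]
  by_cases d2 : dt f = -1
  · obtain ⟨k, rfl⟩ : Even s := by
      rw [d2] at hd d1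
      exact (neg_one_pow_eq_one_iff_even d1).1 hd
    have e1 := K.two f 1 z hm h2 z0 z1 (by simpa [d2] using z2)
    have e2 := K.two f (dt f * 1) (-z⁻¹) hm h2 (by simpa using z0) (by simpa [d2] using z1)
      (by simpa [d2, neg_eq_iff_eq_neg, inv_eq_iff_eq_inv] using z2)
    rw [← two_mul, mul_nsmul, two_nsmul]
    exact cm_nsmul ((e1.chain e2).congr (by simp [d2]) (by simp [d2, z0]) fun _ => .inl trivial) k
  rcases s with _ | s
  · exact cm_zero
  have d0 : dt f ≠ 0 := fun h => by simp [h] at hd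
  have step : ∀ k : ℕ, E (edc f) {X - C (dt f ^ k)} {X - C (dt f ^ (k + 1))} (dt f ^ (2 * k + 3)) True :=
    fun k => (K.two f (dt f ^ k) (dt f * dt f * dt f ^ k) hm h2 (by simp [d0])
      (fun h => by
        rcases mul_self_eq_one_iff.1 (mul_left_eq_self₀.1 h |>.resolve_right (pow_ne_zero k d0))
        exacts [d1 ‹_›, d2 ‹_›])
      (fun h => d1 (mul_left_cancel₀ d0 (by
        simpa using mul_right_cancel₀ (pow_ne_zero k d0) h)))).congr (by rw [pow_succ'])
      (by ring) id
  have key : ∀ k : ℕ, E ((k + 1) • edc f) {X - C 1} {X - C (dt f ^ (k + 1))}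
      (dt f ^ ((k + 1) * (k + 3))) True := fun k => by
    induction k with
    | zero => simpa using step 0
    | succ k ih =>
      rw [succ_nsmul]
      exact (ih.chain (step (k + 1))).congr rfl (by ring) fun _ => .inl trivial
  exact E.cm (l := True) ((key s).congr (by simp [hd]) (by rw [pow_mul, hd, one_pow]) id)
    (.inl trivial)

theorem eq_lin {P : F[X]} (h : P.Monic) (h1 : P.natDegree = 1) : ∃ l, P = X - C l :=
  ⟨-P.coeff 0, by rw [map_neg, sub_neg_eq_add]; exact h.eq_X_add_C h1⟩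

theorem jobQ4 : JobQ4.{u} := by
  intro hs hr F _ _ hF K m hA hd
  classical
  have fl : ∀ f : F[X], f.Monic → f.coeff 0 ≠ 0 → 3 ≤ f.natDegree → Flex (edc f) :=
    fun f h1 h2 h3 => K.flex f h1 h2 h3 fun h => by omega
  have ne0 : ∀ l, X - C l ∈ m → l ≠ 0 := fun l hl => by simpa using (hA _ hl).2
  have semi : ∀ P ∈ m, Semi {P} True := fun P hP => by
    obtain ⟨h1, h2⟩ := hA P hP
    have := h1.natDegree_pos
    rcases (by omega : P.natDegree = 1 ∨ P.natDegree = 2 ∨ 3 ≤ P.natDegree) with h | h | h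
    · obtain ⟨l, rfl⟩ := eq_lin h1.monic h
      exact Semi.lin (ne0 l hP)
    · have d0 : dt P ≠ 0 := by simpa [dt] using h2
      refine ⟨by simpa using d0, fun a ha => ?_⟩
      obtain ⟨z, z0, z1, z2⟩ := exists_ne3 hF 0 a (dt P * a)
      refine ⟨_, mul_ne_zero (mul_ne_zero d0 ha) z0, ?_⟩
      rw [dm_singleton, ← edc_pp h1]
      exact K.two P a z h1.monic h z0 z1 z2
    · exact edc_pp h1 ▸ (fl P h1.monic h2 h).semi
  have hfl : ∀ s ≤ m, Flex s → Cm m := fun s h1 h2 =>
    (Flex.of_le h1 h2 (Semi.of_forall fun P hP => semi P (Multiset.mem_of_le tsub_le_self hP))).cm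
  by_cases c3 : ∃ P ∈ m, 3 ≤ P.natDegree
  · obtain ⟨P, hP, h⟩ := c3
    exact hfl {P} (Multiset.singleton_le.2 hP) (edc_pp (hA P hP).1 ▸ fl P (hA P hP).1.monic (hA P hP).2 h)
  by_cases c1 : X - C 1 ∈ m
  · exact hfl _ (Multiset.singleton_le.2 c1) Flex.one
  have le2 : ∀ {P Q : F[X]}, P ∈ m → Q ∈ m → P ≠ Q → ({P, Q} : Multiset F[X]) ≤ m := fun hP hQ h =>
    (Multiset.le_iff_subset (by simpa using h)).2 (by simp [Multiset.subset_iff, hP, hQ])
  by_cases c2 : ∃ B ∈ m, B.natDegree = 2
  · obtain ⟨B, hB, h2⟩ := c2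
    by_cases c : ∀ Q ∈ m, Q = B
    · rw [Multiset.eq_replicate_card.2 c] at hd ⊢
      rw [← Multiset.nsmul_singleton, ← edc_pp (hA B hB).1]
      exact cm_rep hF K (hA B hB).1.monic h2 (by simpa [dm] using hd)
    push Not at c
    obtain ⟨Q, hQ, hne⟩ := c
    obtain ⟨φ, k, m1, i1, k0, rfl⟩ := (hA B hB).1
    obtain ⟨ψ, j, m2, i2, j0, rfl⟩ := (hA Q hQ).1
    by_cases c : φ = ψ
    · subst c
      have h3 : ¬ 3 ≤ (φ ^ j).natDegree := fun h => c3 ⟨_, hQ, h⟩
      rw [natDegree_pow] at h2 h3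
      have h4 : j ≠ k := fun h => hne (by rw [h])
      have h5 := i1.natDegree_pos
      obtain ⟨rfl, rfl, h6⟩ : k = 2 ∧ j = 1 ∧ φ.natDegree = 1 := by
        have : k ≤ 2 := by nlinarith
        have : j ≤ 2 := by nlinarith
        interval_cases k <;> interval_cases j <;> omega
      obtain ⟨l, rfl⟩ := eq_lin m1 h6
      rw [pow_one] at hQ hne
      refine hfl _ (le2 hQ hB hne) ?_
      have := hr F hF l l (ne0 l hQ) (fun h => c1 (h ▸ hQ)) (ne0 l hQ)
      rwa [← pow_two, edc_pp (hA _ hB).1] at this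
    · refine hfl _ (le2 hB hQ hne.symm) ?_
      rw [pair_eq_edc (hA _ hB).1 (hA _ hQ).1 (isCoprime_of_monic_irreducible_ne m1 i1 m2 i2 c).pow]
      refine fl _ ((m1.pow k).mul (m2.pow j)) (by
        rw [mul_coeff_zero]; exact mul_ne_zero (hA _ hB).2 (hA _ hQ).2) ?_
      have := (hA _ hQ).1.natDegree_pos
      rw [(m1.pow k).natDegree_mul (m2.pow j)]
      omega
  have lin : ∀ P ∈ m, ∃ l, P = X - C l := fun P hP => eq_lin (hA P hP).1.monic (by
    have := (hA P hP).1.natDegree_pos
    have : ¬ 3 ≤ P.natDegree := fun h => c3 ⟨P, hP, h⟩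
    have : P.natDegree ≠ 2 := fun h => c2 ⟨P, hP, h⟩
    omega)
  have cop : ∀ a b : F, X - C a ≠ X - C b → IsCoprime (X - C a) (X - C b) := fun a b h =>
    isCoprime_of_monic_irreducible_ne (monic_X_sub_C a) (irreducible_X_sub_C a) (monic_X_sub_C b)
      (irreducible_X_sub_C b) h
  rcases m.empty_or_exists_mem with rfl | ⟨P, hP⟩
  · exact cm_zero
  obtain ⟨l, rfl⟩ := lin P hP
  by_cases c : ∀ Q ∈ m, Q = X - C l
  · rw [Multiset.eq_replicate_card.2 c] at hd ⊢
    exact hs F l _ (by simpa [dm] using hd)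
  push Not at c
  obtain ⟨Q, hQ, hne⟩ := c
  obtain ⟨μ, rfl⟩ := lin Q hQ
  by_cases c : ∃ R ∈ m, R ≠ X - C l ∧ R ≠ X - C μ
  · obtain ⟨R, hR, r1, r2⟩ := c
    obtain ⟨ν, rfl⟩ := lin R hR
    refine hfl ((X - C ν) ::ₘ {X - C l, X - C μ}) ((Multiset.le_iff_subset (by
      simp [-sub_right_inj, r1, r2, hne.symm])).2 (by simp [Multiset.subset_iff, hP, hQ, hR])) ?_
    rw [pair_eq_edc (isPP_lin l) (isPP_lin μ) (cop _ _ hne.symm), ← Multiset.singleton_add,
      ← edc_lin, ← edc_mul (X_sub_C_ne_zero ν) (mul_ne_zero (X_sub_C_ne_zero l) (X_sub_C_ne_zero μ))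
        ((cop _ _ r1).mul_right (cop _ _ r2))]
    refine fl _ ((monic_X_sub_C ν).mul ((monic_X_sub_C l).mul (monic_X_sub_C μ))) (by
      simp [ne0 _ hP, ne0 _ hQ, ne0 _ hR]) ?_
    rw [(monic_X_sub_C ν).natDegree_mul ((monic_X_sub_C l).mul (monic_X_sub_C μ)),
      (monic_X_sub_C l).natDegree_mul (monic_X_sub_C μ)]
    simp
  have two : ∀ a b : F, X - C a ∈ m → X - C b ∈ m → m.count (X - C b) < m.count (X - C a) → Cm m :=
    fun a b ha hb h => by
      have hab : X - C a ≠ X - C b := fun k => by rw [k] at h; omega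
      have := Multiset.count_pos.2 hb
      refine hfl _ ?_ (hr F hF a b (ne0 a ha) (fun k => c1 (k ▸ ha)) (ne0 b hb))
      rw [← pair_eq_edc (isPP_lin a) (isPP_lin b) (cop _ _ hab), Multiset.le_iff_count]
      intro R
      simp only [Multiset.insert_eq_cons, Multiset.count_cons, Multiset.count_singleton]
      split_ifs with h1 h2 h2
      · exact absurd (h2.symm.trans h1) hab
      · rw [h1]; omega
      · rw [h2]; omega
      · omega
  rcases lt_trichotomy (m.count (X - C l)) (m.count (X - C μ)) with h | h | h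
  · exact two μ l hQ hP h
  · have e : m = m.count (X - C l) • edc ((X - C l) * (X - C μ)) := by
      rw [← pair_eq_edc (isPP_lin l) (isPP_lin μ) (cop _ _ hne.symm), Multiset.ext]
      intro R
      simp only [Multiset.insert_eq_cons, Multiset.count_nsmul, Multiset.count_cons,
        Multiset.count_singleton]
      split_ifs with h1 h2 h2
      · exact absurd (h1.symm.trans h2) hne
      · rw [h1, h]; omega
      · rw [h2]; omega
      · exact Multiset.count_eq_zero.2 fun k => c ⟨R, k, h2, h1⟩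
    have hm := (monic_X_sub_C l).mul (monic_X_sub_C μ)
    rw [e] at hd ⊢
    refine cm_rep hF K hm (by rw [(monic_X_sub_C l).natDegree_mul (monic_X_sub_C μ)]; simp) ?_
    rwa [dm, Multiset.map_nsmul, Multiset.prod_nsmul, ← dm, dm_edc hm] at hd
  · exact two l μ hP hQ h

end H72.Ore
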