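/- C3 tower (row S5227): the permutation group of degree ten. -/
import Cfsg.Agent.H20.C3Spec

set_option autoImplicit false

namespace H72.C3

open H20.C3 (F3 JobPG)

/-- digit `i` in base 16 -/
def dg (S i : ℕ) : ℕ := Nat.mod (Nat.shiftRight S (Nat.mul 4 i)) 16
/-- the translation table -/
def tb (u : ℕ) : ℕ := Nat.shiftRight 0x5462138790465132798065432198702138795460132798465032198765408795462130798465132098765432100000000000 (Nat.mul 40 u)
def hh (S R w u ω : ℕ) : ℕ := dg R (dg w (dg S (dg u (dg R ω))))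
def ck (S R w u a b : ℕ) : Bool := Nat.beq (dg 0x2221110000 (hh S R w u a)) (dg 0x2221110000 (hh S R w u b))
def frc (n : ℕ) (k : ℕ → Bool) : Bool := Nat.rec (k 0) (fun m _ => k (Nat.succ m)) n
def pp (S R u : ℕ) : Bool := frc (tb (dg 0x5648972310 (dg S u))) fun w => frc (tb u) fun u' =>
  ck S R w u' 1 2 && (ck S R w u' 2 3 && (ck S R w u' 4 5 && (ck S R w u' 5 6 && (ck S R w u' 7 8 && ck S R w u' 8 9))))
def chk (S R : ℕ) : Bool := !(pp S R 2 && (pp S R 4 && pp S R 5))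
def alN (n : ℕ) (f : ℕ → Bool) : Bool := Nat.rec true (fun j r => f j && r) n
/-- all extensions -/
def go (k : ℕ) : ℕ → ℕ → Bool := Nat.rec chk (fun i ih S R =>
  alN 8 fun j => cond (Nat.beq (dg R (Nat.add j 2)) 0)
    (frc (Nat.add S (Nat.shiftLeft (Nat.add j 2) (Nat.mul 4 (Nat.add i 2)))) fun S' =>
      frc (Nat.add R (Nat.shiftLeft (Nat.add i 2) (Nat.mul 4 (Nat.add j 2)))) fun R' => ih S' R') true) k

set_option maxRecDepth 100000 in
theorem key : go 8 1 1 = true := by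
  decide +kernel

theorem frc_eq (n : ℕ) (k : ℕ → Bool) : frc n k = k n := by cases n <;> rfl

theorem alN_sound (n : ℕ) (f : ℕ → Bool) (h : alN n f = true) : ∀ j < n, f j = true := by
  induction n with
  | zero => intro j hj; omega
  | succ n ih =>
    have h' : (f n && alN n f) = true := h
    rw [Bool.and_eq_true] at h'
    intro j hj
    rcases Nat.lt_succ_iff_lt_or_eq.mp hj with h1 | h1
    · exact ih h'.2 j h1
    · rw [h1]; exact h'.1

theorem go_step (k S R j : ℕ) (hj : j < 8) (h : go (k + 1) S R = true) (h0 : dg R (j + 2) = 0) :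
    go k (S + (j + 2) <<< (4 * (k + 2))) (R + (k + 2) <<< (4 * (j + 2))) = true := by
  have h' : alN 8 (fun j => cond (Nat.beq (dg R (Nat.add j 2)) 0)
    (frc (Nat.add S (Nat.shiftLeft (Nat.add j 2) (Nat.mul 4 (Nat.add k 2)))) fun S' =>
      frc (Nat.add R (Nat.shiftLeft (Nat.add k 2) (Nat.mul 4 (Nat.add j 2)))) fun R' => go k S' R') true) = true := h
  have h1 := alN_sound _ _ h' j hj
  have h2 : Nat.beq (dg R (Nat.add j 2)) 0 = true := by
    rw [Nat.beq_eq]; exact h0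
  simp only [h2, cond_true, frc_eq] at h1
  exact h1

/-- the code of a function -/
def enc (φ : ℕ → ℕ) : ℕ := ∑ i ∈ Finset.range 10, φ i * 16 ^ i

theorem dg_enc (φ : ℕ → ℕ) (h : ∀ i < 10, φ i < 16) (i : ℕ) (hi : i < 10) : dg (enc φ) i = φ i := by
  have h0 := h 0 (by norm_num)
  have h1 := h 1 (by norm_num)
  have h2 := h 2 (by norm_num)
  have h3 := h 3 (by norm_num)
  have h4 := h 4 (by norm_num)
  have h5 := h 5 (by norm_num)
  have h6 := h 6 (by norm_num)
  have h7 := h 7 (by norm_num)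
  have h8 := h 8 (by norm_num)
  have h9 := h 9 (by norm_num)
  have e : dg (enc φ) i = enc φ / 2 ^ (4 * i) % 16 := by
    rw [← Nat.shiftRight_eq_div_pow]; rfl
  rw [e]
  simp only [enc, Finset.sum_range_succ, Finset.sum_range_zero]
  interval_cases i <;> norm_num <;> omega

theorem enc_add (φ ψ : ℕ → ℕ) (i x : ℕ) (hi : i < 10)
    (h : ∀ j < 10, ψ j = φ j + if j = i then x else 0) : enc ψ = enc φ + x <<< (4 * i) := by
  have e : enc ψ = ∑ j ∈ Finset.range 10, (φ j * 16 ^ j + if j = i then x * 16 ^ j else 0) := by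
    refine Finset.sum_congr rfl fun j hj => ?_
    rw [h j (Finset.mem_range.mp hj)]
    split_ifs <;> ring
  rw [e, Finset.sum_add_distrib, Finset.sum_ite_eq', if_pos (Finset.mem_range.mpr hi), Nat.shiftLeft_eq,
    pow_mul]
  rfl

theorem go_sound (σ ρ : ℕ → ℕ) (hσ : ∀ i < 10, σ i < 10 ∧ ρ (σ i) = i) (hρ : ∀ j < 10, ρ j < 10 ∧ σ (ρ j) = j)
    (h0 : σ 0 = 1) (h1 : σ 1 = 0) : chk (enc σ) (enc ρ) = true := by
  have main : ∀ k ≤ 8, go k (enc fun i => if i < 2 ∨ k + 2 ≤ i then σ i else 0)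
      (enc fun j => if ρ j < 2 ∨ k + 2 ≤ ρ j then ρ j else 0) = true → chk (enc σ) (enc ρ) = true := by
    intro k
    induction k with
    | zero =>
      intro _ h
      have e1 : (fun i => if i < 2 ∨ 0 + 2 ≤ i then σ i else 0) = σ := by
        funext i; rw [if_pos (by omega)]
      have e2 : (fun j => if ρ j < 2 ∨ 0 + 2 ≤ ρ j then ρ j else 0) = ρ := by
        funext i; rw [if_pos (by omega)]
      rw [e1, e2] at h
      exact h
    | succ k ih =>
      intro hk h
      apply ih (by omega)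
      obtain ⟨a1, a2⟩ := hσ (k + 2) (by omega)
      have b0 := (hσ 0 (by norm_num)).2
      have b1 := (hσ 1 (by norm_num)).2
      rw [h0] at b0
      rw [h1] at b1
      obtain ⟨j, hj⟩ : ∃ j, σ (k + 2) = j + 2 := by
        refine ⟨σ (k + 2) - 2, ?_⟩
        have c0 : σ (k + 2) ≠ 0 := fun c => by rw [c] at a2; omega
        have c1 : σ (k + 2) ≠ 1 := fun c => by rw [c] at a2; omega
        omega
      have hs := go_step k _ _ j (by omega) h (by
        rw [dg_enc _ _ _ (by omega)]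
        · rw [← hj, a2, if_neg (by omega)]
        · intro i hi
          have := (hρ i hi).1
          split_ifs <;> omega)
      have eS : enc (fun i => if i < 2 ∨ k + 2 ≤ i then σ i else 0) =
          enc (fun i => if i < 2 ∨ k + 1 + 2 ≤ i then σ i else 0) + (j + 2) <<< (4 * (k + 2)) := by
        refine enc_add _ _ _ _ (by omega) fun i hi => ?_
        by_cases c : i = k + 2
        · rw [c, if_pos (by omega), if_neg (by omega), if_pos rfl, zero_add, hj]
        · rw [if_neg c, add_zero]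
          exact if_congr (by omega) rfl rfl
      have eR : enc (fun j => if ρ j < 2 ∨ k + 2 ≤ ρ j then ρ j else 0) =
          enc (fun j => if ρ j < 2 ∨ k + 1 + 2 ≤ ρ j then ρ j else 0) + (k + 2) <<< (4 * (j + 2)) := by
        refine enc_add _ _ _ _ (by omega) fun i hi => ?_
        by_cases c : i = j + 2
        · rw [c, ← hj, a2, if_pos (by omega), if_neg (by omega), if_pos rfl, zero_add]
        · have c' : ρ i ≠ k + 2 := fun d => c (by rw [← hj, ← d, (hρ i hi).2])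
          rw [if_neg c, add_zero]
          exact if_congr (by omega) rfl rfl
      rw [eS, eR]
      exact hs
  have z : enc (fun _ => 0) = 0 := by simp [enc]
  have eS : enc (fun i => if i < 2 ∨ 8 + 2 ≤ i then σ i else 0) = enc (fun _ => 0) + 1 <<< (4 * 0) := by
    refine enc_add _ _ _ _ (by norm_num) fun j hj => ?_
    by_cases c : j = 0
    · rw [c, h0]; rfl
    · rw [if_neg c, add_zero]
      split_ifs with d
      · have : j = 1 := by omega
        rw [this, h1]
      · rfl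
  have eR : enc (fun j => if ρ j < 2 ∨ 8 + 2 ≤ ρ j then ρ j else 0) = enc (fun _ => 0) + 1 <<< (4 * 0) := by
    refine enc_add _ _ _ _ (by norm_num) fun j hj => ?_
    obtain ⟨c1, c2⟩ := hρ j hj
    by_cases c : j = 0
    · have b1 := (hσ 1 (by norm_num)).2
      rw [h1] at b1
      rw [c, b1]; rfl
    · rw [if_neg c, add_zero]
      split_ifs with d
      · have : ρ j = 0 ∨ ρ j = 1 := by omega
        rcases this with e | e
        · exact e
        · rw [e, h1] at c2; exact absurd c2.symm c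
      · rfl
  rw [z] at eS eR
  have eS' : enc (fun i => if i < 2 ∨ 8 + 2 ≤ i then σ i else 0) = 1 := eS
  have eR' : enc (fun j => if ρ j < 2 ∨ 8 + 2 ≤ ρ j then ρ j else 0) = 1 := eR
  apply main 8 le_rfl
  rw [eS', eR']
  exact key

/-- first coordinate -/
def cx (i : ℕ) : F3 := (((i - 1) / 3 : ℕ) : F3)
/-- second coordinate -/
def cy (i : ℕ) : F3 := ((i - 1 : ℕ) : F3)

set_option synthInstance.maxSize 2000 in
theorem f1 : ∀ u < 10, 1 ≤ u → ∀ i < 10, dg (tb u) i < 10 ∧ (i = 0 → dg (tb u) i = 0) ∧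
    (i ≠ 0 → dg (tb u) i ≠ 0 ∧ cx (dg (tb u) i) = cx u + cx i ∧ cy (dg (tb u) i) = cy u + cy i) := by
  decide +kernel
theorem f2 : ∀ u < 10, 1 ≤ u → 1 ≤ dg 0x5648972310 u ∧ dg 0x5648972310 u < 10 ∧ dg (tb (dg 0x5648972310 u)) u = 1 ∧ dg (tb u) 1 = u := by
  decide +kernel
theorem f4 : ∀ t : F3, ∃ u < 10, 1 ≤ u ∧ cx u = 0 ∧ cy u = t ∧
    ∀ j < 10, dg 0x2221110000 (dg (tb u) j) = dg 0x2221110000 j := by
  decide +kernel
set_option synthInstance.maxSize 2000 in
theorem f5 : ∀ i < 10, ∀ j < 10, i ≠ 0 → j ≠ 0 → cx i - cx j = 0 → cy i - cy j = 0 → i = j := by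
  decide +kernel

theorem jobPG : JobPG := by
  intro G Ω _ _ _ o v hc hv ho hf ⟨g, hg⟩ _ hn
  classical
  haveI : Finite Ω := Nat.finite_of_card_ne_zero (by rw [hc]; norm_num)
  have v0 : v 0 0 = 1 := by
    have := hv 0 0 0 0
    rw [add_zero] at this
    exact mul_eq_left.mp this
  obtain ⟨p, hp⟩ : ∃ p, p = g • o := ⟨_, rfl⟩
  rw [← hp] at hg
  obtain ⟨pt, hpt⟩ : ∃ pt : ℕ → Ω, ∀ i, pt i = if i = 0 then o else v (cx i) (cy i) • p := ⟨_, fun _ => rfl⟩
  have p0 : pt 0 = o := by rw [hpt, if_pos rfl]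
  have p1 : pt 1 = p := by
    rw [hpt, if_neg one_ne_zero]
    have : v (cx 1) (cy 1) = 1 := v0
    rw [this, one_smul]
  have ne : ∀ x y, v x y • p ≠ o := fun x y h => hg (by
    rw [← ho x y] at h; exact smul_left_cancel _ h)
  have inj : ∀ i < 10, ∀ j < 10, pt i = pt j → i = j := by
    intro i hi j hj h
    rw [hpt, hpt] at h
    by_cases a : i = 0 <;> by_cases b : j = 0
    · rw [a, b]
    · rw [if_pos a, if_neg b] at h; exact absurd h.symm (ne _ _)
    · rw [if_neg a, if_pos b] at h; exact absurd h (ne _ _)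
    · rw [if_neg a, if_neg b] at h
      have h2 : v (cx i - cx j) (cy i - cy j) • p = p := by
        have h3 := congrArg (fun ω => v (-cx j) (-cy j) • ω) h
        simp only [smul_smul, hv, neg_add_cancel, v0, one_smul] at h3
        rw [sub_eq_neg_add, sub_eq_neg_add]
        exact h3
      obtain ⟨c1, c2⟩ := hf _ _ p hg h2
      exact f5 i hi j hj a b c1 c2
  have sur : ∀ ω, ∃ i < 10, pt i = ω := by
    have hb : Function.Bijective (fun i : Fin 10 => pt i) := by
      rw [Nat.bijective_iff_injective_and_card]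
      refine ⟨fun i j h => Fin.ext (inj i i.2 j j.2 h), ?_⟩
      rw [hc]; simp
    intro ω
    obtain ⟨i, hi⟩ := hb.2 ω
    exact ⟨i, i.2, hi⟩
  have tv : ∀ u < 10, 1 ≤ u → ∀ i < 10, v (cx u) (cy u) • pt i = pt (dg (tb u) i) := by
    intro u hu hu1 i hi
    obtain ⟨_, a, b⟩ := f1 u hu hu1 i hi
    by_cases c : i = 0
    · rw [a c, c, p0, ho]
    · obtain ⟨b1, b2, b3⟩ := b c
      rw [hpt i, hpt (dg (tb u) i), if_neg c, if_neg b1, smul_smul, hv, b2, b3]
  obtain ⟨s, so, sp⟩ : ∃ s : G, s • o = p ∧ s • p = o := by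
    obtain ⟨i, hi, e⟩ := sur (g⁻¹ • o)
    rw [hpt] at e
    by_cases c : i = 0
    · rw [if_pos c, eq_inv_smul_iff, ← hp] at e
      exact absurd e hg
    · rw [if_neg c] at e
      refine ⟨g * v (cx i) (cy i), ?_, ?_⟩
      · rw [mul_smul, ho, hp]
      · rw [mul_smul, e, smul_inv_smul]
  choose σ hσ1 hσ2 using fun i => sur (s • pt i)
  choose ρ hρ1 hρ2 using fun i => sur (s⁻¹ • pt i)
  have h0 : σ 0 = 1 := inj _ (hσ1 0) 1 (by norm_num) (by rw [hσ2, p0, p1, so])
  have h1 : σ 1 = 0 := inj _ (hσ1 1) 0 (by norm_num) (by rw [hσ2, p0, p1, sp])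
  have hσ : ∀ i < 10, σ i < 10 ∧ ρ (σ i) = i := fun i hi =>
    ⟨hσ1 i, inj _ (hρ1 _) i hi (by rw [hρ2, hσ2, inv_smul_smul])⟩
  have hρ : ∀ j < 10, ρ j < 10 ∧ σ (ρ j) = j := fun i hi =>
    ⟨hρ1 i, inj _ (hσ1 _) i hi (by rw [hσ2, hρ2, smul_inv_smul])⟩
  have hk := go_sound σ ρ hσ hρ h0 h1
  have dS : ∀ i < 10, dg (enc σ) i = σ i := dg_enc σ fun i _ => by have := hσ1 i; omega
  have dR : ∀ i < 10, dg (enc ρ) i = ρ i := dg_enc ρ fun i _ => by have := hρ1 i; omega
  have hpp : ∀ u < 10, 2 ≤ u → pp (enc σ) (enc ρ) u = true := by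
    intro u hu hu2
    have w1 : 1 ≤ σ u := by
      by_contra c
      have c0 : σ u = σ 1 := by omega
      have := (hσ u hu).2
      rw [c0, (hσ 1 (by norm_num)).2] at this
      omega
    obtain ⟨n1, n2, n3, _⟩ := f2 (σ u) (hσ1 u) w1
    obtain ⟨w, hw⟩ : ∃ w, w = dg 0x5648972310 (σ u) := ⟨_, rfl⟩
    rw [← hw] at n1 n2 n3
    obtain ⟨H, hH⟩ : ∃ H : G, H = s⁻¹ * v (cx w) (cy w) * s * v (cx u) (cy u) * s⁻¹ := ⟨_, rfl⟩
    have hA : ∀ ω < 10, hh (enc σ) (enc ρ) (tb w) (tb u) ω < 10 ∧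
        H • pt ω = pt (hh (enc σ) (enc ρ) (tb w) (tb u) ω) := by
      intro ω hω
      have a1 := (f1 u hu (by omega) (ρ ω) (hρ1 ω)).1
      have a2 := (f1 w n2 n1 (σ (dg (tb u) (ρ ω))) (hσ1 _)).1
      rw [hh, dR ω hω, dS _ a1, dR _ a2]
      refine ⟨hρ1 _, ?_⟩
      rw [hH, mul_smul, mul_smul, mul_smul, mul_smul, ← hρ2, tv u hu (by omega) _ (hρ1 _), ← hσ2,
        tv w n2 n1 _ (hσ1 _), ← hρ2]
    have Ho : H • o = o := by
      have e1 : s⁻¹ • o = pt 1 := by rw [inv_smul_eq_iff, p1, sp]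
      have e2 : s⁻¹ • pt 1 = o := by rw [inv_smul_eq_iff, p1, so]
      rw [hH, mul_smul, mul_smul, mul_smul, mul_smul, e1, tv u hu (by omega) 1 (by norm_num),
        (f2 u hu (by omega)).2.2.2, ← hσ2, tv w n2 n1 _ (hσ1 _), n3, e2]
    obtain ⟨_, _, t, _, ht⟩ := hn H Ho
    obtain ⟨t', t1, t2, t3, t4, t5⟩ := f4 t
    have hck : ∀ a < 10, ck (enc σ) (enc ρ) (tb w) (tb u) a (dg (tb 2) a) = true := by
      intro a ha
      have a1 := (f1 2 (by norm_num) (by norm_num) a ha).1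
      obtain ⟨b1, b2⟩ := hA a ha
      obtain ⟨b3, b4⟩ := hA _ a1
      have e : v (cx 2) (cy 2) = v 0 1 := rfl
      have e2 : H * v 0 1 = v (cx t') (cy t') * H := by rw [t3, t4, ← ht, inv_mul_cancel_right]
      rw [← tv 2 (by norm_num) (by norm_num) a ha, e, smul_smul, e2, mul_smul, b2, tv t' t1 t2 _ b1] at b4
      have e3 := inj _ (f1 t' t1 t2 _ b1).1 _ b3 b4
      rw [ck, Nat.beq_eq, ← e3, t5 _ b1]
    rw [pp, frc_eq, frc_eq, dS u hu, ← hw]
    have k1 : ck (enc σ) (enc ρ) (tb w) (tb u) 1 2 = true := hck 1 (by norm_num)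
    have k2 : ck (enc σ) (enc ρ) (tb w) (tb u) 2 3 = true := hck 2 (by norm_num)
    have k3 : ck (enc σ) (enc ρ) (tb w) (tb u) 4 5 = true := hck 4 (by norm_num)
    have k4 : ck (enc σ) (enc ρ) (tb w) (tb u) 5 6 = true := hck 5 (by norm_num)
    have k5 : ck (enc σ) (enc ρ) (tb w) (tb u) 7 8 = true := hck 7 (by norm_num)
    have k6 : ck (enc σ) (enc ρ) (tb w) (tb u) 8 9 = true := hck 8 (by norm_num)
    rw [k1, k2, k3, k4, k5, k6]
    rfl
  rw [chk, hpp 2 (by norm_num) (by norm_num), hpp 4 (by norm_num) (by norm_num),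
    hpp 5 (by norm_num) (by norm_num)] at hk
  exact absurd hk (by decide)

end H72.C3
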