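/- Jobs MO and MJ of `blueprints/E7T.md`. -/
import Cfsg.Agent.H40.E7TSpec
import Cfsg.Agent.H61.E7Mod
import Cfsg.Agent.H58.E7Lin

set_option autoImplicit false

namespace H72.E7T

open Module H40.E7S H40.E7T H61.E7M H58.E7

universe u

variable {G : Type*} [Group G] {ρ : Representation (ZMod 2) G V56}

theorem inv_mem_kc {g h : G} (e : Commute g h) (v : V56) (hv : v ∈ kc (ρ g)) :
    ρ h v ∈ kc (ρ g) := by
  have c : ∀ w, ρ g (ρ h w) = ρ h (ρ g w) := fun w => by rw [← mul_ap, e.eq, mul_ap]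
  rw [mem_kc, c, c, ← map_add, ← map_add, mem_kc.1 hv, map_zero]

theorem split3 (hX : JobSplit) {M : Submodule (ZMod 2) V56} {z x y : G} (h1 : ∀ v ∈ M, ρ z v ∈ M)
    (h2 : ∀ v ∈ M, ρ x v ∈ M) (h3 : ∀ v ∈ M, ρ y v ∈ M) (h4 : M ≤ kc (ρ z)) (h5 : x ^ 3 = 1)
    (h6 : Commute z x) (h7 : Commute z y) (h8 : y * x * y⁻¹ = x * z) :
    dm M = 3 * dm (M ⊓ kf (ρ x)) :=
  hX.2.2 M _ _ (ρ y) h1 h2 h3 h4 (fun v _ => by rw [pw h5]; rfl)
    (fun v _ => by rw [← mul_ap, h6.eq, mul_ap])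
    (fun v w e => by simpa [← mul_ap] using congrArg (ρ y⁻¹) e)
    (fun v _ => by rw [← mul_ap, ← h7.eq, mul_ap])
    (fun v _ => by rw [← mul_ap, ← mul_ap, ← mul_ap, ← h8, inv_mul_cancel_right])

theorem fd_pow_mul {c x g : G} (cg : Commute c g) (eg : g * x * g⁻¹ = c * x) (i : ℕ) :
    fd ρ (c ^ i * x) = fd ρ x := by
  induction i with
  | zero => simp
  | succ i ih =>
    rw [← ih]
    refine fd_conj ρ (isConj_iff.2 ⟨g, ?_⟩).symm
    rw [← conj_mul, eg, ← (cg.pow_left i).eq, mul_inv_cancel_right, pow_succ, mul_assoc]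

theorem jobMO (hX : JobSplit) : JobMO.{u} := by
  rintro G _ ρ hg ⟨z, x, y, oz, cj, x3, zx, zy, e, c⟩
  have k0 : ∀ {g}, Commute z g → ∀ v ∈ kc (ρ z), ρ g v ∈ kc (ρ z) := inv_mem_kc
  have k1 : ∀ {g}, Commute z g → Commute (x 0) g → ∀ v ∈ kc (ρ z) ⊓ kf (ρ (x 0)),
      ρ g v ∈ kc (ρ z) ⊓ kf (ρ (x 0)) := fun a b v hv => ⟨k0 a v hv.1, inv_mem_kf b v hv.2⟩
  have k2 : ∀ {g}, Commute z g → Commute (x 0) g → Commute (x 1) g →
      ∀ v ∈ kc (ρ z) ⊓ kf (ρ (x 0)) ⊓ kf (ρ (x 1)),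
        ρ g v ∈ kc (ρ z) ⊓ kf (ρ (x 0)) ⊓ kf (ρ (x 1)) :=
    fun a b d v hv => ⟨k1 a b v hv.1, inv_mem_kf d v hv.2⟩
  have s0 := split3 hX (k0 (.refl z)) (k0 (zx 0)) (k0 (zy 0)) le_rfl (x3 0) (zx 0) (zy 0) (e 0)
  have s1 := split3 hX (k1 (.refl z) (zx 0).symm) (k1 (zx 1) (c 0 1 (by decide)).1)
    (k1 (zy 1) (c 0 1 (by decide)).2) inf_le_left (x3 1) (zx 1) (zy 1) (e 1)
  have s2 := split3 hX (k2 (.refl z) (zx 0).symm (zx 1).symm)
    (k2 (zx 2) (c 0 2 (by decide)).1 (c 1 2 (by decide)).1)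
    (k2 (zy 2) (c 0 2 (by decide)).2 (c 1 2 (by decide)).2) (inf_le_left.trans inf_le_left)
    (x3 2) (zx 2) (zy 2) (e 2)
  have s := hX.2.1 ⊤ (ρ z) (fun _ _ => trivial) fun v _ => by rw [pw (po oz)]; rfl
  rw [top_inf_eq, top_inf_eq, dm_top] at s
  change fd ρ z + _ = _ at s
  have p := part_top (ρ := ρ) jobPart Nat.prime_three (by norm_num) (zx 0) (po oz) (x3 0)
  simp only [fd_pow_mul (zy 0) ((e 0).trans (zx 0).eq.symm), fd_conj ρ cj, Finset.sum_const,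
    Finset.card_range, smul_eq_mul] at p
  have := hg.three z oz
  omega

theorem jobMJ : JobMJ.{u} := by
  rintro G _ ρ hg ⟨a, b, c, y, z, w, h, oa, e, ca, cb, h1, h2, h3, az⟩
  have cube : ∀ {x : G}, IsConj x a → x ^ 3 = 1 := fun hx => by
    obtain ⟨k, hk⟩ := isConj_iff.1 hx.symm
    rw [← hk, conj_pow, po oa]; simp
  have key : ∀ x g : G, IsConj x a → Commute c x → Commute c g → g * x * g⁻¹ = c * x →
      56 + 3 * f2 ρ c x = fd ρ c + 3 * fd ρ a := fun x g hx cx cg eg => by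
    simpa [fd_pow_mul cg eg, fd_conj ρ hx] using
      part_top (ρ := ρ) jobPart Nat.prime_three (by norm_num) cx (po h.ot) (cube hx)
  have eb : a * b * a⁻¹ = c * b := by rw [e, mul_assoc b, ← ca.eq, cb.eq]; group
  have k0 := key a b⁻¹ (IsConj.refl a) ca cb.inv_right (by rw [inv_inv, mul_assoc, e, ca.eq]; group)
  have k1 := key b a h1 cb ca eb
  have k2 := key (a * b) a h2 (ca.mul_right cb) ca (by
    rw [← conj_mul, eb, mul_inv_cancel_right, ← mul_assoc, ← ca.eq, mul_assoc])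
  have k3 := key (a ^ 2 * b) a h3 ((ca.pow_right 2).mul_right cb) ca (by
    rw [← conj_mul, eb, ← mul_assoc c, (ca.pow_right 2).eq]; group)
  obtain ⟨x, hx⟩ := part_kf (ρ := ρ) jobPart Nat.prime_three (by norm_num) ca cb (Or.inr e) (po oa)
    (cube h1)
  simp only [Finset.sum_range_succ, Finset.sum_range_zero, pow_zero, pow_one, one_mul] at hx
  have oy : orderOf y = 5 := by simpa using h.oy 0 (by norm_num)
  have t1 := tri (ρ := ρ) jobTri (Commute.one_left c) (po h.ot) (po oy) h.ty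
  have one : ∀ g : G, f2 ρ 1 g = fd ρ g := fun g => by
    rw [f2, show kf (ρ 1) = ⊤ from eq_top_iff.2 fun v _ => by simp [mem_kf], top_inf_eq]; rfl
  rw [one, one, hg.five _ oy] at t1
  have t2 := tri (ρ := ρ) jobTri ca (po oa) (po h.oz) az
  have α := hg.three c h.ot
  have β := hg.three a oa
  have h5 : fd ρ c = 20 := by omega
  have t3 := c15 jobPart jobTri jobPar hg h h5
  rw [f2_comm z c] at t3
  have h6 : kf (ρ c) ⊓ kf (ρ a) = kf (ρ c) :=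
    Submodule.eq_of_le_of_finrank_le inf_le_left (show fd ρ c ≤ f2 ρ c a by omega)
  have h7 : ∀ v ∈ kf (ρ c), ρ a v = v := fun v hv => mem_kf.1 (h6.ge hv).2
  have h8 : kf (ρ c) ≤ kf (ρ (z ^ 2)) := fun v hv => by
    have a1 := inv_mem_kf h.zt.symm v hv
    have a2 : ρ ((a * z) ^ 2) v = v := by rw [az]; simp
    rw [pow_two, mul_ap, mul_ap, mul_ap, h7 _ a1, h7 _ (inv_mem_kf h.zt.symm _ a1)] at a2
    rw [mem_kf, pow_two, mul_ap, a2]
  rw [← kf_eq (g := z) (m := 2) (n := 3) rfl (by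
    rw [← pow_mul, show 2 * 3 = 5 + 1 from rfl, pow_succ, po h.oz, one_mul])] at h8
  have h9 : fd ρ c ≤ fd ρ z := Submodule.finrank_mono h8
  rw [hg.five _ h.oz] at h9
  omega

end H72.E7T
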