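/- Tower E8G, slot O8: `Ω₈⁺(2)` fixes a nonzero vector. -/
import Cfsg.Agent.H29.E8L4
import Cfsg.Agent.H65.OrthD4
import Cfsg.Agent.H50.CoO8

set_option autoImplicit false

namespace H72.E8O

open Matrix H40.E8G H29.E8L Sum H56 H65 Module
open scoped MatrixGroups

abbrev I8 : Type := Fin 4 ⊕ Fin 4
abbrev M8 : Type := Matrix I8 I8 (ZMod 2)
abbrev M4 : Type := Matrix (Fin 4) (Fin 4) (ZMod 2)
abbrev IG : Type := Cfsg.isometryGroup (ZMod 2) (Cfsg.quadFormPlus 4 (ZMod 2))
abbrev E6 : Type := Multiplicative (Fin 6 → ZMod 2)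

theorem h8 : ⇑H50.Co.q8 = Cfsg.quadFormPlus 4 (ZMod 2) := H58.coe_qPlus 4 (ZMod 2)
theorem z2 : ∀ c : ZMod 2, c = 0 ∨ c = 1 := by decide

/-- The matrix of an isometry. -/
def mi (g : IG) : M8 := g.1.1
theorem mi_inj {a b : IG} (h : mi a = mi b) : a = b := Subtype.ext (Units.ext h)
theorem mo_inj {a b : O8} (h : mi a.1 = mi b.1) : a = b := Subtype.ext (mi_inj h)
theorem mi_mul (a b : IG) : mi (a * b) = mi a * mi b := rfl

/-- The root matrices. -/
def xm (a c : I8) : M8 := 1 + single a c.swap 1 + single c a.swap 1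

/-- The root elements. -/
noncomputable def X (a c : I8) : O8 := (omegaEquiv H50.Co.q8 h8).symm
  ⟨eich _ (Pi.single a 1) (Pi.single c 1), eich_mem_commutator H50.Co.nd8 H50.Co.ne8x _ _⟩

theorem mi_X {a c : I8} (h : c ≠ a.swap) : mi (X a c).1 = xm a c := by
  refine (coe_eq_iff_toO H50.Co.q8 h8 (k := eich _ (Pi.single a 1) (Pi.single c 1)) fun v => ?_).2 ?_
  · rw [eich_apply (qPlus_single a) (by
      rw [polar_qPlus_single, Pi.single_eq_of_ne h.symm]), polar_qPlus_single, polar_qPlus_single,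
      qPlus_single, H50.Co.vsub, H50.Co.vsub, xm, add_mulVec, add_mulVec, one_mulVec, single_mulVec,
      single_mulVec]
    ext i
    simp [Pi.single_apply, Function.update_apply]
  · rw [← coe_omegaEquiv, X, MulEquiv.apply_symm_apply]

theorem X_comm {a c : I8} (h : c ≠ a.swap) : X a c = X c a := mo_inj (by
  rw [mi_X h, mi_X fun e => h (by rw [e, swap_swap]), xm, xm, add_right_comm])

theorem top_X {K : Subgroup O8} (h : ∀ a c, c ≠ a → c ≠ a.swap → X a c ∈ K) : K = ⊤ := by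
  let f : O8 →* O H50.Co.q8 := (Subgroup.subtype _).comp (omegaEquiv H50.Co.q8 h8).toMonoidHom
  have h1 : EG H50.Co.q8 ≤ K.map f := (framePlus (ZMod 2) 4).EG_le (fun a c h1 h2 t => by
    rcases z2 t with rfl | rfl
    · rw [zero_smul, eich_zero]; exact one_mem _
    · exact ⟨_, h a c h1 h2, by simp [f, X, framePlus]⟩) fun a v hv => by
      rw [show v = 0 from funext fun i => by simpa [framePlus, polar_qPlus_single] using hv i.swap,
        eich_zero]
      exact one_mem _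
  rw [← commutator_eq_EG_fin H50.Co.nd8 H50.Co.ne8x (by rw [H50.Co.fr8]; decide)] at h1
  refine eq_top_iff.2 fun g _ => ?_
  obtain ⟨k, hk, e⟩ := h1 (omegaEquiv H50.Co.q8 h8 g).2
  rwa [← (omegaEquiv H50.Co.q8 h8).injective (Subtype.ext e)]

theorem qp (v : I8 → ZMod 2) : Cfsg.quadFormPlus 4 (ZMod 2) v = (v ∘ inl) ⬝ᵥ (v ∘ inr) := rfl

theorem slm (A B : L4) : (A * B).1 = A.1 * B.1 := rfl
theorem sl1 (A : L4) : A.1 * (A⁻¹).1 = 1 := by rw [← slm, mul_inv_cancel]; rfl
theorem sl2 (A : L4) : (A⁻¹).1 * A.1 = 1 := by rw [← slm, inv_mul_cancel]; rfl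

/-- The Levi subgroup. -/
def lvI : L4 →* IG := MonoidHom.mk' (fun A =>
  ⟨⟨fromBlocks A.1 0 0 (A⁻¹).1ᵀ, fromBlocks (A⁻¹).1 0 0 A.1ᵀ,
    by simp only [fromBlocks_multiply, Matrix.mul_zero, Matrix.zero_mul, add_zero, zero_add,
      ← transpose_mul, sl1, transpose_one, fromBlocks_one],
    by simp only [fromBlocks_multiply, Matrix.mul_zero, Matrix.zero_mul, add_zero, zero_add,
      ← transpose_mul, sl2, transpose_one, fromBlocks_one]⟩, mem_isometryGroup.2 fun v => by
    simp only [qp, fromBlocks_mulVec, zero_mulVec, add_zero, zero_add, elim_comp_inl, elim_comp_inr]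
    rw [dotProduct_mulVec, vecMul_transpose, mulVec_mulVec, sl2, one_mulVec]⟩)
  fun A B => mi_inj (by
    rw [mi_mul]
    simp only [mi, fromBlocks_multiply, Matrix.mul_zero, Matrix.zero_mul, add_zero, zero_add,
      ← transpose_mul, _root_.mul_inv_rev, slm])

theorem mi_lv (A : L4) : mi (lvI A) = fromBlocks A.1 0 0 (A⁻¹).1ᵀ := rfl

/-- Alternating matrices. -/
def alt (b : Fin 6 → ZMod 2) : M4 :=
  !![0, b 0, b 1, b 2; b 0, 0, b 3, b 4; b 1, b 3, 0, b 5; b 2, b 4, b 5, 0]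
def act (A : M4) (b : E6) : E6 :=
  (fun C : M4 => .ofAdd ![C 0 1, C 0 2, C 0 3, C 1 2, C 1 3, C 2 3]) (A * alt b.toAdd * Aᵀ)

theorem alt_q : ∀ b y, y ⬝ᵥ (alt b *ᵥ y) = 0 := by decide +kernel
theorem alt_t (b : Fin 6 → ZMod 2) : (alt b)ᵀ = alt b := by
  ext i j; fin_cases i <;> fin_cases j <;> rfl
theorem alt_add (a b : Fin 6 → ZMod 2) : alt (a + b) = alt a + alt b := by
  ext i j; fin_cases i <;> fin_cases j <;> rfl
theorem alt_self : ∀ b, alt b + alt b = 0 := by decide +kernel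

theorem alt_act (A : M4) (b : E6) : alt (act A b).toAdd = A * alt b.toAdd * Aᵀ := by
  have h1 : (A * alt b.toAdd * Aᵀ)ᵀ = A * alt b.toAdd * Aᵀ := by
    rw [transpose_mul, transpose_mul, transpose_transpose, alt_t, Matrix.mul_assoc]
  have h2 (i) : (A * alt b.toAdd * Aᵀ) i i = 0 := by
    rw [← alt_q b.toAdd (A i), Matrix.mul_assoc]; rfl
  rw [act]
  generalize A * alt b.toAdd * Aᵀ = C at h1 h2
  ext i j
  fin_cases i <;> fin_cases j <;>
    first | rfl | exact (h2 _).symm | exact congrFun (congrFun h1 _) _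

/-- The unipotent radical. -/
def eI : E6 →* IG := MonoidHom.mk' (fun b =>
  ⟨⟨fromBlocks 1 (alt b.toAdd) 0 1, fromBlocks 1 (alt b.toAdd) 0 1,
    by simp [fromBlocks_multiply, alt_self], by simp [fromBlocks_multiply, alt_self]⟩,
    mem_isometryGroup.2 fun v => by
      simp only [qp, fromBlocks_mulVec, zero_mulVec, zero_add, elim_comp_inl, elim_comp_inr, one_mulVec]
      rw [add_dotProduct, dotProduct_comm (_ *ᵥ _), alt_q, add_zero]⟩)
  fun A B => mi_inj (by simp [mi_mul, mi, fromBlocks_multiply, alt_add, add_comm])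

theorem mi_e (b : E6) : mi (eI b) = fromBlocks 1 (alt b.toAdd) 0 1 := rfl

theorem lvI_tv {i j : Fin 4} (h : i ≠ j) : lvI (tv i j) = (X (inl i) (inr j)).1 := mi_inj (by
  rw [mi_X (by simpa using h.symm), mi_lv, show (tv i j)⁻¹ = tv i j from
    inv_eq_of_mul_eq_one_right (by revert i j; decide +kernel)]
  revert i j; decide +kernel)

/-- The pairs of indices. -/
def pr : Fin 6 → Fin 4 × Fin 4 := ![(0, 1), (0, 2), (0, 3), (1, 2), (1, 3), (2, 3)]

theorem eI_single (k : Fin 6) :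
    eI (.ofAdd (Pi.single k 1)) = (X (inl (pr k).1) (inl (pr k).2)).1 := mi_inj (by
  rw [mi_X (by simp), mi_e]
  revert k; decide +kernel)

theorem top6 {K : Subgroup E6} (h : ∀ k, .ofAdd (Pi.single k 1) ∈ K) (b : E6) : b ∈ K := by
  rw [← ofAdd_toAdd b, ← Finset.univ_sum_single b.toAdd, ofAdd_sum]
  refine K.prod_mem fun k _ => ?_
  rcases z2 (b.toAdd k) with e | e <;> rw [e]
  · rw [Pi.single_zero]; exact one_mem _
  · exact h k

noncomputable def lv : L4 →* O8 := lvI.codRestrict _ fun A =>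
  (top_of (K := (commutator IG).comap lvI) fun i j e => by
    have : i ≠ j := fun h => by rw [h] at e; omega
    simp only [Subgroup.mem_comap, lvI_tv this, lvI_tv this.symm, SetLike.coe_mem, and_self]).ge
    (Subgroup.mem_top A)

noncomputable def ee : E6 →* O8 := eI.codRestrict _ <|
  top6 (K := (commutator IG).comap eI) fun k => by
    simp only [Subgroup.mem_comap, eI_single, SetLike.coe_mem]

theorem lv_tv {i j : Fin 4} (h : i ≠ j) : lv (tv i j) = X (inl i) (inr j) := Subtype.ext (lvI_tv h)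

theorem ee_inj : Function.Injective ee := (injective_iff_map_eq_one _).2 fun b h => by
  have h1 : fromBlocks 1 (alt b.toAdd) 0 1 = (1 : M8) := congrArg (fun g : O8 => mi g.1) h
  rw [← fromBlocks_one, fromBlocks_inj] at h1
  exact (by decide +kernel : ∀ b : E6, alt b.toAdd = 0 → b = 1) b h1.2.1

theorem ee_lv (A : L4) (b : E6) : ee (act A.1 b) * lv A = lv A * ee b := mo_inj (by
  change mi (eI _) * mi (lvI _) = mi (lvI _) * mi (eI _)
  simp only [mi_e, mi_lv, fromBlocks_multiply, Matrix.mul_zero, Matrix.zero_mul, add_zero, zero_add,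
    Matrix.one_mul, Matrix.mul_one, alt_act, Matrix.mul_assoc, ← transpose_mul, sl2, transpose_one])

theorem ee_lv' (A : L4) (b : E6) : ee b * lv A = lv A * ee (act (A⁻¹).1 b) := by
  have := ee_lv A⁻¹ b
  rw [map_inv] at this
  rw [eq_mul_of_mul_inv_eq this, mul_assoc, mul_inv_cancel_left]

/-- The colouring by the Pfaffian. -/
def col (b : E6) : Bool :=
  b.toAdd 0 * b.toAdd 5 + b.toAdd 1 * b.toAdd 4 + b.toAdd 2 * b.toAdd 3 = 0
def base (c : Bool) : E6 := .ofAdd ![1, 0, 0, 0, 0, cond c 0 1]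
def mk4 (n : ℕ) : M4 := of fun i j => cond (n.testBit (4 * i + j)) 1 0
def tab (b : E6) : ℕ × ℕ :=
  [(33825, 33825), (33825, 33825), (33377, 34369), (34337, 34337), (9377, 42113),
   (42017, 42017), (49761, 58945), (42529, 42529), (33061, 34084), (34081, 34081),
   (33575, 34086), (34595, 34083), (34212, 33189), (34084, 33061), (34220, 35245),
   (34092, 35117), (5161, 37928), (37921, 37921), (34377, 33385), (37928, 5161),
   (13355, 37930), (46115, 37923), (34172, 35181), (37932, 21549), (49445, 54564),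
   (38177, 38177), (34393, 35833), (37944, 5305), (34228, 33269), (34100, 33141),
   (49959, 54566), (50979, 54563), (8613, 42372), (33825, 33825), (37473, 38465),
   (33833, 33833), (9633, 42369), (33829, 33829), (12203, 42371), (33837, 33837),
   (41253, 42276), (33953, 33953), (37671, 58662), (33849, 33977), (33957, 33957),
   (42273, 42273), (33965, 33965), (42787, 42275), (5673, 38440), (33889, 33889),
   (33897, 33897), (38433, 38433), (13729, 46481), (33845, 33909), (33901, 33901),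
   (46627, 38435), (7979, 46376), (34017, 34017), (33913, 34041), (38691, 46371),
   (33973, 34037), (46369, 46369), (54055, 46374), (33853, 34045)].getD
  ((b.toAdd 0).val + 2 * (b.toAdd 1).val + 4 * (b.toAdd 2).val + 8 * (b.toAdd 3).val +
    16 * (b.toAdd 4).val + 32 * (b.toAdd 5).val) (0, 0)

theorem tab_ok : ∀ b : E6, b ≠ 1 → mk4 (tab b).1 * mk4 (tab b).2 = 1 ∧
    act (mk4 (tab b).1) b = base (col b) := by decide +kernel

theorem conj_base {b : E6} (h : b ≠ 1) : IsConj (ee b) (ee (base (col b))) := by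
  obtain ⟨h1, h2⟩ := tab_ok b h
  have h3 := congrArg det h1
  rw [det_mul, det_one] at h3
  have := ee_lv ⟨_, (by decide : ∀ x y : ZMod 2, x * y = 1 → x = 1) _ _ h3⟩ b
  rw [h2] at this
  exact isConj_iff.2 ⟨_, mul_inv_eq_of_eq_mul this.symm⟩

/-- The swap of the last two basis vectors. -/
def σ (a : I8) : I8 := if a = inl 3 then inr 3 else if a = inr 3 then inl 3 else a
def sI : IG := ⟨⟨of fun i j => if j = σ i then 1 else 0, of fun i j => if j = σ i then 1 else 0,
  by decide +kernel, by decide +kernel⟩, mem_isometryGroup.2 fun v => by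
    simp [Cfsg.quadFormPlus, mulVec, dotProduct, Fin.sum_univ_four, σ, mul_comm]⟩
noncomputable def sw : O8 →* O8 := (MulAut.conjNormal sI : MulAut O8).toMonoidHom

theorem sw_X {a c : I8} (h : c ≠ a.swap) : sw (X a c) = X (σ a) (σ c) := mo_inj (by
  change mi sI * mi (X a c).1 * mi sI = _
  rw [mi_X h, mi_X (by revert a c; decide +kernel)]
  revert a c; decide +kernel)

/-- The positive root elements lie in `K`. -/
def Ps (K : Subgroup O8) : Prop :=
  ∀ i j : Fin 4, i < j → X (inl i) (inr j) ∈ K ∧ X (inl i) (inl j) ∈ K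

theorem Ps.sw {K : Subgroup O8} (h : Ps K) : Ps (K.comap sw) := fun i j e => by
  have h1 : σ (inl i) = inl i := by revert i j; decide
  rw [Subgroup.mem_comap, Subgroup.mem_comap, sw_X (by simpa using e.ne'), sw_X (by simp), h1]
  rcases (by decide : ∀ j, σ (inl j) = inl j ∧ σ (inr j) = inr j ∨
    σ (inl j) = inr j ∧ σ (inr j) = inl j) j with ⟨h2, h3⟩ | ⟨h2, h3⟩ <;> rw [h2, h3]
  exacts [h i j e, (h i j e).symm]

theorem X_ll {i j : Fin 4} (e : i < j) : ∃ b, X (inl i) (inl j) = ee b := by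
  obtain ⟨k, rfl, rfl⟩ := (by decide : ∀ i j : Fin 4, i < j → ∃ k, i = (pr k).1 ∧ j = (pr k).2) i j e
  exact ⟨_, Subtype.ext (eI_single k).symm⟩

theorem Ps.ee {K : Subgroup O8} (h : Ps K) (b : E6) : ee b ∈ K :=
  top6 (K := K.comap E8O.ee) (fun k => by
    rw [Subgroup.mem_comap, show E8O.ee _ = _ from Subtype.ext (eI_single k)]
    exact (h _ _ (by revert k; decide)).2) b

theorem Ps.lv {K : Subgroup O8} (h : Ps K) (A : L4) (hA : ∀ i j, j < i → A.1 i j = 0) :
    lv A ∈ K := by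
  have h1 := A.2
  rw [det_of_upperTriangular (fun i j e => hA i j e), Fin.prod_univ_four] at h1
  obtain ⟨d0, d1, d2, d3⟩ := (by decide : ∀ a b c d : ZMod 2, a * b * c * d = 1 →
    a = 1 ∧ b = 1 ∧ c = 1 ∧ d = 1) _ _ _ _ h1
  have h2 : A = tv 0 3 ^ (A.1 0 3).val * tv 1 3 ^ (A.1 1 3).val * tv 2 3 ^ (A.1 2 3).val *
      (tv 0 2 ^ (A.1 0 2).val * tv 1 2 ^ (A.1 1 2).val * tv 0 1 ^ (A.1 0 1).val) := Subtype.ext <| by
    rw [← (by decide +kernel : ∀ a b c d e f : ZMod 2, !![1, a, b, c; 0, 1, d, e; 0, 0, 1, f; 0, 0, 0, 1] =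
      (tv 0 3 ^ c.val * tv 1 3 ^ e.val * tv 2 3 ^ f.val *
        (tv 0 2 ^ b.val * tv 1 2 ^ d.val * tv 0 1 ^ a.val)).1)]
    ext i j
    fin_cases i <;> fin_cases j <;> first | rfl | assumption | exact hA _ _ (by decide)
  have h3 (i j : Fin 4) (e : i < j) (n : ℕ) : tv i j ^ n ∈ K.comap E8O.lv :=
    pow_mem (by rw [Subgroup.mem_comap, lv_tv e.ne]; exact (h i j e).1) n
  rw [h2]
  exact mul_mem (mul_mem (mul_mem (h3 _ _ (by decide) _) (h3 _ _ (by decide) _)) (h3 _ _ (by decide) _))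
    (mul_mem (mul_mem (h3 _ _ (by decide) _) (h3 _ _ (by decide) _)) (h3 _ _ (by decide) _))

theorem top_sw {K : Subgroup O8} (h : Ps K) (h1 : ∀ A, lv A ∈ K) (h2 : ∀ A, sw (lv A) ∈ K) :
    K = ⊤ := by
  have k1 (i j : Fin 4) (e : i ≠ j) : X (inl i) (inl j) ∈ K := by
    rcases lt_or_gt_of_ne e with e | e
    · exact (h i j e).2
    · exact X_comm (a := inl j) (c := inl i) (by simp) ▸ (h j i e).2
  have k2 (i j : Fin 4) (e : i ≠ j) : X (inl i) (inr j) ∈ K := lv_tv e ▸ h1 _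
  have k3 (j : Fin 4) (e : j ≠ 3) : X (inr 3) (inr j) ∈ K := by
    have := h2 (tv 3 j)
    rwa [lv_tv e.symm, sw_X (by simpa using e), 
      (by decide : ∀ j : Fin 4, j ≠ 3 → σ (inr j) = inr j) j e] at this
  refine top_X ?_
  rintro (i | i) (j | j) e e'
  · exact k1 i j fun h => e (by rw [h])
  · exact k2 i j fun h => e' (by rw [h]; rfl)
  · exact X_comm e' ▸ k2 j i fun h => e' (by rw [h]; rfl)
  have e1 : j ≠ i := fun h => e (by rw [h])
  by_cases hi : i = 3
  · subst hi; exact k3 j e1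
  by_cases hj : j = 3
  · subst hj; exact X_comm e' ▸ k3 i hi
  have h3 := mul_mem (k3 j hj) (k2 3 i (Ne.symm hi))
  have h4 : X (inr i) (inr j) = X (inr 3) (inr j) * X (inl 3) (inr i) *
      (X (inr 3) (inr j) * X (inl 3) (inr i)) := mo_inj (by
    simp only [Subgroup.coe_mul, mi_mul]
    rw [mi_X e', mi_X (by simp), mi_X (by simpa using hi)]
    clear e e' h3; revert i j; decide +kernel)
  exact h4 ▸ mul_mem h3 h3

theorem fin {k V : Type} [Field k] [AddCommGroup V] [Module k V] (ρ : O8 →* End k V) {v : V}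
    (hv : Ps (stab ρ {v})) (h1 : ∀ A, lv A ∈ stab ρ {v})
    (h2 : Ps (stab (ρ.comp sw) {v}) → ∀ A, lv A ∈ stab (ρ.comp sw) {v}) :
    stab ρ {v} = ⊤ := top_sw hv h1 (h2 hv.sw)

theorem sw_inj : Function.Injective sw := MulEquiv.injective _

open H40.E8F H14.E8

theorem mem_st {ψ : O8 →* G8} {v : V8} {g : O8} : g ∈ stab (ad.comp ψ) {v} ↔ ad (ψ g) v = v := by
  simp [stab]

theorem frSt_Fx (φ : E6 →* G8) : FrSt (Fx (fun b => ad (φ b)) Set.univ) :=
  fun v hv => mem_Fx.2 fun a _ => funext fun i => by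
    have h1 : ad (φ a) v = v := mem_Fx.1 hv a trivial
    change ad (φ a) _ i = frobenius K3 3 (v i)
    conv_rhs => rw [← h1]
    rw [ad_apply, ad_apply, map_sum]
    exact Finset.sum_congr rfl fun j _ => by rw [map_mul, (frob_iff _).2 ⟨_, rfl⟩]; rfl

theorem step (e10 : JobE10) (l4 : JobL4) (ψ : O8 →* G8) (hψ : Function.Injective ψ) :
    (∃ v, v ≠ 0 ∧ Ps (stab (ad.comp ψ) {v})) ∧
      ∀ v, Ps (stab (ad.comp ψ) {v}) → ∀ A, lv A ∈ stab (ad.comp ψ) {v} := by
  obtain ⟨⟨v, hv, v0, h1⟩, h2⟩ := l4 (ψ.comp lv) _ (frSt_Fx (ψ.comp ee))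
    (e10 (ψ.comp ee) (hψ.comp ee_inj) col (by decide +kernel) fun v w hv hw e =>
      ψ.map_isConj ((conj_base hv).trans (e ▸ (conj_base hw).symm)))
    fun A v hv => mem_Fx.2 fun b _ => fix_conj (ad.comp ψ) (ee_lv' A b) (mem_Fx.1 hv _ trivial)
  refine ⟨⟨v, v0, fun i j e => ⟨lv_tv e.ne ▸ mem_st.2 (h1 _), ?_⟩⟩, fun v hv A => mem_st.2
    (h2 v (mem_Fx.2 fun b _ => mem_st.1 (hv.ee b)) (fun A hA => mem_st.1 (hv.lv A hA)) A)⟩
  obtain ⟨b, hb⟩ := X_ll e
  exact hb ▸ mem_st.2 (mem_Fx.1 hv b trivial)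

theorem jobO8 (e10 : JobE10) (l4 : JobL4) : JobO8 := fun ψ hψ => by
  obtain ⟨⟨v, v0, hv⟩, h1⟩ := step e10 l4 ψ hψ
  have h2 := (step e10 l4 (ψ.comp sw) (hψ.comp sw_inj)).2 v
  rw [← MonoidHom.comp_assoc] at h2
  exact ⟨v, v0, fun g => mem_st.1 ((fin _ hv (h1 v hv) h2).ge (Subgroup.mem_top g))⟩

end H72.E8O
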