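/- Tower E8G: a twisted torus of `E₈(3)` has a point killed by a small stable set of roots. -/
import Cfsg.Agent.H40.E8GSpec
import Cfsg.Agent.H72.E8FTw

set_option autoImplicit false
set_option linter.unusedSectionVars false

namespace H72.E8G

open Cfsg.Lie H63 H64 H65 H46 H14.E8 Matrix Module H72.E8F

variable {D : ChevalleyDatum} [RS D]

theorem exists_om' (hl : ∀ r : Rt D, len r = 1) {A : Type*} [CommGroup A] (L : List ℕ) :
    ∃ om : (Fin D.rank → ℤ) →ₗ[ℤ] (Fin D.rank → ℤ), (∀ y z, form (om y) (om z) = form y z) ∧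
      (∀ r, om (rt r) = rt ((wW D L).1 r)) ∧
      ∀ (ζ : A) (y : Fin D.rank → ℤ), wT D L (fun i => ζ ^ y i) = fun i => ζ ^ om y i := by
  induction L with
  | nil => exact ⟨LinearMap.id, fun _ _ => rfl, fun _ => rfl, fun _ _ => rfl⟩
  | cons i L ih =>
    obtain ⟨om, h1, h3, h2⟩ := ih
    by_cases h : i < D.rank
    · obtain ⟨i, rfl⟩ : ∃ j : Fin D.rank, (j : ℕ) = i := ⟨⟨i, h⟩, rfl⟩
      let s : (Fin D.rank → ℤ) →ₗ[ℤ] (Fin D.rank → ℤ) :=
        ⟨⟨lref (simpleR i), lref_add _⟩, lref_smul _⟩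
      refine ⟨s.comp om, fun y z => (form_lref _ _ _).trans (h1 y z), fun r => ?_, fun ζ y => ?_⟩
      · rw [wW_cons, sN_val, LinearMap.comp_apply, h3]
        exact (rt_sref_eq_lref i _).symm
      rw [wT_cons, h2, sT_apply, chi_eq, zpow_fun_ev]
      have e : ∑ j, om y j * wt D (D.simple i) j = cop (simpleR i) (om y) := by
        rw [cop_simpleR]
        refine Finset.sum_congr rfl fun j _ => ?_
        have := gram_symm (D := D) i j
        rw [H63.gram, H63.gram, hl, hl, one_mul, one_mul] at this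
        rw [this]; rfl
      rw [e]
      funext j
      change _ = ζ ^ (lref (simpleR i) (om y) j)
      rw [lref, rt_simpleR, Pi.mul_apply, Pi.sub_apply, Pi.smul_apply, _root_.zpow_sub]
      by_cases c : j = i
      · subst c; simp
      · simp [c]
    · refine ⟨om, h1, fun r => ?_, fun ζ y => ?_⟩
      · rw [wW_cons, sN, dif_neg h, one_mul, h3]
      · rw [wT_cons, h2, sT, dif_neg h]; rfl

theorem exists_perp (Ψ : Set (Rt D)) (hn : ∀ r ∈ Ψ, negR r ∈ Ψ) (h : {r | r ∈ Ψ ∧ Pos r}.ncard < D.rank) :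
    ∃ y : Fin D.rank → ℤ, y ≠ 0 ∧ ∀ r ∈ Ψ, form y (rt r) = 0 := by
  classical
  let f : (Fin D.rank → ℤ) →ₗ[ℤ] ({r | r ∈ Ψ ∧ Pos r} → ℤ) :=
    ⟨⟨fun y r => form y (rt r.1), fun a b => funext fun r => form_add_left _ _ _⟩,
      fun a b => funext fun r => form_smul_left _ _ _⟩
  have : ¬ Function.Injective f := fun i => by
    have := LinearMap.finrank_le_finrank_of_injective i
    rw [finrank_fintype_fun_eq_card, finrank_fintype_fun_eq_card, Fintype.card_fin,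
      ← Nat.card_eq_fintype_card, Nat.card_coe_set_eq] at this
    omega
  rw [injective_iff_map_eq_zero] at this
  push Not at this
  obtain ⟨y, h1, h2⟩ := this
  refine ⟨y, h2, fun r hr => (pos_or_pos_negR r).elim (fun p => congrFun h1 ⟨r, hr, p⟩) fun p => ?_⟩
  have : form y (rt (negR r)) = 0 := congrFun h1 ⟨_, hn r hr, p⟩
  rwa [rt_negR, form_neg_right, neg_eq_zero] at this

theorem exists_pt [Tab D] [Comm D] (hl : ∀ r : Rt D, len r = 1) (L : List ℕ) (Ψ : Set (Rt D))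
    (hw : ∀ r ∈ Ψ, (wW D L).1 r ∈ Ψ) (hy : ∃ y : Fin D.rank → ℤ, y ≠ 0 ∧ ∀ r ∈ Ψ, form y (rt r) = 0) :
    ∃ c ∈ Tw D L (frobenius K3 3), c ≠ 1 ∧ ∀ r ∈ Ψ, chi D c r = 1 := by
  classical
  obtain ⟨om, h1, h3, h2⟩ := exists_om' hl (A := K3ˣ) L
  obtain ⟨M, hM⟩ : ∃ M : Matrix (Fin D.rank) (Fin D.rank) ℤ, M = (3 : ℤ) • LinearMap.toMatrix' om - 1 :=
    ⟨_, rfl⟩
  have hv : ∀ z, M *ᵥ z = (3 : ℤ) • om z - z := fun z => by
    rw [hM, sub_mulVec, smul_mulVec, LinearMap.toMatrix'_mulVec, one_mulVec]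
  have hd : ¬ (3 : ℤ) ∣ M.det := fun h => by
    have e : (Int.castRingHom (ZMod 3)).mapMatrix M = -1 := by
      rw [hM, map_sub, map_one, map_zsmul]
      rw [show (3 : ℤ) • (Int.castRingHom (ZMod 3)).mapMatrix (LinearMap.toMatrix' om) = 0 from ?_, zero_sub]
      ext a b
      rw [Matrix.smul_apply, zsmul_eq_mul, show ((3 : ℤ) : ZMod 3) = 0 from rfl, zero_mul]
      rfl
    have h3 := (ZMod.intCast_zmod_eq_zero_iff_dvd M.det 3).2 (by exact_mod_cast h)
    rw [← eq_intCast (Int.castRingHom (ZMod 3)), RingHom.map_det, e, det_neg, det_one, mul_one] at h3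
    exact absurd (pow_eq_zero_iff'.1 h3).1 (by decide)
  have hd0 : M.det ≠ 0 := fun h => hd (by rw [h]; exact dvd_zero _)
  obtain ⟨ζ, hζ⟩ := exists_zeta (n := M.det.natAbs) fun h => hd (Int.natCast_dvd.2 h)
  have key : ∀ a b : ℤ, ζ ^ a = ζ ^ b ↔ M.det ∣ b - a := fun a b => by
    rw [zpow_eq_zpow_iff_modEq, hζ, Int.modEq_iff_dvd, Int.natAbs_dvd]
  have pure : ∀ z, (∀ r ∈ Ψ, form (M *ᵥ z) (rt r) = 0) → ∀ r ∈ Ψ, form z (rt r) = 0 := fun z hz r hr => by
    obtain ⟨s, hs, hm⟩ := Set.exists_max_image Ψ (fun r => |form z (rt r)|) (Set.toFinite _) ⟨r, hr⟩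
    have a1 := hz _ (hw s hs)
    rw [hv, form_sub_left, form_smul_left, ← h3, h1, h3, sub_eq_zero] at a1
    have a2 := hm _ (hw s hs)
    have a3 := hm r hr
    simp only [← a1, abs_mul] at a2
    have a4 := abs_nonneg (form z (rt s))
    rw [show |(3 : ℤ)| = 3 from rfl] at a2
    exact abs_nonpos_iff.1 (by omega)
  have ex : ∃ n : ℕ, ∃ y : Fin D.rank → ℤ, (y ≠ 0 ∧ ∀ r ∈ Ψ, form y (rt r) = 0) ∧ (form y y).toNat = n :=
    ⟨_, _, hy.choose_spec, rfl⟩
  obtain ⟨y, ⟨y0, y1⟩, y2⟩ := Nat.find_spec ex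
  have e0 : M *ᵥ (M.adjugate *ᵥ y) = M.det • y := by
    rw [mulVec_mulVec, mul_adjugate, smul_mulVec, one_mulVec]
  refine ⟨fun j => ζ ^ (M.adjugate *ᵥ y) j, ?_, fun e => ?_, fun r hr => ?_⟩
  · rw [mem_Tw, frT_eq_pow (q := 3) (fun t => frobenius_def 3 t)]
    have e : ((fun j => ζ ^ (M.adjugate *ᵥ y) j) ^ 3 : Fin D.rank → K3ˣ) =
        fun j => ζ ^ ((3 : ℤ) • (M.adjugate *ᵥ y)) j := by
      funext j
      rw [Pi.pow_apply, Pi.smul_apply, smul_eq_mul, mul_comm, _root_.zpow_mul]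
      rfl
    rw [e, h2]
    funext j
    rw [eq_comm, key, map_smul, ← Pi.sub_apply, ← hv, e0]
    exact ⟨_, rfl⟩
  · choose z hz using fun j => (key 0 _).1 ((zpow_zero ζ).trans (congrFun e j).symm)
    have e1 : M.adjugate *ᵥ y = M.det • z := funext fun j => (sub_zero _).symm.trans (hz j)
    have e2 : y = M *ᵥ z := by
      rw [e1, mulVec_smul] at e0
      exact (smul_right_injective _ hd0 e0).symm
    have c : z ≠ 0 := fun c => y0 (by rw [e2, c, mulVec_zero])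
    have a0 := Nat.find_min' ex ⟨z, ⟨c, pure z (e2 ▸ y1)⟩, rfl⟩
    have a1 := form_pos c
    have a2 := form_nonneg (om z - z)
    rw [← y2, e2, hv] at a0
    simp only [form_sub_left, form_sub_right, form_smul_left, form_smul_right, h1] at a0 a2
    rw [form_symm z (om z)] at a0 a2
    omega
  · have := pure (M.adjugate *ᵥ y) (fun r hr => by rw [e0, form_smul_left, y1 r hr, mul_zero]) r hr
    rw [chi_eq, zpow_fun_ev, ← zpow_zero ζ, ← this, form]
    congr 1
    refine Finset.sum_congr rfl fun i _ => ?_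
    simp only [H46.wt, cartan_eq i r, H63.gram, hl, one_mul, Finset.mul_sum, mul_assoc]

theorem jobTwZ : H40.E8G.JobTwZ := fun L Ψ h1 h2 h3 =>
  haveI := H65.tabE8
  haveI := H65.commE8
  exists_pt len1 L Ψ (fun r hr => (h1 r).2 hr) (exists_perp Ψ h2 h3)

end H72.E8G
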