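/- Tower F2 (row S3817): the case of a nontrivial Fitting subgroup. -/
import Cfsg.Agent.H57.F2Spec

set_option autoImplicit false

namespace H72.F2

open Subgroup Cfsg H98 H57.F2
open scoped commutatorElement

universe u

variable {G : Type u} [Group G]

theorem eq_one_of_pows {a : G} {p q k l : ℕ} (hp : p.Prime) (hq : q.Prime) (h : p ≠ q)
    (h1 : a ^ p ^ k = 1) (h2 : a ^ q ^ l = 1) : a = 1 :=
  orderOf_eq_one_iff.1 (Nat.eq_one_of_dvd_coprimes
    (Nat.Coprime.pow _ _ ((Nat.coprime_primes hp hq).2 h)) (orderOf_dvd_of_pow_eq_one h1)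
    (orderOf_dvd_of_pow_eq_one h2))

theorem normal_core (q : ℕ) : (pCoreOf q (⊤ : Subgroup G)).Normal :=
  normal_of_top_le_normalizer (self_le_normalizer_pCoreOf ⊤)

/-- If all `q`-elements of the normal closure of a `p`-element are central in it, they are
trivial. -/
theorem eq_one_of_central [Finite G] {p q : ℕ} (hp : p.Prime) (hq : Pr p q) {x : G} {k : ℕ}
    (hx : x ^ p ^ k = 1)
    (hc : ∀ y ∈ ncl ⊤ (zpowers x), (∃ k : ℕ, y ^ q ^ k = 1) → y ∈ cs (ncl ⊤ (zpowers x)))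
    {y : G} (hy : y ∈ ncl ⊤ (zpowers x)) {l : ℕ} (hl : y ^ q ^ l = 1) : y = 1 := by
  haveI := hq.fact
  set K := ncl ⊤ (zpowers x) with hK
  obtain ⟨P⟩ : Nonempty (Sylow q K) := inferInstance
  have h1 : (P : Subgroup K) ≤ center K := fun z hz => by
    obtain ⟨j, hj⟩ := isPGroup_iff_forall.1 P.isPGroup' z hz
    have := hc z z.2 ⟨j, by exact_mod_cast congrArg Subtype.val hj⟩
    exact mem_center_iff.2 fun g => Subtype.ext (this g g.2)
  have h2 : ¬ q ∣ (center K).index := fun h => P.not_dvd_index (h.trans (index_dvd_of_le h1))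
  let φ := MonoidHom.transferCenterPow K
  let A : Subgroup (center K) :=
    { carrier := {z | ∃ j : ℕ, z ^ p ^ j = 1}
      one_mem' := ⟨0, by simp⟩
      mul_mem' := by
        rintro a b ⟨i, hi⟩ ⟨j, hj⟩
        have e : Commute a b := Subtype.ext (mem_center_iff.1 b.2 a)
        refine ⟨i + j, ?_⟩
        rw [e.mul_pow, pow_add, pow_mul a, hi, one_pow, mul_comm (p ^ i), pow_mul, hj, one_pow, one_mul]
      inv_mem' := by
        rintro a ⟨i, hi⟩
        exact ⟨i, by rw [inv_pow, hi, inv_one]⟩ }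
  have h3 : K ≤ (A.comap φ).map K.subtype := by
    refine ncl_le_iff.2 fun g hg z hz => ?_
    have hzK : z ∈ K := cj_le_ncl hg hz
    obtain ⟨j, hj⟩ := isPGroup_iff_forall.1 (isPGroup_cj g (zp_pg hx)) z hz
    refine ⟨⟨z, hzK⟩, ⟨j, ?_⟩, rfl⟩
    rw [← map_pow, show (⟨z, hzK⟩ : K) ^ p ^ j = 1 from Subtype.ext hj, map_one]
  obtain ⟨y', ⟨j, hj⟩, rfl⟩ := h3 hy
  have h4 : (y' ^ (center K).index) ^ p ^ j = 1 := congrArg Subtype.val hj
  have h5 : y' ^ q ^ l = 1 := Subtype.ext hl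
  have h6 : y' ^ (center K).index = 1 := eq_one_of_pows hp hq.1 hq.2.symm h4
    (l := l) (by rw [← pow_mul, mul_comm, pow_mul, h5, one_pow])
  have h7 : y' = 1 := orderOf_eq_one_iff.1 (Nat.eq_one_of_dvd_coprimes
    (Nat.Coprime.pow_left _ (hq.1.coprime_iff_not_dvd.2 h2)) (orderOf_dvd_of_pow_eq_one h5)
    (orderOf_dvd_of_pow_eq_one h6))
  rw [h7]; rfl

theorem jobRA : JobRA.{u} := by
  intro G _ _ p x hp ⟨kx, hx⟩ ⟨r, hr, hr0⟩ hQ hS h2 q hq y0 hy0 ⟨k0, hk0⟩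
  haveI := hq.fact
  by_contra hn
  have hbar : ∀ (N : Subgroup G) [N.Normal], (y0 : G ⧸ N) ∈ ncl ⊤ (zpowers (x : G ⧸ N)) := by
    intro N _
    have := mem_map_of_mem (QuotientGroup.mk' N) hy0
    rwa [map_ncl, map_top_of_surjective _ (QuotientGroup.mk'_surjective N),
      MonoidHom.map_zpowers] at this
  have hbar0 : ∀ (N : Subgroup G) [N.Normal], (y0 : G ⧸ N) ^ q ^ k0 = 1 := by
    intro N _
    rw [← QuotientGroup.mk_pow, hk0, QuotientGroup.mk_one]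
  -- the `q`-core is trivial
  have hO : pCoreOf q (⊤ : Subgroup G) = ⊥ := by
    by_contra h
    haveI := normal_core (G := G) q
    haveI := normal_core (G := G ⧸ pCoreOf q (⊤ : Subgroup G)) q
    have h1 := hQ _ h q hq _ (hbar _) ⟨k0, hbar0 _⟩
    refine hn (le_pCoreOf (A := (pCoreOf q ⊤).comap (QuotientGroup.mk' (pCoreOf q (⊤ : Subgroup G))))
      ?_ le_top le_normalizer_of_normal h1)
    refine (isPGroup_pCoreOf _).comap_of_ker_isPGroup _ ?_
    rw [QuotientGroup.ker_mk']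
    exact isPGroup_pCoreOf _
  rw [← pCoreOf_top] at hr0
  have hqr : q ≠ r := fun e => hr0 (e ▸ hO)
  haveI : Fact r.Prime := ⟨hr⟩
  obtain ⟨N, hN1, hN⟩ := exists_minimal_le_of_wellFoundedLT (fun N : Subgroup G => N.Normal ∧ N ≠ ⊥)
    _ ⟨normal_core r, hr0⟩
  haveI := hN.1.1
  have hNr : IsPGroup r N := (isPGroup_pCoreOf _).to_le hN1
  have hmin : ∀ M : Subgroup G, M.Normal → M ≤ N → M = ⊥ ∨ N ≤ M := fun M h1 h2 =>
    or_iff_not_imp_left.2 fun h3 => hN.2 ⟨h1, h3⟩ h2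
  have hab : N ≤ cs N :=
    ((hmin (N ⊓ cs N) inferInstance inf_le_left).resolve_left
      (inf_centralizer_ne_bot hNr hNr le_normalizer hN.1.2)).trans inf_le_right
  have hNq : ∀ a ∈ N, ∀ k : ℕ, a ^ q ^ k = 1 → a = 1 := fun a ha k hk => by
    obtain ⟨j, hj⟩ := isPGroup_iff_forall.1 hNr a ha
    exact eq_one_of_pows hq.1 hr hqr hk hj
  haveI := normal_core (G := G ⧸ N) q
  obtain ⟨Q, hQ1⟩ : ∃ Q : Subgroup G, Q = (pCoreOf q ⊤).comap (QuotientGroup.mk' N) := ⟨_, rfl⟩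
  haveI : Q.Normal := by rw [hQ1]; infer_instance
  have mQ : ∀ g : G, g ∈ Q ↔ (g : G ⧸ N) ∈ pCoreOf q (⊤ : Subgroup (G ⧸ N)) := fun g => by
    rw [hQ1]; rfl
  have hNQ : N ≤ Q := fun a ha => by
    rw [mQ, (QuotientGroup.eq_one_iff a).2 ha]; exact one_mem _
  have hpow : ∀ a ∈ Q, ∃ k : ℕ, a ^ q ^ k ∈ N := fun a ha => by
    obtain ⟨k, hk⟩ := isPGroup_iff_forall.1 (isPGroup_pCoreOf _) _ ((mQ a).1 ha)
    exact ⟨k, by rwa [← QuotientGroup.eq_one_iff, QuotientGroup.mk_pow]⟩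
  -- (b)
  obtain ⟨y, hyQ, hy⟩ : ∃ y ∈ Q, ⁅y, x⁆ ∉ N := by
    by_contra h
    push Not at h
    have h1 : zpowers (x : G ⧸ N) ≤ cs (pCoreOf q (⊤ : Subgroup (G ⧸ N))) := by
      refine zpowers_le.2 fun z hz => ?_
      obtain ⟨z, rfl⟩ := QuotientGroup.mk_surjective z
      have := (QuotientGroup.eq_one_iff _).2 (h z ((mQ z).2 hz))
      rw [← commutatorElement_eq_one_iff_mul_comm]
      exact this
    have h3 := le_centralizer_iff.1 (ncl_le (L := ⊤) h1 le_normalizer_of_normal)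
    have h4 : (y0 : G ⧸ N) = 1 := eq_one_of_central hp hq (k := kx)
      (by rw [← QuotientGroup.mk_pow, hx, QuotientGroup.mk_one])
      (fun z hz hk => h3 (hQ N hN.1.2 q hq z hz hk)) (hbar N) (hbar0 N)
    refine hn ?_
    rw [hNq y0 ((QuotientGroup.eq_one_iff _).1 h4) k0 hk0]
    exact one_mem _
  -- (c)
  have hc : ∀ w ∈ Q ⊓ cs N, ∀ k : ℕ, w ^ q ^ k = 1 → w = 1 := fun w hw k hk => by
    obtain ⟨S, hS1, hS2⟩ := exists_isSyl_le (isPGroup_zpowers hk) (zpowers_le.2 hw)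
    have h1 : res q (Q ⊓ cs N) ≤ N := res_le_of_forall_pow fun a ha => hpow a ha.1
    have h3 : N ≤ cs S := le_centralizer_iff.1 (hS1.le.trans inf_le_right)
    have h4 : Q ⊓ cs N ≤ nor S := by
      rw [← hS1.sup_res]
      exact sup_le le_normalizer (h1.trans (le_normalizer_of_le_centralizer h3))
    have h5 := pCoreOf_le_pCoreOf_of_normal (p := q) (le_top (a := Q ⊓ cs N)) le_normalizer_of_normal
    rw [← hS1.eq_pCoreOf h4, hO] at h5
    exact h5 (hS2 (mem_zpowers w))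
  -- (d)
  have hw : ∀ z ∈ Q, ⁅z, x⁆ ∉ N → ∃ w ∈ Q, w ≠ 1 ∧ (∃ k : ℕ, w ^ q ^ k = 1) ∧
      ∀ X : Subgroup G, z ∈ X → w ∈ ncl X (zpowers x) := fun z hz h => by
    have h1 : ⁅z, x⁆ ∈ Q := cm_le (le_normalizer_of_normal (mem_top x)) (comm_mem_cm hz)
    obtain ⟨j, hj⟩ := exists_pow_coprime (p := r) (isOfFinOrder_of_finite ⁅z, x⁆)
    refine ⟨⁅z, x⁆ ^ r ^ j, pow_mem h1 _, fun e => h ?_, ?_, fun X hX =>
      pow_mem (cm_le_ncl le_rfl (comm_mem_cm hX)) _⟩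
    · obtain ⟨k, hk⟩ := hpow _ h1
      rw [← QuotientGroup.eq_one_iff] at hk ⊢
      refine eq_one_of_pows hq.1 hr hqr (k := k) (l := j) hk ?_
      rw [← QuotientGroup.mk_pow, e, QuotientGroup.mk_one]
    · obtain ⟨k, hk⟩ := hpow _ (pow_mem h1 (r ^ j))
      obtain ⟨l, hl⟩ := isPGroup_iff_forall.1 hNr _ hk
      refine ⟨k, orderOf_eq_one_iff.1 (Nat.eq_one_of_dvd_coprimes
        (Nat.Coprime.pow_right l hj) (orderOf_pow_dvd _) (orderOf_dvd_of_pow_eq_one hl))⟩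
  have hL : ∀ n ∈ N, N ⊔ closure ({x, y * n} : Set G) = ⊤ ∧ closure ({x, y * n} : Set G) ⊓ N = ⊥ := by
    intro n hn'
    have h1 : N ⊔ closure ({x, y * n} : Set G) = ⊤ := by
      by_contra h
      obtain ⟨w, w1, w2, w3, w4⟩ := hw (y * n) (mul_mem hyQ (hNQ hn')) (fun e => hy (by
        rw [← QuotientGroup.eq_one_iff] at e hn' ⊢
        simp only [commutatorElement_def, QuotientGroup.mk_mul, QuotientGroup.mk_inv, hn',
          mul_one] at e ⊢
        exact e))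
      have h3 := hS _ h (mem_sup_right (subset_closure (by simp))) q hq w
        (w4 _ (mem_sup_right (subset_closure (by simp)))) w3
      have h4 := le_cs_of_core hq.1 hr hqr le_rfl
        (le_pCoreOf hNr (le_sup_left (b := closure ({x, y * n} : Set G))) le_normalizer_of_normal) h3
      obtain ⟨k, hk⟩ := w3
      exact w2 (hc w ⟨w1, h4⟩ k hk)
    refine ⟨h1, (hmin _ (normal_of_top_le_normalizer ?_) inf_le_right).resolve_right fun h => ?_⟩
    · rw [← h1]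
      exact sup_le (le_normalizer_of_le_centralizer (hab.trans (centralizer_anti inf_le_right)))
        (le_normalizer_inf le_normalizer le_normalizer_of_normal)
    · exact h2 (y * n) (by rw [← h1, sup_eq_right.2 (h.trans inf_le_left)])
  obtain ⟨w, w1, w2, ⟨kw, w3⟩, w4⟩ := hw y hyQ hy
  have hCQ : N ⊓ cs Q = ⊥ := (hmin _ inferInstance inf_le_left).resolve_right fun h =>
    w2 (hc w ⟨w1, le_centralizer_iff.1 (h.trans inf_le_right) w1⟩ kw w3)
  -- (e)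
  have he : ∀ L : Subgroup G, N ⊔ L = ⊤ → L ⊓ N = ⊥ →
      IsSyl q (L ⊓ Q) Q ∧ (L ⊓ Q) ⊔ N = Q ∧ nor (L ⊓ Q) ≤ L := fun L h1 h3 => by
    have h4 : (L ⊓ Q) ⊔ N = Q := by
      rw [← sup_inf_of_le_right le_normalizer_of_normal hNQ, sup_comm, h1, top_inf_eq]
    refine ⟨⟨inf_le_right, isPGroup_iff_forall.2 fun a ha => ?_, fun T t1 t2 t3 =>
      le_antisymm (fun t ht => ?_) t2⟩, h4, fun g hg => ?_⟩
    · obtain ⟨k, hk⟩ := hpow a ha.2
      exact ⟨k, mem_bot.1 (h3 ▸ mem_inf.2 ⟨pow_mem ha.1 _, hk⟩)⟩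
    · obtain ⟨a, ha, n, hn', rfl⟩ := (mem_sup_left_norm le_normalizer_of_normal).1 (h4.ge (t3 ht))
      obtain ⟨k, hk⟩ := isPGroup_iff_forall.1 t1 n ((T.mul_mem_cancel_left (t2 ha)).1 ht)
      rw [hNq n hn' k hk, mul_one]
      exact ha
    · obtain ⟨n, hn', a, ha, rfl⟩ := (mem_sup_right_norm le_normalizer_of_normal).1 (h1.ge (mem_top g))
      have h5 : n ∈ nor (L ⊓ Q) := ((nor (L ⊓ Q)).mul_mem_cancel_right
        (le_normalizer_inf le_normalizer le_normalizer_of_normal ha)).1 hg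
      have h6 : n ∈ cs (L ⊓ Q) := fun b hb => by
        have e1 : n * b * n⁻¹ * b⁻¹ ∈ L := mul_mem (conj_mem_of_mem_normalizer h5 hb).1 (inv_mem hb.1)
        have e2 : n * b * n⁻¹ * b⁻¹ ∈ N := by
          rw [show n * b * n⁻¹ * b⁻¹ = n * (b * n⁻¹ * b⁻¹) by group]
          exact mul_mem hn' (hN.1.1.conj_mem _ (inv_mem hn') b)
        have e3 : n * b * n⁻¹ * b⁻¹ = 1 := mem_bot.1 (h3 ▸ mem_inf.2 ⟨e1, e2⟩)
        calc b * n = (n * b * n⁻¹ * b⁻¹) * (b * n) := by rw [e3, one_mul]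
          _ = n * b := by group
      have h7 : n ∈ N ⊓ cs Q := ⟨hn', by
        rw [← h4, cs, centralizer_sup]
        exact ⟨h6, hab hn'⟩⟩
      rw [hCQ, mem_bot] at h7
      rw [h7, one_mul]
      exact ha
  obtain ⟨l1, l2⟩ := hL 1 (one_mem N)
  rw [mul_one] at l1 l2
  obtain ⟨s1, s2, s3⟩ := he _ l1 l2
  have hx1 : x ∈ closure ({x, y} : Set G) := subset_closure (by simp)
  have hy1 : y ∈ closure ({x, y} : Set G) := subset_closure (by simp)
  have hf : ∀ n ∈ N, ∃ m ∈ N ⊓ cen x, y⁻¹ * m * y * m⁻¹ = n := fun n hn' => by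
    obtain ⟨t1, -, -⟩ := he _ (hL n hn').1 (hL n hn').2
    obtain ⟨g, hg, e⟩ := s1.exists_cj_eq t1
    obtain ⟨m, hm, a, ha, rfl⟩ := (mem_sup_right_norm le_normalizer_of_normal).1
      (((sup_comm _ _).trans s2).ge hg)
    rw [← cj_cj, cj_eq_self_of_mem ha] at e
    have h1 : ∀ z ∈ closure ({x, y * n} : Set G), m⁻¹ * z * m ∈ closure ({x, y} : Set G) := fun z hz => by
      have h3 : z ∈ nor (closure ({x, y * n} : Set G) ⊓ Q) :=
        le_normalizer_inf le_normalizer le_normalizer_of_normal hz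
      rw [← e, nor, ← cj_normalizer, mem_cj] at h3
      exact s3 h3
    have h3 : x⁻¹ * (m⁻¹ * x * m) = 1 := mem_bot.1 (l2 ▸ mem_inf.2
      ⟨mul_mem (inv_mem hx1) (h1 x (subset_closure (by simp))), by
        rw [show x⁻¹ * (m⁻¹ * x * m) = x⁻¹ * m⁻¹ * x⁻¹⁻¹ * m by group]
        exact mul_mem (hN.1.1.conj_mem _ (inv_mem hm) _) hm⟩)
    have h4 : y⁻¹ * (m⁻¹ * (y * n) * m) = 1 := mem_bot.1 (l2 ▸ mem_inf.2
      ⟨mul_mem (inv_mem hy1) (h1 _ (subset_closure (by simp))), by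
        rw [show y⁻¹ * (m⁻¹ * (y * n) * m) = y⁻¹ * m⁻¹ * y⁻¹⁻¹ * n * m by group]
        exact mul_mem (mul_mem (hN.1.1.conj_mem _ (inv_mem hm) _) hn') hm⟩)
    refine ⟨m, ⟨hm, mem_cen.2 ?_⟩, ?_⟩
    · calc m * x = m * x * (x⁻¹ * (m⁻¹ * x * m)) := by rw [h3, mul_one]
        _ = x * m := by group
    · calc y⁻¹ * m * y * m⁻¹ = y⁻¹ * m * y * (y⁻¹ * (m⁻¹ * (y * n) * m)) * m⁻¹ := by rw [h4, mul_one]
        _ = n := by group
  have hcard : Nat.card N ≤ Nat.card ↥(N ⊓ cen x) := by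
    choose! m hm1 hm2 using hf
    refine Nat.card_le_card_of_injective (fun n : N => (⟨m n, hm1 n n.2⟩ : ↥(N ⊓ cen x))) fun a b e => ?_
    have e1 : m a = m b := congrArg Subtype.val e
    exact Subtype.ext (by rw [← hm2 a a.2, e1, hm2 b b.2])
  have hNx : N ≤ cen x := by
    rw [← inf_eq_left]
    exact eq_of_le_of_card_ge inf_le_left hcard
  have hK : ncl ⊤ (zpowers x) ≤ cs N :=
    ncl_le (le_centralizer_iff.1 (by rwa [← cs_zpowers] at hNx)) le_normalizer_of_normal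
  exact w2 (hc w ⟨w1, hK (w4 ⊤ (mem_top y))⟩ kw w3)

end H72.F2
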