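import Cfsg.Agent.H11.FBSpec
import Cfsg.Agent.S0024
import Cfsg.Agent.S0025

/-! Even degree: a normal complement forces the centraliser to have odd order. -/

set_option autoImplicit false

namespace H72.FbEV

open MulAction Subgroup H11.FB

universe u v

/-- In even degree a 2-subgroup fixing three points fixes a fourth one. -/
theorem fourth {G : Type u} {Ω : Type v} [Group G] [Finite G] [Fintype Ω] [MulAction G Ω]
    {a b c : Ω} (hab : a ≠ b) (hac : a ≠ c) (hbc : b ≠ c) (he : Even (Fintype.card Ω))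
    {T : Subgroup G} (hT : IsPGroup 2 T) (hle : T ≤ X3 G a b c) :
    ∃ w, D4 a b c w ∧ T ≤ L4 G a b c w := by
  classical
  by_contra hn
  have h1 := hT.card_modEq_card_fixedPoints Ω
  have h2 : fixedPoints T Ω = {a, b, c} := by
    ext w
    constructor
    · intro hw
      by_contra h
      simp only [Set.mem_insert_iff, Set.mem_singleton_iff, not_or] at h
      refine hn ⟨w, ⟨hab, hac, Ne.symm h.1, hbc, Ne.symm h.2.1, Ne.symm h.2.2⟩, fun t ht => ?_⟩
      obtain ⟨e1, e2, e3⟩ := mem_X3.1 (hle ht)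
      exact mem_L4.2 ⟨e1, e2, e3, hw ⟨t, ht⟩⟩
    · intro hw t
      obtain ⟨e1, e2, e3⟩ := mem_X3.1 (hle t.2)
      rcases hw with rfl | rfl | rfl
      · exact e1
      · exact e2
      · exact e3
  rw [h2, Nat.card_coe_set_eq, Set.ncard_eq_three.2 ⟨a, b, c, hab, hac, hbc, rfl⟩,
    Nat.card_eq_fintype_card] at h1
  obtain ⟨k, hk⟩ := he
  unfold Nat.ModEq at h1
  omega

theorem jobEV : JobEV.{u, v} := by
  intro G Ω _ _ _ _ a b c d K H P X₁ h x hy _ hodd pd he hh hr cp hx hxx hxh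
  have hL : h ∈ L4 G a b c d := hy.fr.Hle hh
  have hX : h ∈ X3 G a b c := hL.1
  have hro : Odd (orderOf h) := hodd.of_dvd_nat (orderOf_dvd_natCard H hh)
  have hc2 : ∀ k : ℕ, (2 ^ k).Coprime (orderOf h) := fun k =>
    Nat.Coprime.pow_left k ((Nat.coprime_two_left).2 hro)
  have two : ∀ y ∈ X3 G a b c, ∀ k : ℕ, y ^ 2 ^ k = 1 → y ∈ X₁ := fun y hy k e =>
    cp.all y hy (Nat.Coprime.coprime_dvd_left (orderOf_dvd_of_pow_eq_one e) (hc2 k))
  have hAX : zpowers h ≤ normalizer (X₁ : Set G) :=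
    (zpowers_le.2 hX).trans cp.nm.le_normalizer
  have hcop : (Nat.card (zpowers h)).Coprime (Nat.card X₁) := by
    rw [Nat.card_zpowers]; exact cp.cop.symm
  have hs : Group.IsSolvable (zpowers h) ∨ Group.IsSolvable X₁ := Or.inl inferInstance
  have hx2 : x ^ 2 ^ 1 = 1 := by rw [pow_one, sq, hxx]
  have hxp : IsPGroup 2 (zpowers x) := by
    obtain ⟨k, -, hk⟩ := (Nat.dvd_prime_pow Nat.prime_two).1 (orderOf_dvd_of_pow_eq_one hx2)
    exact IsPGroup.of_card (n := k) (by rw [Nat.card_zpowers, hk])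
  have hAx : zpowers h ≤ normalizer (zpowers x : Set G) := by
    refine zpowers_le.2 (mem_normalizer_fintype fun y hy => ?_)
    have : Commute h y := by
      obtain ⟨k, rfl⟩ := hy
      exact (show Commute h x from hxh.symm).zpow_right k
    rw [this.eq, mul_inv_cancel_right]
    exact hy
  obtain ⟨S1, hS1, hA1⟩ := Cfsg.Agent.S0025.result (zpowers h) X₁ hAX hcop hs 2 (zpowers x)
    (zpowers_le.2 (two x hx 1 hx2)) hxp hAx
  have hPX : P ≤ X₁ := fun y hy' => by
    obtain ⟨k, e⟩ := pd.pg ⟨y, hy'⟩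
    exact two y (hy.fr.Kle (pd.le hy')).1 k (congrArg Subtype.val e)
  have hAP : zpowers h ≤ normalizer (P : Set G) :=
    zpowers_le.2 (mem_normalizer_fintype fun y hy' => pd.conj_mem hy.fr
      (fun l hl => mul_mem (mul_mem hL hl) (inv_mem hL)) hy')
  obtain ⟨S2, hS2, hA2⟩ := Cfsg.Agent.S0025.result (zpowers h) X₁ hAX hcop hs 2 P hPX pd.pg hAP
  obtain ⟨e, he1, he2⟩ := Cfsg.Agent.S0024.result (zpowers h) X₁ hAX hcop hs 2 S1 S2 hA1 hA2
  have hT : IsPGroup 2 ((S2 : Subgroup X₁).map X₁.subtype) := S2.2.map _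
  obtain ⟨w, hw, hTw⟩ := fourth hy.ne.1 hy.ne.2.1 hy.ne.2.2.2.1 he hT
    ((map_subtype_le _).trans cp.le)
  obtain ⟨g, g1, g2, g3, g4⟩ := hy.exists_smul hy.ne hw
  have hL4 : L4 G a b c w = cj g (L4 G a b c d) := by rw [← L4_smul, g1, g2, g3, g4]
  have hTP : (S2 : Subgroup X₁).map X₁.subtype ≤ cj g P := fun y hy' => by
    obtain ⟨k, e⟩ := hT ⟨y, hy'⟩
    exact (pd.cj g).all y (hL4 ▸ hTw hy') k (congrArg Subtype.val e)
  have hEq : P = (S2 : Subgroup X₁).map X₁.subtype :=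
    eq_of_le_of_card_ge hS2 ((card_le_of_le hTP).trans (card_cj g P).le)
  obtain ⟨y, hy1, hy2⟩ := hS1 (mem_zpowers x)
  have hm : (e : G) * x * (e : G)⁻¹ ∈ P := by
    rw [hEq, ← he2]
    refine ⟨e * y * e⁻¹, ?_, by rw [← hy2]; rfl⟩
    exact smul_mem_pointwise_smul y (MulAut.conj e) _ hy1
  have heh : h * e = e * h := he1 h (mem_zpowers h)
  have h1 : h ≠ 1 := fun e => hr.ne_one (by rw [e, orderOf_one])
  have := hy.fr.fpf hh h1 (pd.le hm) (by
    calc h * ((e : G) * x * (e : G)⁻¹) = (h * e) * x * (e : G)⁻¹ := by group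
      _ = e * (h * x) * (e : G)⁻¹ := by rw [heh]; group
      _ = e * x * (e : G)⁻¹ * (e * h) * (e : G)⁻¹ := by rw [← hxh]; group
      _ = e * x * (e : G)⁻¹ * h := by rw [← heh]; group)
  calc x = (e : G)⁻¹ * (e * x * (e : G)⁻¹) * e := by group
    _ = 1 := by rw [this]; group

end H72.FbEV
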