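/- Three irreducible characters of a 4-transitive group. -/
import Cfsg.Agent.H28.GenChar
import Cfsg.Agent.H28.CharBasis
import Cfsg.Agent.H30.FrobSchur

set_option autoImplicit false

namespace H72.T4

open Finset MulAction Equiv Cfsg

variable {α : Type*} [Fintype α] [DecidableEq α]

/-- fixed points. -/
def F (σ : Perm α) : Finset α := {x | σ x = x}

/-- points in 2-cycles. -/
def D (σ : Perm α) : Finset α := {x | σ x ≠ x ∧ σ (σ x) = x}

/-- tuples permuted with a given pattern. -/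
noncomputable def N {k : ℕ} (τ : Fin k → Fin k) (σ : Perm α) : ℕ :=
  #{a : Fin k ↪ α | ∀ i, σ (a i) = a (τ i)}

theorem mem_F {σ : Perm α} {x : α} : x ∈ F σ ↔ σ x = x := by simp [F]

theorem mem_D {σ : Perm α} {x : α} : x ∈ D σ ↔ σ x ≠ x ∧ σ (σ x) = x := by simp [D]

theorem N_id (k : ℕ) (σ : Perm α) : N (k := k) id σ = (#(F σ)).descFactorial k := by
  have := Fintype.card_congr (Equiv.codRestrict (Fin k) (F σ : Set α))
  rw [Fintype.card_embedding_eq, Fintype.card_subtype] at this
  simpa [N, mem_F, Fintype.card_subtype, F] using this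

theorem N_2 (σ : Perm α) : N ![1, 0] σ = #(D σ) := by
  refine card_bij (fun a _ => a 0) (fun a h => ?_) (fun a h b k e => ?_) fun x h => ?_
  · simp only [Fin.forall_fin_succ, mem_filter_univ] at h
    simp_all [mem_D]
  · simp only [Fin.forall_fin_succ, mem_filter_univ] at h k
    ext i; fin_cases i <;> simp_all [← h.1, ← k.1]
  · rw [mem_D] at h
    exact ⟨⟨![x, σ x], List.nodup_ofFn.1 (by simp [h.1.symm])⟩, by simp [Fin.forall_fin_succ, h], rfl⟩

theorem N_3 (σ : Perm α) : N ![1, 0, 2] σ = #(D σ) * #(F σ) := by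
  rw [← card_product]
  refine card_bij (fun a _ => (a 0, a 2)) (fun a h => ?_) (fun a h b k e => ?_) fun ⟨x, y⟩ h => ?_
  · simp only [Fin.forall_fin_succ, mem_filter_univ] at h
    simp_all [mem_D, mem_F]
  · simp only [Fin.forall_fin_succ, mem_filter_univ] at h k
    ext i; fin_cases i <;> simp_all [← h.1, ← k.1]
  · simp only [mem_product, mem_D, mem_F] at h
    refine ⟨⟨![x, σ x, y], List.nodup_ofFn.1 ?_⟩, by simp [Fin.forall_fin_succ, h], rfl⟩
    simp; grind

theorem N_4 (σ : Perm α) : N ![1, 0, 2, 3] σ = #(D σ) * (#(F σ) * #(F σ) - #(F σ)) := by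
  rw [← offDiag_card, ← card_product]
  refine card_bij (fun a _ => (a 0, a 2, a 3)) (fun a h => ?_) (fun a h b k e => ?_)
    fun ⟨x, y, z⟩ h => ?_
  · simp only [Fin.forall_fin_succ, mem_filter_univ] at h
    simp_all [mem_D, mem_F]
  · simp only [Fin.forall_fin_succ, mem_filter_univ] at h k
    ext i; fin_cases i <;> simp_all [← h.1, ← k.1]
  · simp only [mem_product, mem_D, mem_F, mem_offDiag] at h
    refine ⟨⟨![x, σ x, y, z], List.nodup_ofFn.1 ?_⟩, by simp [Fin.forall_fin_succ, h], rfl⟩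
    simp; grind

theorem N_5 (σ : Perm α) : N ![1, 0, 3, 2] σ + 2 * #(D σ) = #(D σ) * #(D σ) := by
  have : N ![1, 0, 3, 2] σ = #((D σ).sigma fun x => ((D σ).erase x).erase (σ x)) := by
    refine card_bij (fun a _ => ⟨a 0, a 2⟩) (fun a h => ?_) (fun a h b k e => ?_)
      fun ⟨x, y⟩ h => ?_
    · simp only [Fin.forall_fin_succ, mem_filter_univ] at h
      simp_all [mem_D]
    · simp only [Fin.forall_fin_succ, mem_filter_univ] at h k
      ext i; fin_cases i <;> simp_all [← h.1, ← k.1, ← h.2.2.1, ← k.2.2.1]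
    · simp only [mem_sigma, mem_erase, mem_D] at h
      refine ⟨⟨![x, σ x, y, σ y], List.nodup_ofFn.1 ?_⟩, by simp [Fin.forall_fin_succ, h], rfl⟩
      simp; grind
  rw [this, card_sigma, mul_comm 2, ← smul_eq_mul, ← smul_eq_mul, ← sum_const, ← sum_const,
    ← sum_add_distrib]
  refine sum_congr rfl fun x hx => ?_
  have h := mem_D.1 hx
  rw [← card_erase_add_one hx, ← card_erase_add_one (s := (D σ).erase x) (a := σ x)
    (mem_erase.2 ⟨h.1, mem_D.2 ⟨σ.injective.ne h.1, by rw [h.2]⟩⟩)]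

theorem F_sq (σ : Perm α) : #(F (σ * σ)) = #(F σ) + #(D σ) := by
  rw [← card_union_of_disjoint (disjoint_left.2 fun x a b => (mem_D.1 b).1 (mem_F.1 a))]
  congr 1
  ext x
  simp only [mem_union, mem_F, mem_D, Perm.mul_apply]
  grind

variable (G : Type*) [Group G] [Fintype G] [MulAction G α]

theorem avg {k : ℕ} [h : IsMultiplyPretransitive G α k] (hk : k ≤ Fintype.card α)
    {τ : Fin k → Fin k} (hτ : Function.Injective τ) :
    ∑ g : G, N τ (toPerm g : Perm α) = Nat.card G := by
  classical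
  obtain ⟨a₀⟩ : Nonempty (Fin k ↪ α) := Function.Embedding.nonempty_of_card_le (by simpa)
  have c : ∀ a : Fin k ↪ α, #{g : G | ∀ i, g • a i = a (τ i)} = Nat.card (stabilizer G a₀) := by
    intro a
    obtain ⟨u, hu⟩ := h.exists_smul_eq a₀ a
    obtain ⟨v, hv⟩ := h.exists_smul_eq a₀ ((⟨τ, hτ⟩ : Fin k ↪ Fin k).trans a)
    rw [Nat.card_eq_fintype_card, Fintype.card_subtype]
    refine card_bijective (fun g => v⁻¹ * g * u) (((Equiv.mulLeft v⁻¹).trans (Equiv.mulRight u)).bijective)
      fun g => ?_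
    simp only [mem_filter_univ, mem_stabilizer_iff, mul_smul, hu, inv_smul_eq_iff, hv]
    exact ⟨fun e => DFunLike.ext _ _ e, fun e i => DFunLike.congr_fun e i⟩
  simp only [N, card_filter]
  rw [sum_comm]
  simp only [← card_filter, toPerm_apply, c, sum_const, smul_eq_mul, card_univ]
  rw [← (stabilizer G a₀).index_mul_card, index_stabilizer_of_transitive,
    Nat.card_eq_fintype_card (α := Fin k ↪ α)]

variable {G}

/-- number of fixed points. -/
abbrev f (α : Type*) [Fintype α] [DecidableEq α] [MulAction G α] (g : G) : ℂ :=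
  #(F (toPerm g : Perm α))

/-- number of points in 2-cycles. -/
abbrev d (α : Type*) [Fintype α] [DecidableEq α] [MulAction G α] (g : G) : ℂ :=
  #(D (toPerm g : Perm α))

theorem cast_desc (n k : ℕ) : (n.descFactorial (k + 1) : ℂ) = (n - k) * n.descFactorial k := by
  rcases le_or_gt k n with h | h
  · rw [Nat.descFactorial_succ, Nat.cast_mul, Nat.cast_sub h]
  · simp [Nat.descFactorial_of_lt h]

theorem norm_one [h : IsMultiplyPretransitive G α 4] (h4 : 4 ≤ Fintype.card α) {θ : G → ℂ}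
    (a₀ a₁ a₂ a₄ b₀ b₁ b₂ c : ℂ) (hs : a₀ + a₁ + a₂ + a₄ + b₀ + b₁ + b₂ + c = 1)
    (e : ∀ g, θ g * (starRingEnd ℂ) (θ g) = a₀ + a₁ * f α g + a₂ * ((f α g - 1) * f α g) +
      a₄ * ((f α g - 3) * ((f α g - 2) * ((f α g - 1) * f α g))) + b₀ * d α g +
      b₁ * (d α g * f α g) + b₂ * (d α g * (f α g * f α g - f α g)) +
      c * (d α g * d α g - 2 * d α g)) : classInner θ θ = 1 := by
  have t : ∀ k ≤ 4, IsMultiplyPretransitive G α k := fun k hk =>
    isMultiplyPretransitive_of_le hk (by simpa using h4)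
  have A : ∀ {k : ℕ} (τ : Fin k → Fin k), k ≤ 4 → Function.Injective τ →
      ∑ g : G, (N τ (toPerm g : Perm α) : ℂ) = Nat.card G := fun τ hk hτ => by
    haveI := t _ hk
    exact_mod_cast avg G (hk.trans h4) hτ
  have A1 := A (k := 1) id (by decide) (by decide)
  have A2 := A (k := 2) id (by decide) (by decide)
  have A4 := A (k := 4) id (by decide) (by decide)
  have B0 := A ![1, 0] (by decide) (by decide)
  have B1 := A ![1, 0, 2] (by decide) (by decide)
  have B2 := A ![1, 0, 2, 3] (by decide) (by decide)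
  have C := A ![1, 0, 3, 2] (by decide) (by decide)
  simp only [N_id, cast_desc, Nat.descFactorial_zero, Nat.cast_one, mul_one, Nat.cast_zero,
    sub_zero, Nat.cast_ofNat] at A1 A2 A4
  simp only [N_2, N_3, N_4, Nat.cast_mul, Nat.cast_sub (Nat.le_mul_self _)] at B0 B1 B2
  have C' : ∑ g : G, (d α g * d α g - 2 * d α g) = Nat.card G := by
    rw [← C]
    exact sum_congr rfl fun g _ => sub_eq_of_eq_add (by exact_mod_cast (N_5 _).symm)
  have n0 : (Nat.card G : ℂ) ≠ 0 := Nat.cast_ne_zero.2 Nat.card_pos.ne'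
  simp only [classInner, e, sum_add_distrib, ← mul_sum, A1, A2, A4, B0, B1, B2, C', sum_const,
    card_univ, nsmul_eq_mul, ← Nat.card_eq_fintype_card]
  field_simp
  exact hs

theorem isChar_f : IsCharacter G (f α) := by
  convert H28.isCharacter_perm (G := G) α using 3 with g
  rw [Nat.card_eq_fintype_card, Fintype.card_subtype]; rfl

theorem f_sq (g : G) : f α (g * g) = f α g + d α g := by
  exact_mod_cast (congrArg (fun σ => #(F σ)) (map_mul (toPermHom G α) g g)).trans (F_sq _)

theorem f_one : f α (1 : G) = Fintype.card α := by simp [F]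

theorem d_one : d α (1 : G) = 0 := by simp [D]

theorem irr [h : IsMultiplyPretransitive G α 4] (h4 : 4 ≤ Fintype.card α) :
    IsIrrCharacter G (fun g => f α g - 1) ∧
    IsIrrCharacter G (fun g => (f α g ^ 2 - 3 * f α g + d α g) / 2) ∧
    IsIrrCharacter G (fun g => (f α g ^ 2 - 3 * f α g + 2 - d α g) / 2) := by
  open H28.Cfsg in
  have g1 := IsCharacter.isGeneralizedCharacter (isChar_f (G := G) (α := α))
  have g0 := IsCharacter.isGeneralizedCharacter (H28.isCharacter_one (G := G))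
  have g2 := IsCharacter.isGeneralizedCharacter (H30.isCharacter_symSq (isChar_f (G := G) (α := α)))
  have g3 := IsCharacter.isGeneralizedCharacter (H30.isCharacter_altSq (isChar_f (G := G) (α := α)))
  have n4 : (4 : ℝ) ≤ Fintype.card α := by exact_mod_cast h4
  refine ⟨IsGeneralizedCharacter.irr_of_norm_one (IsGeneralizedCharacter.sub g1 g0)
      (norm_one h4 1 (-1) 1 0 0 0 0 0 (by ring) fun g => by simp; ring) (by simp [f_one]; linarith),
    IsGeneralizedCharacter.irr_of_norm_one ?_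
      (norm_one h4 0 1 (-1 / 2) (1 / 4) (1 / 2) (-1) (1 / 2) (1 / 4) (by ring)
        fun g => by simp [map_ofNat]; ring) ?_,
    IsGeneralizedCharacter.irr_of_norm_one ?_
      (norm_one h4 1 (-1) (1 / 2) (1 / 4) (-1 / 2) 1 (-1 / 2) (1 / 4) (by ring)
        fun g => by simp [map_ofNat]; ring) ?_⟩
  · convert IsGeneralizedCharacter.sub (IsGeneralizedCharacter.sub g2 g1) g1 using 2 with g
    simp only [Pi.sub_apply, f_sq]; ring
  · simp [f_one, d_one, sq]; nlinarith
  · convert IsGeneralizedCharacter.add (IsGeneralizedCharacter.sub g3 g1) g0 using 2 with g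
    simp only [Pi.sub_apply, Pi.add_apply, f_sq]; ring
  · simp [f_one, d_one, sq]; nlinarith

theorem D_eq {σ : Perm α} (h : 2 ∉ σ.cycleType) : D σ = ∅ := by
  refine eq_empty_of_forall_notMem fun x hx => h ?_
  obtain ⟨h1, h2⟩ := mem_D.1 hx
  have c := Perm.isCycle_cycleOf σ h1
  have e : σ.cycleOf x ^ 2 = 1 := (c.pow_eq_one_iff' (x := x) (by simpa using h1)).2 (by
    rw [Perm.cycleOf_pow_apply_self]; exact h2)
  rw [Perm.cycleType_def, Multiset.mem_map]
  exact ⟨_, Perm.cycleOf_mem_cycleFactorsFinset_iff.2 (Perm.mem_support.2 h1),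
    c.orderOf.symm.trans (orderOf_eq_prime e c.ne_one)⟩

theorem card_F (σ : Perm α) : #(F σ) = Fintype.card α - σ.cycleType.sum := by
  rw [← Perm.card_fixedPoints, Fintype.card_subtype]; rfl

theorem exists_alt (m : Multiset ℕ) (r : ℕ) (h1 : m.sum + r = Fintype.card α) (h2 : ∀ a ∈ m, 2 ≤ a)
    (h3 : Even (m.sum + m.card)) : ∃ x : alternatingGroup α, orderOf x = m.lcm ∧ f α x = r ∧
      (2 ∉ m → d α x = 0) := by
  obtain ⟨g, rfl⟩ := (Perm.exists_with_cycleType_iff α).2 ⟨by omega, h2⟩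
  refine ⟨⟨g, by rw [Perm.mem_alternatingGroup, Perm.sign_of_cycleType, h3.neg_one_pow]⟩,
    by rw [← Subgroup.orderOf_coe, Perm.lcm_cycleType], ?_, fun h => ?_⟩
  · exact congrArg _ ((card_F g).trans (by omega))
  · exact Nat.cast_eq_zero.2 (card_eq_zero.2 (D_eq h))

theorem exists_two {c k r : ℕ} (hc : c = 2 ∨ c = 4) (hk : 2 ≤ k) (h : c * k + r = Fintype.card α) :
    ∃ x : alternatingGroup α, (∃ j, orderOf x = 2 ^ j) ∧ f α x = r ∧ (c = 4 → d α x = 0) := by
  obtain ⟨m, h1, h2, h3⟩ : ∃ m : Multiset ℕ, m.sum = c * k ∧ Even m.card ∧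
      ∀ a ∈ m, a = c ∨ a = 2 * c := by
    rcases Nat.even_or_odd k with e | e
    · exact ⟨.replicate k c, by simp [mul_comm], by simpa,
        fun a ha => .inl (Multiset.eq_of_mem_replicate ha)⟩
    · obtain ⟨k, rfl⟩ := Nat.exists_eq_add_of_le hk
      exact ⟨(2 * c) ::ₘ .replicate k c, by simp; ring, by simp; grind, fun a ha =>
        (Multiset.mem_cons.1 ha).symm.imp_left Multiset.eq_of_mem_replicate⟩
  obtain ⟨x, a, b, e⟩ := exists_alt (α := α) m r (h1 ▸ h) (fun a ha => by have := h3 a ha; omega)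
    (Even.add (h1 ▸ Even.mul_right (by grind) k) h2)
  obtain ⟨j, -, hj⟩ := (Nat.dvd_prime_pow Nat.prime_two).1 (show orderOf x ∣ 2 ^ 3 from
    a ▸ Multiset.lcm_dvd.2 fun y hy => by
      rcases h3 y hy with rfl | rfl <;> rcases hc with rfl | rfl <;> decide)
  exact ⟨x, ⟨j, hj⟩, b, fun h => e fun h2 => by have := h3 2 h2; omega⟩

theorem exists_three {k r : ℕ} (h : 3 * (k + 1) + r = Fintype.card α) :
    ∃ x : alternatingGroup α, orderOf x = 3 ∧ f α x = r ∧ d α x = 0 := by
  obtain ⟨x, a, b, e⟩ := exists_alt (α := α) (.replicate (k + 1) 3) r (by simp; omega)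
    (fun a ha => by rw [Multiset.eq_of_mem_replicate ha]; decide) (by simp; grind)
  refine ⟨x, a.trans (Nat.dvd_antisymm (Multiset.lcm_dvd.2 fun y hy =>
    (Multiset.eq_of_mem_replicate hy).dvd) (Multiset.dvd_lcm (by simp))), b, e ?_⟩
  simp [Multiset.mem_replicate]

end H72.T4
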