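import Cfsg.Agent.Base

/-! Abelian sections of a group as modules; nilpotency and Hall-Higman type lemmas. -/

set_option autoImplicit false

namespace H72.JN

open scoped commutatorElement

universe u

/-- An abelian section `U / V` written additively. -/
structure Sec {Γ : Type u} [Group Γ] (U V : Subgroup Γ) (W : Type u) [AddCommGroup W] where
  cl : Γ → W
  ρ : Γ →* AddMonoid.End W
  add : ∀ x ∈ U, ∀ y ∈ U, cl (x * y) = cl x + cl y
  conj : ∀ g, ∀ x ∈ U, cl (g * x * g⁻¹) = ρ g (cl x)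
  zero : ∀ x ∈ U, cl x = 0 ↔ x ∈ V
  surj : ∀ w, ∃ x ∈ U, cl x = w

variable {Γ : Type u} [Group Γ]

theorem exists_sec (U V : Subgroup Γ) [U.Normal] [V.Normal]
    (h : ∀ x ∈ U, ∀ y ∈ U, ⁅x, y⁆ ∈ V) :
    ∃ (W : Type u) (_ : AddCommGroup W), Nonempty (Sec U V W) := by
  classical
  let π := QuotientGroup.mk' V
  let U' := U.map π
  haveI : U'.Normal := Subgroup.Normal.map ‹_› π (QuotientGroup.mk'_surjective V)
  letI : CommGroup U' := { (inferInstance : Group U') with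
    mul_comm := by
      rintro ⟨_, x, hx, rfl⟩ ⟨_, y, hy, rfl⟩
      refine Subtype.ext (commutatorElement_eq_one_iff_mul_comm.1 ?_)
      change ⁅π x, π y⁆ = 1
      rw [← map_commutatorElement]
      exact (QuotientGroup.eq_one_iff _).2 (h x hx y hy) }
  let cl : Γ → Additive U' := fun x => if hx : π x ∈ U' then Additive.ofMul ⟨π x, hx⟩ else 0
  have hcl : ∀ x (hx : x ∈ U), cl x = Additive.ofMul ⟨π x, x, hx, rfl⟩ := fun x hx =>
    dif_pos ⟨x, hx, rfl⟩
  refine ⟨Additive U', inferInstance, ⟨⟨cl,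
    { toFun := fun g => MonoidHom.toAdditive (MulAut.conjNormal (π g) : U' ≃* U').toMonoidHom
      map_one' := by ext x; simp; rfl
      map_mul' := fun a b => by ext x; simp; rfl }, ?_, ?_, ?_, ?_⟩⟩⟩
  · intro x hx y hy
    rw [hcl _ (U.mul_mem hx hy), hcl x hx, hcl y hy, ← ofMul_mul]
    congr 1
  · intro g x hx
    rw [hcl _ (Subgroup.Normal.conj_mem ‹_› x hx g), hcl x hx]
    congr 1
  · intro x hx
    rw [hcl x hx, ofMul_eq_zero, Subtype.ext_iff]
    exact QuotientGroup.eq_one_iff x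
  · intro w
    obtain ⟨x, hx, e⟩ := (Additive.toMul w).2
    exact ⟨x, hx, by rw [hcl x hx]; exact congrArg Additive.ofMul (Subtype.ext e)⟩

/-- The commutator map `x ↦ x⁻¹ xᵃ`. -/
def τ (a x : Γ) : Γ := x⁻¹ * (a * x * a⁻¹)

theorem τ_mem {M : Subgroup Γ} {a : Γ} (ha : ∀ x ∈ M, a * x * a⁻¹ ∈ M) {x : Γ} (hx : x ∈ M) :
    τ a x ∈ M := M.mul_mem (M.inv_mem hx) (ha x hx)

theorem iter_mem {M : Subgroup Γ} {a : Γ} (ha : ∀ x ∈ M, a * x * a⁻¹ ∈ M) {x : Γ} (hx : x ∈ M)
    (j : ℕ) : (τ a)^[j] x ∈ M := by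
  induction j with
  | zero => exact hx
  | succ j ih => rw [Function.iterate_succ_apply']; exact τ_mem ha ih

theorem iter_conj (a x : Γ) (j : ℕ) : (τ a)^[j] (a * x * a⁻¹) = a * (τ a)^[j] x * a⁻¹ := by
  induction j with
  | zero => rfl
  | succ j ih =>
    rw [Function.iterate_succ_apply', Function.iterate_succ_apply', ih, τ, τ]
    group

namespace Sec

variable {U V : Subgroup Γ} {W : Type u} [AddCommGroup W] (s : Sec U V W)

theorem cl_one : s.cl 1 = 0 := by
  have := s.add 1 U.one_mem 1 U.one_mem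
  rw [one_mul] at this
  exact left_eq_add.1 this

theorem cl_inv {x : Γ} (hx : x ∈ U) : s.cl x⁻¹ = - s.cl x := by
  have := s.add _ (U.inv_mem hx) _ hx
  rw [inv_mul_cancel, s.cl_one] at this
  exact eq_neg_of_add_eq_zero_left this.symm

theorem cl_pow {x : Γ} (hx : x ∈ U) (m : ℕ) : s.cl (x ^ m) = m • s.cl x := by
  induction m with
  | zero => simp [s.cl_one]
  | succ m ih => rw [pow_succ, s.add _ (U.pow_mem hx m) _ hx, ih, succ_nsmul]

theorem cl_τ [hU : U.Normal] (a : Γ) {x : Γ} (hx : x ∈ U) :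
    s.cl (τ a x) = (s.ρ a - 1) (s.cl x) := by
  rw [τ, s.add _ (U.inv_mem hx) _ (hU.conj_mem x hx a), s.cl_inv hx, s.conj a x hx]
  change _ = s.ρ a (s.cl x) - s.cl x
  abel

theorem cl_iter [hU : U.Normal] (a : Γ) {x : Γ} (hx : x ∈ U) (j : ℕ) :
    s.cl ((τ a)^[j] x) = ((s.ρ a - 1) ^ j) (s.cl x) := by
  induction j with
  | zero => rfl
  | succ j ih =>
    rw [Function.iterate_succ_apply', s.cl_τ a (iter_mem (fun y hy => hU.conj_mem y hy a) hx j),
      ih, pow_succ']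
    rfl

theorem ρ_eq_one [hU : U.Normal] {g : Γ} (hg : ∀ x ∈ U, τ g x ∈ V) : s.ρ g = 1 := by
  ext w
  obtain ⟨x, hx, rfl⟩ := s.surj w
  have := (s.zero _ (τ_mem (fun y hy => hU.conj_mem y hy g) hx)).2 (hg x hx)
  rw [s.cl_τ g hx] at this
  exact sub_eq_zero.1 this

include s in
theorem natCast_eq_zero {m : ℕ} (hm : ∀ x ∈ U, x ^ m ∈ V) : (m : AddMonoid.End W) = 0 := by
  ext w
  obtain ⟨x, hx, rfl⟩ := s.surj w
  have := (s.zero _ (U.pow_mem hx m)).2 (hm x hx)
  rw [s.cl_pow hx] at this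
  simpa using this

end Sec

theorem sub_pow_eq {E : Type*} [Ring E] {p : ℕ} [hp : Fact p.Prime] (h : (p : E) = 0) (α : E)
    (k : ℕ) : (α - 1) ^ p ^ k = α ^ p ^ k - 1 ∧
      (α - 1) ^ (p ^ k - 1) = ∑ i ∈ Finset.range (p ^ k), α ^ i := by
  rcases subsingleton_or_nontrivial E with h1 | h1
  · exact ⟨Subsingleton.elim _ _, Subsingleton.elim _ _⟩
  haveI : CharP E p := (CharP.charP_iff_prime_eq_zero hp.out).2 h
  letI := ZMod.algebra E p
  have e1 : (Polynomial.X - 1 : Polynomial (ZMod p)) ^ p ^ k = Polynomial.X ^ p ^ k - 1 := by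
    rw [sub_pow_char_pow, one_pow]
  have e2 : (Polynomial.X - 1 : Polynomial (ZMod p)) ^ (p ^ k - 1) =
      ∑ i ∈ Finset.range (p ^ k), Polynomial.X ^ i := by
    refine mul_left_cancel₀ (a := Polynomial.X - 1) (Polynomial.X_sub_C_ne_zero 1) ?_
    rw [mul_geom_sum, ← e1, ← pow_succ', Nat.sub_add_cancel (pow_pos hp.out.pos k)]
  have a1 := congrArg (Polynomial.aeval α) e1
  have a2 := congrArg (Polynomial.aeval α) e2
  simp only [map_pow, map_sub, map_sum, Polynomial.aeval_X, map_one] at a1 a2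
  exact ⟨a1, a2⟩

/-- The Hall-Higman type lemma for a Frobenius action. -/
theorem hh {Δ : Type*} [Group Δ] {W : Type*} [AddCommGroup W] {p : ℕ} [hp : Fact p.Prime]
    (ρ : Δ →* AddMonoid.End W) (h : (p : AddMonoid.End W) = 0) (K : Subgroup Δ) [hK : K.Normal]
    [Finite K] (hc : ¬ p ∣ Nat.card K) (hfix : ∀ w, (∀ y ∈ K, ρ y w = w) → w = 0) (a : Δ) (k : ℕ)
    (hf : ∀ i, 0 < i → i < p ^ k → ∀ y ∈ K, a ^ i * y = y * a ^ i → y = 1)
    (h0 : (ρ a - 1) ^ (p ^ k - 1) = 0) (w : W) : w = 0 := by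
  classical
  haveI := Fintype.ofFinite K
  have hN : ∑ y : K, ρ y = 0 := by
    ext v
    refine hfix _ fun z hz => ?_
    have : ρ z * ∑ y : K, ρ y = ∑ y : K, ρ y := by
      rw [Finset.mul_sum]
      exact Fintype.sum_equiv (Equiv.mulLeft (⟨z, hz⟩ : K)) _ _ fun y => by simp
    exact congrArg (fun f : AddMonoid.End W => f v) this
  have h1 : ∀ i, 0 < i → i < p ^ k → ∑ y : K, ρ (y * a ^ i * (y : Δ)⁻¹) = 0 := by
    intro i hi hi'
    let f : K → K := fun y => ⟨y * (a ^ i * (y : Δ)⁻¹ * (a ^ i)⁻¹),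
      K.mul_mem y.2 (hK.conj_mem _ (K.inv_mem y.2) _)⟩
    have hinj : Function.Injective f := by
      intro y z e
      have e1 : (y : Δ) * (a ^ i * (y : Δ)⁻¹ * (a ^ i)⁻¹) = z * (a ^ i * (z : Δ)⁻¹ * (a ^ i)⁻¹) :=
        congrArg Subtype.val e
      have := hf i hi hi' ((z : Δ)⁻¹ * y) (K.mul_mem (K.inv_mem z.2) y.2) (by
        calc a ^ i * ((z : Δ)⁻¹ * y)
            = (z : Δ)⁻¹ * (z * (a ^ i * (z : Δ)⁻¹ * (a ^ i)⁻¹)) * (a ^ i * y) := by group
          _ = _ := by rw [← e1]; group)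
      exact Subtype.ext (inv_mul_eq_one.1 this).symm
    calc ∑ y : K, ρ (y * a ^ i * (y : Δ)⁻¹) = (∑ y : K, ρ (f y)) * ρ (a ^ i) := by
          rw [Finset.sum_mul]
          refine Finset.sum_congr rfl fun y _ => ?_
          rw [← map_mul]
          congr 1
          simp [f, mul_assoc]
      _ = 0 := by
          rw [Function.Bijective.sum_comp (Finite.injective_iff_bijective.1 hinj)
            (fun y : K => ρ y), hN, zero_mul]
  rw [(sub_pow_eq h _ k).2] at h0
  have h2 : ∑ i ∈ Finset.range (p ^ k), ∑ y : K, ρ (y * a ^ i * (y : Δ)⁻¹) = 0 := by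
    rw [Finset.sum_comm]
    refine Finset.sum_eq_zero fun y _ => ?_
    simp only [map_mul, map_pow]
    rw [← Finset.sum_mul, ← Finset.mul_sum, h0, mul_zero, zero_mul]
  rw [Finset.sum_eq_single 0 (fun i hi h => h1 i (Nat.pos_of_ne_zero h) (Finset.mem_range.1 hi))
    (fun h => absurd (Finset.mem_range.2 (pow_pos hp.out.pos k)) h)] at h2
  simp only [pow_zero, mul_one, mul_inv_cancel, map_one, Finset.sum_const, Finset.card_univ,
    nsmul_eq_mul] at h2
  rw [← Nat.card_eq_fintype_card] at h2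
  obtain ⟨u, v, huv⟩ := Nat.isCoprime_iff_coprime.2 ((Nat.Prime.coprime_iff_not_dvd hp.out).2 hc)
  have h3 := congrArg (Int.cast : ℤ → AddMonoid.End W) huv
  push_cast at h3
  rw [h, h2, mul_zero, mul_zero, add_zero] at h3
  exact (congrArg (fun f : AddMonoid.End W => f w) h3).symm

theorem mul_card_le_of_lt [Finite Γ] {p : ℕ} [hp : Fact p.Prime] {K L : Subgroup Γ}
    (hL : IsPGroup p L) (h : K < L) : p * Nat.card K ≤ Nat.card L := by
  obtain ⟨i, hi⟩ := (hL.to_le h.le).exists_card_eq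
  obtain ⟨j, hj⟩ := hL.exists_card_eq
  have h1 : Nat.card K < Nat.card L :=
    lt_of_le_of_ne (Subgroup.card_le_of_le h.le) fun e =>
      h.ne (Subgroup.eq_of_le_of_card_ge h.le e.ge)
  rw [hi, hj] at h1 ⊢
  rw [← pow_succ']
  exact Nat.pow_le_pow_right hp.out.pos ((Nat.pow_lt_pow_iff_right hp.out.one_lt).1 h1)

/-- A long chain of commutators gives a large index. -/
theorem Sec.chain [Finite Γ] {U V : Subgroup Γ} [hU : U.Normal] {W : Type u} [AddCommGroup W]
    (s : Sec U V W) {p : ℕ} [hp : Fact p.Prime] {M K : Subgroup Γ} (hM : IsPGroup p M)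
    (hMU : M ≤ U) {a : Γ} (ha : ∀ x ∈ M, a * x * a⁻¹ ∈ M) (hKM : K ≤ M)
    (hK : ∀ x ∈ K, (s.ρ a - 1) (s.cl x) = 0) {N m : ℕ} (hN : (s.ρ a - 1) ^ N = 0) {z : Γ}
    (hz : z ∈ M) (hm : ((s.ρ a - 1) ^ m) (s.cl z) ≠ 0) : p ^ m * Nat.card K ≤ Nat.card M := by
  classical
  set t := s.ρ a - 1 with ht
  let L : ℕ → Subgroup Γ := fun j =>
    { carrier := {x | x ∈ M ∧ (t ^ (j + 1)) (s.cl x) = 0}
      one_mem' := ⟨M.one_mem, by rw [s.cl_one, map_zero]⟩
      mul_mem' := fun {x y} hx hy => ⟨M.mul_mem hx.1 hy.1, by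
        rw [s.add _ (hMU hx.1) _ (hMU hy.1), map_add, hx.2, hy.2, add_zero]⟩
      inv_mem' := fun {x} hx => ⟨M.inv_mem hx.1, by rw [s.cl_inv (hMU hx.1), map_neg, hx.2, neg_zero]⟩ }
  have hex : ∃ e, (t ^ (e + 1)) (s.cl z) = 0 := ⟨N, by rw [pow_succ', hN, mul_zero]; rfl⟩
  have he1 := Nat.find_spec hex
  set e := Nat.find hex with he
  have hme : m ≤ e := by
    by_contra hc
    obtain ⟨d, rfl⟩ := Nat.exists_eq_add_of_le (show e + 1 ≤ m by omega)
    apply hm
    rw [add_comm, pow_add]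
    change (t ^ d) ((t ^ (e + 1)) (s.cl z)) = 0
    rw [he1, map_zero]
  have key : ∀ j ≤ e, p ^ j * Nat.card K ≤ Nat.card (L j) := by
    intro j
    induction j with
    | zero =>
      intro _
      rw [pow_zero, one_mul]
      exact Subgroup.card_le_of_le fun x hx => ⟨hKM hx, by rw [zero_add, pow_one]; exact hK x hx⟩
    | succ j ih =>
      intro hj
      have hlt : L j < L (j + 1) := by
        refine lt_of_le_of_ne (fun x hx => ⟨hx.1, ?_⟩) fun h => ?_
        · rw [pow_succ']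
          change t ((t ^ (j + 1)) (s.cl x)) = 0
          rw [hx.2, map_zero]
        · have hc : ∀ i, (t ^ i) (s.cl ((τ a)^[e - (j + 1)] z)) = (t ^ (i + (e - (j + 1)))) (s.cl z) := by
            intro i
            rw [s.cl_iter a (hMU hz), pow_add]
            rfl
          have h1 : (τ a)^[e - (j + 1)] z ∈ L (j + 1) :=
            ⟨iter_mem ha hz _, by rw [hc, show j + 1 + 1 + (e - (j + 1)) = e + 1 by omega, he1]⟩
          rw [← h] at h1
          have h2 := h1.2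
          rw [hc] at h2
          exact Nat.find_min hex (show e - 1 < e by omega)
            (by rwa [show e - 1 + 1 = j + 1 + (e - (j + 1)) by omega])
      have := mul_card_le_of_lt (hM.to_le (show L (j + 1) ≤ M from fun x hx => hx.1)) hlt
      calc p ^ (j + 1) * Nat.card K = p * (p ^ j * Nat.card K) := by ring
        _ ≤ p * Nat.card (L j) := Nat.mul_le_mul_left _ (ih (by omega))
        _ ≤ _ := this
  exact (key m hme).trans (Subgroup.card_le_of_le fun x hx => hx.1)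

end H72.JN
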