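import Cfsg.Agent.H72.JNorm1
import Cfsg.Agent.H12.Basic

/-! An abelian subgroup acting with a long Jordan block is not of largest order (`p ≥ 5`). -/

set_option autoImplicit false

namespace H72.JN

open scoped commutatorElement

universe u

theorem vanish {W : Type*} [AddCommGroup W] (H : ℕ → ℕ → ℕ → W) (n r : ℕ)
    (rel : ∀ l i j, H (l + 1) i j = H l (i + 1) j + H l i (j + 1) + H l (i + 1) (j + 1))
    (h1 : ∀ l i j, r ≤ l → H l i j = 0) (h2 : ∀ l i j, n ≤ i → H l i j = 0) :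
    ∀ j l i, n + r ≤ l + i + j + 1 → H l i j = 0 := by
  intro j
  induction j with
  | zero =>
    intro l i h
    by_cases h3 : r ≤ l
    · exact h1 _ _ _ h3
    · exact h2 _ _ _ (by omega)
  | succ j ih =>
    have key : ∀ d l i, n ≤ i + d → n + r ≤ l + i + (j + 1) + 1 → H l i (j + 1) = 0 := by
      intro d
      induction d with
      | zero => intro l i h _; exact h2 _ _ _ h
      | succ d ihd =>
        intro l i h h'
        have := rel l i j
        rw [ih (l + 1) i (by omega), ih l (i + 1) (by omega), ihd l (i + 1) (by omega) (by omega),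
          zero_add, add_zero] at this
        exact this.symm
    exact fun l i h => key n l i (by omega) h

theorem vanish2 {W : Type*} [AddCommGroup W] (H : ℕ → ℕ → ℕ → W) {p k : ℕ} (hp : 5 ≤ p)
    (hp6 : p ≠ 6) (hk : 1 ≤ k)
    (rel : ∀ l i j, H (l + 1) i j = H l (i + 1) j + H l i (j + 1) + H l (i + 1) (j + 1))
    (h1 : ∀ l i j, k + 1 ≤ l → H l i j = 0) (h2 : ∀ l i j, p ^ k ≤ i → H l i j = 0)
    (h3 : ∀ l i, H l i i = 0) (h4 : ∀ l i j, H l i j = - H l j i) {i j : ℕ}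
    (hi : p ^ k ≤ i + k + 2) (hj : p ^ k ≤ j + k + 2) : H 0 i j = 0 := by
  have v := vanish H (p ^ k) (k + 1) rel h1 h2
  by_cases e : i = j
  · rw [e, h3]
  by_cases h5 : p = 5 ∧ k = 1
  · obtain ⟨rfl, rfl⟩ := h5
    have a1 : H 1 1 3 = 0 := by
      have := rel 1 1 2
      rw [h1 2 _ _ le_rfl, h3, v 3 1 2 (by norm_num), zero_add, add_zero] at this
      exact this.symm
    have a2 : H 1 0 4 = 0 := by
      have := rel 1 0 3
      rw [h1 2 _ _ le_rfl, a1, v 4 1 1 (by norm_num), zero_add, add_zero] at this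
      exact this.symm
    have a3 : H 0 1 4 = 0 := by
      have := rel 0 0 4
      rw [a2, h4 0 0, h2 0 (4 + 1) 0 (by norm_num), v 5 0 1 (by norm_num), neg_zero, add_zero,
        add_zero] at this
      exact this.symm
    have a4 : H 0 2 3 = 0 := by
      have := rel 0 1 3
      rw [a1, a3, v 4 0 2 (by norm_num), add_zero, add_zero] at this
      exact this.symm
    by_cases h6 : 6 ≤ i + j
    · exact v _ _ _ (by omega)
    · obtain ⟨rfl, rfl⟩ | ⟨rfl, rfl⟩ : (i = 2 ∧ j = 3) ∨ (i = 3 ∧ j = 2) := by omega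
      · exact a4
      · rw [h4, a4, neg_zero]
  · have h6 : 3 * k + 3 ≤ p ^ k := by
      by_cases hk1 : k = 1
      · subst hk1
        rw [pow_one]
        omega
      · refine le_trans ?_ (Nat.pow_le_pow_left hp k)
        obtain ⟨m, rfl⟩ := Nat.exists_eq_add_of_le (show 2 ≤ k by omega)
        have := Nat.lt_pow_self (n := m) (show 1 < 5 by norm_num)
        rw [pow_add]
        omega
    exact v _ _ _ (by omega)

variable {Γ : Type u} [Group Γ]

theorem τ_mul (u w x : Γ) : τ (u * w) x = τ u x * (u * τ w x * u⁻¹) := by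
  simp only [τ]; group

theorem comm_sup {X Y : Subgroup Γ} (hX : ∀ a ∈ X, ∀ b ∈ X, a * b = b * a)
    (hY : ∀ a ∈ Y, ∀ b ∈ Y, a * b = b * a) (hXY : ∀ a ∈ X, ∀ b ∈ Y, a * b = b * a) :
    IsMulCommutative (X ⊔ Y : Subgroup Γ) := by
  rw [Subgroup.sup_eq_closure]
  refine Subgroup.isMulCommutative_closure ?_
  rintro a (ha | ha) b (hb | hb)
  exacts [hX a ha b hb, hXY a ha b hb, (hXY b hb a ha).symm, hY a ha b hb]

/-- Thompson's counting argument. -/
theorem thompson_count [Finite Γ] {A A₀ M K : Subgroup Γ} {x : Γ}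
    (hA : ∀ a ∈ A, ∀ b ∈ A, a * b = b * a) (h0 : A₀ ≤ A)
    (hM : M = Subgroup.closure {z | ∃ u ∈ A, τ u x = z})
    (hMc : ∀ a ∈ M, ∀ b ∈ M, a * b = b * a) (hK : ∀ u ∈ A₀, τ u x ∈ K) :
    Nat.card A₀ * Nat.card (K ⊓ Subgroup.centralizer (A : Set Γ) : Subgroup Γ) ≤
      Nat.card (A₀ ⊓ Subgroup.centralizer (M : Set Γ) : Subgroup Γ) * Nat.card K := by
  set D := (Subgroup.centralizer (M : Set Γ)).subgroupOf A₀
  set C := (Subgroup.centralizer (A : Set Γ)).subgroupOf K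
  have hm : ∀ u ∈ A, τ u x ∈ M := fun u hu => hM ▸ Subgroup.subset_closure ⟨u, hu, rfl⟩
  let f : A₀ → K ⧸ C := fun u => QuotientGroup.mk ⟨τ u x, hK u u.2⟩
  have hf : ∀ u w : A₀, f u = f w → u⁻¹ * w ∈ D := by
    intro u w e
    have e1 : (τ (u : Γ) x)⁻¹ * τ (w : Γ) x ∈ Subgroup.centralizer (A : Set Γ) :=
      Subgroup.mem_subgroupOf.1 (QuotientGroup.eq.1 e)
    have hd : ((u⁻¹ * w : A₀) : Γ) ∈ A := h0 (u⁻¹ * w).2
    rw [Subgroup.mem_subgroupOf]
    have e2 : (w : Γ) = u * (u⁻¹ * w : A₀) := by simp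
    generalize ((u⁻¹ * w : A₀) : Γ) = d at hd e2
    rw [e2, τ_mul, inv_mul_cancel_left] at e1
    have e3 : ∀ e ∈ A, e * τ d x = τ d x * e := by
      intro e he
      have h1 := e1 e he
      have h2 := e1 u (h0 u.2)
      have h3 : (u : Γ) * τ d x * (u : Γ)⁻¹ = τ d x := by
        have : (u : Γ) * (u * τ d x * (u : Γ)⁻¹) = u * τ d x := by rw [h2]; group
        exact mul_left_cancel this
      rwa [h3] at h1
    rw [← Subgroup.zpowers_le, Subgroup.le_centralizer_iff, hM, Subgroup.closure_le]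
    rintro _ ⟨e, he, rfl⟩
    rw [SetLike.mem_coe, Subgroup.mem_centralizer_iff]
    rintro _ ⟨k, rfl⟩
    refine (Commute.zpow_left ?_ k).eq
    have h1 := τ_mul d e x
    rw [hA d hd e he, τ_mul, e3 e he, mul_inv_cancel_right, hMc _ (hm e he) _ (hm d hd)] at h1
    exact (eq_mul_inv_iff_mul_eq.1 (mul_left_cancel h1)).symm
  have h1 : D.index ≤ C.index := by
    refine Nat.card_le_card_of_injective (fun q : A₀ ⧸ D => f q.out) fun q q' e => ?_
    rw [← q.out_eq, ← q'.out_eq]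
    exact QuotientGroup.eq.2 (hf _ _ e)
  have h2 := D.card_mul_index
  have h3 := C.card_mul_index
  have h4 : Nat.card D = Nat.card (A₀ ⊓ Subgroup.centralizer (M : Set Γ) : Subgroup Γ) := by
    rw [← Subgroup.card_map_of_injective A₀.subtype_injective, Subgroup.subgroupOf_map_subtype,
      inf_comm]
  have h5 : Nat.card C = Nat.card (K ⊓ Subgroup.centralizer (A : Set Γ) : Subgroup Γ) := by
    rw [← Subgroup.card_map_of_injective K.subtype_injective, Subgroup.subgroupOf_map_subtype,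
      inf_comm]
  rw [← h2, ← h3, ← h4, ← h5]
  calc Nat.card D * D.index * Nat.card C ≤ Nat.card D * C.index * Nat.card C := by gcongr
    _ = _ := by ring

section Core

variable {U V : Subgroup Γ} (hV : ∀ v ∈ V, ∀ x ∈ U, x * v = v * x)
  (hc : ∀ x ∈ U, ∀ y ∈ U, ⁅x, y⁆ ∈ V)

include hV hc in
theorem comm_mul_left {x x' y : Γ} (hx : x ∈ U) (hx' : x' ∈ U) (hy : y ∈ U) :
    ⁅x * x', y⁆ = ⁅x', y⁆ * ⁅x, y⁆ := by
  calc ⁅x * x', y⁆ = x * ⁅x', y⁆ * x⁻¹ * ⁅x, y⁆ := by simp only [commutatorElement_def]; group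
    _ = _ := by rw [hV _ (hc _ hx' _ hy) x hx, mul_inv_cancel_right]

include hV hc in
theorem comm_mul_right {x y y' : Γ} (hx : x ∈ U) (hy : y ∈ U) (hy' : y' ∈ U) :
    ⁅x, y * y'⁆ = ⁅x, y⁆ * ⁅x, y'⁆ := by
  calc ⁅x, y * y'⁆ = ⁅x, y⁆ * (y * ⁅x, y'⁆ * y⁻¹) := by simp only [commutatorElement_def]; group
    _ = _ := by rw [hV _ (hc _ hx _ hy') y hy, mul_inv_cancel_right]

include hV hc in
theorem comm_conj {g x y : Γ} [hU : U.Normal] (hx : x ∈ U) (hy : y ∈ U) :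
    g * ⁅x, y⁆ * g⁻¹ = (⁅τ g x, y⁆ * ⁅τ g x, τ g y⁆) * (⁅x, y⁆ * ⁅x, τ g y⁆) := by
  have a1 := τ_mem (fun z hz => hU.conj_mem z hz g) hx
  have a2 := τ_mem (fun z hz => hU.conj_mem z hz g) hy
  rw [← comm_mul_right hV hc a1 hy a2, ← comm_mul_right hV hc hx hy a2,
    ← comm_mul_left hV hc hx a1 (U.mul_mem hy a2)]
  simp only [commutatorElement_def, τ]
  group

end Core

theorem core2 [Finite Γ] {p : ℕ} [hp : Fact p.Prime] (hp5 : 5 ≤ p) {R U V A : Subgroup Γ}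
    [hR : R.Normal] [hU : U.Normal] [hVn : V.Normal] (hRp : IsPGroup p R) (hVU : V ≤ U)
    (hUR : U ≤ R) (hV : ∀ v ∈ V, ∀ x ∈ U, x * v = v * x) (hτ : ∀ r ∈ R, ∀ x ∈ U, τ r x ∈ V)
    (hpw : ∀ x ∈ U, x ^ p ∈ V) (hA : ∀ a ∈ A, ∀ b ∈ A, a * b = b * a) {k : ℕ} (hk : 1 ≤ k)
    (hmax : ∀ B ≤ R, IsMulCommutative B → Nat.card B ≤ p ^ k * Nat.card (A ⊓ R : Subgroup Γ))
    {a : Γ} (ha : a ∈ A) (hak : a ^ p ^ k ∈ R) (hgen : ∀ u ∈ A, ∃ i : ℕ, ∃ r ∈ R, u = a ^ i * r)
    {y : Γ} (hy : y ∈ U) : (τ a)^[p ^ k - 1] y ∈ V := by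
  by_contra hyV
  have hc : ∀ x ∈ U, ∀ y ∈ U, ⁅x, y⁆ ∈ V := by
    intro x hx y hy
    have := hτ y (hUR hy) x⁻¹ (U.inv_mem hx)
    simpa [τ, commutatorElement_def, mul_assoc] using this
  have hUa : ∀ g, ∀ x ∈ U, g * x * g⁻¹ ∈ U := fun g x hx => hU.conj_mem x hx g
  obtain ⟨W, _, ⟨s⟩⟩ := exists_sec U V hc
  have hnil : (s.ρ a - 1) ^ p ^ k = 0 := by
    rw [(sub_pow_eq (s.natCast_eq_zero hpw) _ k).1, ← map_pow, s.ρ_eq_one (hτ _ hak), sub_self]
  set Z : Subgroup Γ := ⁅U, U⁆ with hZ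
  have hZV : Z ≤ V := Subgroup.commutator_le.2 hc
  have hZc : ∀ x ∈ Z, ∀ y ∈ Z, x * y = y * x := fun x hx y hy => hV y (hZV hy) x (hVU (hZV hx))
  obtain ⟨W', _, ⟨s'⟩⟩ := exists_sec Z ⊥ fun x hx y hy =>
    Subgroup.mem_bot.2 (commutatorElement_eq_one_iff_mul_comm.2 (hZc x hx y hy))
  have hm : ∀ {x y}, x ∈ U → y ∈ U → ⁅x, y⁆ ∈ Z := fun hx hy =>
    Subgroup.commutator_mem_commutator hx hy
  have hv0 : ∀ x ∈ U, ∀ v ∈ V, ⁅x, v⁆ = 1 := fun x hx v hv =>
    commutatorElement_eq_one_iff_mul_comm.2 (hV v hv x hx)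
  have hv1 : ∀ x ∈ U, ∀ v ∈ V, ⁅v, x⁆ = 1 := fun x hx v hv =>
    commutatorElement_eq_one_iff_mul_comm.2 (hV v hv x hx).symm
  have hRZ : ∀ r ∈ R, ∀ z ∈ Z, r * z = z * r := by
    intro r hr z hz
    have : Z ≤ Subgroup.centralizer {r} := Subgroup.commutator_le.2 fun x hx y hy => by
      rw [Subgroup.mem_centralizer_singleton_iff, eq_comm, ← mul_inv_eq_iff_eq_mul,
        comm_conj hV hc hx hy, hv1 _ hy _ (hτ r hr x hx), hv0 _ hx _ (hτ r hr y hy),
        hv1 _ (hVU (hτ r hr y hy)) _ (hτ r hr x hx)]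
      simp
    exact (Subgroup.mem_centralizer_singleton_iff.1 (this hz)).symm
  have hZp : ∀ z ∈ Z, z ^ p ∈ (⊥ : Subgroup Γ) := by
    let P : Subgroup Γ :=
      { carrier := {z | z ∈ V ∧ z ^ p = 1}
        one_mem' := ⟨V.one_mem, one_pow _⟩
        mul_mem' := fun {x y} hx hy => ⟨V.mul_mem hx.1 hy.1, by
          rw [Commute.mul_pow (hV y hy.1 x (hVU hx.1)), hx.2, hy.2, one_mul]⟩
        inv_mem' := fun {x} hx => ⟨V.inv_mem hx.1, by rw [inv_pow, hx.2, inv_one]⟩ }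
    have : Z ≤ P := Subgroup.commutator_le.2 fun x hx y hy => ⟨hc x hx y hy, by
      have h1 : ∀ m : ℕ, ⁅x, y ^ m⁆ = ⁅x, y⁆ ^ m := by
        intro m
        induction m with
        | zero => simp
        | succ m ih => rw [pow_succ, comm_mul_right hV hc hx (U.pow_mem hy m) hy, ih, pow_succ]
      rw [← h1, hv0 x hx _ (hpw y hy)]⟩
    exact fun z hz => (this hz).2
  have hnil' : (s'.ρ a - 1) ^ p ^ k = 0 := by
    rw [(sub_pow_eq (s'.natCast_eq_zero hZp) _ k).1, ← map_pow, s'.ρ_eq_one, sub_self]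
    intro x hx
    rw [τ, hRZ _ hak x hx]
    simp
  have hpos : 0 < Nat.card (A ⊓ R : Subgroup Γ) := Nat.card_pos
  have hZR : Z ≤ R := hZV.trans (hVU.trans hUR)
  -- the action on `Z` is short
  have hσ : ∀ z ∈ Z, ((s'.ρ a - 1) ^ (k + 1)) (s'.cl z) = 0 := by
    intro z hz
    by_contra h
    have h1 := s'.chain (K := Z ⊓ (A ⊓ R)) (hRp.to_le hZR) le_rfl
      (fun x hx => Subgroup.Normal.conj_mem inferInstance x hx a) inf_le_left (fun x hx => by
        rw [← s'.cl_τ a hx.1, τ, hA a ha x hx.2.1]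
        simpa using s'.cl_one) hnil' hz h
    have h2 := H12.card_mul_card_le Z (A ⊓ R)
    have h3 := hmax _ (sup_le hZR inf_le_right) (comm_sup hZc
      (fun a ha b hb => hA a ha.1 b hb.1) fun a ha b hb => (hRZ b hb.2 a ha).symm)
    have h4 : 0 < Nat.card (Z ⊓ (A ⊓ R) : Subgroup Γ) := Nat.card_pos
    have h5 : p ^ (k + 1) * Nat.card (Z ⊓ (A ⊓ R) : Subgroup Γ) * Nat.card (A ⊓ R : Subgroup Γ) ≤
        p ^ k * Nat.card (Z ⊓ (A ⊓ R) : Subgroup Γ) * Nat.card (A ⊓ R : Subgroup Γ) := by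
      calc _ ≤ _ := Nat.mul_le_mul_right _ h1
        _ ≤ _ := h2
        _ ≤ _ := Nat.mul_le_mul_right _ h3
        _ = _ := by ring
    have h6 := Nat.le_of_mul_le_mul_right (Nat.le_of_mul_le_mul_right h5 hpos) h4
    have := (Nat.pow_le_pow_iff_right hp.out.one_lt).1 h6
    omega
  have hit : ∀ j, (τ a)^[j] y ∈ U := iter_mem (hUa a) hy
  have hiso : ∀ i j, p ^ k ≤ i + k + 2 → p ^ k ≤ j + k + 2 →
      (τ a)^[i] y * (τ a)^[j] y = (τ a)^[j] y * (τ a)^[i] y := by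
    intro i j hi hj
    have := vanish2 (fun l i j => ((s'.ρ a - 1) ^ l) (s'.cl ⁅(τ a)^[i] y, (τ a)^[j] y⁆)) hp5
      (by rintro rfl; exact absurd hp.out (by norm_num)) hk ?_ ?_ ?_ ?_ ?_ hi hj
    · exact commutatorElement_eq_one_iff_mul_comm.1 ((s'.zero _ (hm (hit i) (hit j))).1 this)
    · intro l i j
      simp only [Function.iterate_succ_apply']
      rw [← map_add, ← map_add, pow_succ]
      change ((s'.ρ a - 1) ^ l) (s'.ρ a _ - s'.cl _) = _
      congr 1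
      have a1 := τ_mem (hUa a) (hit i)
      have a2 := τ_mem (hUa a) (hit j)
      rw [← s'.conj a _ (hm (hit i) (hit j)), comm_conj hV hc (hit i) (hit j),
        s'.add _ (Z.mul_mem (hm a1 (hit j)) (hm a1 a2)) _
          (Z.mul_mem (hm (hit i) (hit j)) (hm (hit i) a2)),
        s'.add _ (hm a1 (hit j)) _ (hm a1 a2), s'.add _ (hm (hit i) (hit j)) _ (hm (hit i) a2)]
      abel
    · intro l i j hl
      obtain ⟨d, rfl⟩ := Nat.exists_eq_add_of_le' hl
      rw [pow_add]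
      change ((s'.ρ a - 1) ^ d) (((s'.ρ a - 1) ^ (k + 1)) _) = 0
      rw [hσ _ (hm (hit i) (hit j)), map_zero]
    · intro l i j hl
      obtain ⟨d, rfl⟩ := Nat.exists_eq_add_of_le' hl
      have : (τ a)^[d + p ^ k] y ∈ V := by
        rw [← s.zero _ (hit _), s.cl_iter a hy, pow_add, hnil, mul_zero]
        rfl
      rw [hv1 _ (hit j) _ this, s'.cl_one, map_zero]
    · intro l i
      rw [commutatorElement_self, s'.cl_one, map_zero]
    · intro l i j
      rw [← commutatorElement_inv, s'.cl_inv (hm (hit j) (hit i)), map_neg]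
  have hn : k + 3 ≤ p ^ k := by
    refine le_trans ?_ (Nat.pow_le_pow_left hp5 k)
    obtain ⟨m, rfl⟩ := Nat.exists_eq_add_of_le hk
    have := Nat.lt_pow_self (n := m) (show 1 < 5 by norm_num)
    rw [pow_add]
    omega
  set T := Subgroup.closure ((V : Set Γ) ∪ {z | ∃ j, p ^ k ≤ j + k + 2 ∧ (τ a)^[j] y = z}) with hT
  have hTc : IsMulCommutative T := Subgroup.isMulCommutative_closure (by
    rintro b (hb | ⟨i, hi, rfl⟩) c (hc | ⟨j, hj, rfl⟩)
    exacts [hV c hc b (hVU hb), (hV b hb _ (hit j)).symm, hV c hc _ (hit i), hiso i j hi hj])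
  have hVT : V ≤ T := fun v hv => Subgroup.subset_closure (Or.inl hv)
  have hTa : ∀ z ∈ T, a * z * a⁻¹ ∈ T := by
    have : T ≤ T.comap (MulAut.conj a).toMonoidHom := by
      rw [hT, Subgroup.closure_le]
      rintro b (hb | ⟨i, hi, rfl⟩)
      · exact hVT (hVn.conj_mem b hb a)
      · have e : a * (τ a)^[i] y * a⁻¹ = (τ a)^[i] y * (τ a)^[i + 1] y := by
          rw [Function.iterate_succ_apply', τ]; group
        change a * (τ a)^[i] y * a⁻¹ ∈ T
        rw [e]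
        exact T.mul_mem (Subgroup.subset_closure (Or.inr ⟨i, hi, rfl⟩))
          (Subgroup.subset_closure (Or.inr ⟨i + 1, by omega, rfl⟩))
    exact fun z hz => this hz
  set x := (τ a)^[p ^ k - k - 3] y with hx
  have hxU : x ∈ U := hit _
  have hτx : τ a x = (τ a)^[p ^ k - k - 2] y := by
    rw [show p ^ k - k - 2 = p ^ k - k - 3 + 1 by omega, Function.iterate_succ_apply']
  have hxT : ∀ u ∈ A, τ u x ∈ T := by
    intro u hu
    obtain ⟨i, r, hr, rfl⟩ := hgen u hu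
    rw [τ_mul]
    refine T.mul_mem ?_ (hVT (hVn.conj_mem _ (hτ r hr x hxU) _))
    clear hu
    induction i with
    | zero => simp [τ]
    | succ i ih =>
      rw [pow_succ', τ_mul]
      exact T.mul_mem (Subgroup.subset_closure (Or.inr ⟨_, by omega, hτx.symm⟩)) (hTa _ ih)
  set M := Subgroup.closure {z | ∃ u ∈ A, τ u x = z} with hM
  have hMT : M ≤ T := by
    rw [hM, Subgroup.closure_le]
    rintro _ ⟨u, hu, rfl⟩
    exact hxT u hu
  have hMU : M ≤ U := by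
    rw [hM, Subgroup.closure_le]
    rintro _ ⟨u, -, rfl⟩
    exact τ_mem (hUa u) hxU
  have hMc : ∀ b ∈ M, ∀ c ∈ M, b * c = c * b := fun b hb c hc =>
    congrArg Subtype.val (hTc.is_comm.comm ⟨b, hMT hb⟩ ⟨c, hMT hc⟩)
  have hmem : ∀ u ∈ A, τ u x ∈ M := fun u hu => Subgroup.subset_closure ⟨u, hu, rfl⟩
  have hMa : ∀ z ∈ M, a * z * a⁻¹ ∈ M := by
    have : M ≤ M.comap (MulAut.conj a).toMonoidHom := by
      conv_lhs => rw [hM]
      rw [Subgroup.closure_le]
      rintro _ ⟨u, hu, rfl⟩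
      change a * τ u x * a⁻¹ ∈ M
      rw [← M.mul_mem_cancel_left (hmem a ha), ← τ_mul]
      exact hmem _ (A.mul_mem ha hu)
    exact fun z hz => this hz
  set K := (M ⊓ V) ⊔ (M ⊓ Subgroup.centralizer (A : Set Γ)) with hK
  have hKM : K ≤ M := sup_le inf_le_left inf_le_left
  have h1 := s.chain (K := K) (m := k + 1) (hRp.to_le (hMU.trans hUR)) hMU hMa hKM (by
    let P : Subgroup Γ :=
      { carrier := {z | z ∈ U ∧ (s.ρ a - 1) (s.cl z) = 0}
        one_mem' := ⟨U.one_mem, by rw [s.cl_one, map_zero]⟩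
        mul_mem' := fun {x y} hx hy => ⟨U.mul_mem hx.1 hy.1, by
          rw [s.add _ hx.1 _ hy.1, map_add, hx.2, hy.2, add_zero]⟩
        inv_mem' := fun {x} hx => ⟨U.inv_mem hx.1, by rw [s.cl_inv hx.1, map_neg, hx.2, neg_zero]⟩ }
    have : K ≤ P := sup_le
      (fun z hz => ⟨hMU hz.1, by rw [(s.zero _ (hMU hz.1)).2 hz.2, map_zero]⟩)
      (fun z hz => ⟨hMU hz.1, by
        rw [← s.cl_τ a (hMU hz.1), τ, hz.2 a ha]
        simpa using s.cl_one⟩)
    exact fun z hz => (this hz).2) hnil (hmem a ha) (by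
      rw [hτx, ← s.cl_iter a (hit _), ← Function.iterate_add_apply, Ne, s.zero _ (hit _),
        show k + 1 + (p ^ k - k - 2) = p ^ k - 1 by omega]
      exact hyV)
  have h2 := thompson_count (K := K) hA (inf_le_left : A ⊓ R ≤ A) hM hMc fun u hu =>
    Subgroup.mem_sup_left ⟨hmem u hu.1, hτ u hu.2 x hxU⟩
  set D := A ⊓ R ⊓ Subgroup.centralizer (M : Set Γ) with hD
  have h3 := H12.card_mul_card_le M D
  have h4 := hmax (M ⊔ D) (sup_le (hMU.trans hUR) (inf_le_left.trans inf_le_right))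
    (comm_sup hMc (fun a ha b hb => hA a ha.1.1 b hb.1.1) fun a ha b hb => hb.2 a ha)
  have h5 : Nat.card (M ⊓ D : Subgroup Γ) ≤
      Nat.card (K ⊓ Subgroup.centralizer (A : Set Γ) : Subgroup Γ) :=
    Subgroup.card_le_of_le fun z hz =>
      have : z ∈ Subgroup.centralizer (A : Set Γ) := fun b hb => hA b hb z hz.2.1.1
      ⟨Subgroup.mem_sup_right ⟨hz.1, this⟩, this⟩
  have h6 : p ^ (k + 1) * Nat.card K * Nat.card D ≤ p ^ k * Nat.card K * Nat.card D := by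
    calc _ ≤ _ := Nat.mul_le_mul_right _ h1
      _ ≤ _ := h3
      _ ≤ _ := Nat.mul_le_mul h4 h5
      _ = p ^ k * (Nat.card (A ⊓ R : Subgroup Γ) *
          Nat.card (K ⊓ Subgroup.centralizer (A : Set Γ) : Subgroup Γ)) := by ring
      _ ≤ _ := Nat.mul_le_mul_left _ h2
      _ = _ := by ring
  have h7 := Nat.le_of_mul_le_mul_right (Nat.le_of_mul_le_mul_right h6 Nat.card_pos) Nat.card_pos
  have := (Nat.pow_le_pow_iff_right hp.out.one_lt).1 h7
  omega

end H72.JN
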