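/- Job K9 of `blueprints/LOCAL3C.md`, the character part: a subgroup mapping onto `(3 × 3) : 2`. -/
import Cfsg.Agent.H56.L3BS

set_option autoImplicit false
open Cfsg H28 H29 H31 H56.L3 Subgroup

namespace H72.K9

variable {Y : Type*} [Group Y] [Fintype Y] {S : Subgroup Y} {τ e : Y}

/-- the induced class function -/
noncomputable abbrev Th (ψ : S →* ℂˣ) : Y → ℂ := indFun S fun c => (ψ c : ℂ) - 1

theorem gen_sub (ψ : S →* ℂˣ) : IsGeneralizedCharacter S fun c => (ψ c : ℂ) - 1 := by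
  classical
  exact (isIrrCharacter_of_hom ψ).isGeneralizedCharacter.sub isIrrCharacter_one.isGeneralizedCharacter

theorem th_val (ψ : S →* ℂˣ) (hτ : τ ∉ S) {c c' : S} (h1 : τ * c * τ⁻¹ = c') (h2 : ψ c' = (ψ c)⁻¹)
    (hTI : ∀ g : Y, g * c * g⁻¹ ∈ S → g ∈ S ∨ g * τ⁻¹ ∈ S) : Th ψ c = ψ c + (ψ c : ℂ)⁻¹ - 2 := by
  classical
  have h1y : (1 : Y) ≠ τ := fun e => hτ (e ▸ one_mem _)
  rw [Th, indFun_eq_sum_reps S (gen_sub ψ).isClassFunction c {1, τ}, Finset.sum_pair h1y]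
  · rw [one_mul, inv_one, mul_one, H33.ext0_coe, h1, H33.ext0_coe, h2, Units.val_inv_eq_inv_val]
    ring
  · simp only [Finset.mem_insert, Finset.mem_singleton]
    rintro r (rfl | rfl) s (rfl | rfl) hrs
    · rfl
    · exact absurd (by simpa using hrs) hτ
    · exact absurd (by simpa using hrs) hτ
    · rfl
  · intro g z hz _
    rcases hTI g (hz ▸ z.2) with h1 | h1
    · exact ⟨1, by simp, by simpa using h1⟩
    · exact ⟨τ, by simp, h1⟩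

theorem th_one (ψ : S →* ℂˣ) (h : ψ ≠ 1) : classInner (Th ψ) (fun _ => 1) = -1 := by
  classical
  have ha : IsIrrCharacter S fun c => (ψ c : ℂ) := isIrrCharacter_of_hom ψ
  have hu : IsIrrCharacter S fun _ => (1 : ℂ) := isIrrCharacter_one
  rw [Th, H33.classInner_indFun_left S _ (isClassFunction_const 1)]
  refine (classInner_sub_left (fun c => (ψ c : ℂ)) (fun _ => 1) _).trans ?_
  rw [ha.classInner_of_ne hu fun e => h (MonoidHom.ext fun c => Units.ext (congrFun e c)),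
    hu.classInner_self, zero_sub]

theorem th_inner (ψ φ : S →* ℂˣ) (h1 : ψ ≠ 1) (h2 : φ ≠ 1) (h3 : ψ ≠ φ) (h4 : ψ ≠ φ⁻¹)
    (hv : ∀ c : S, ψ c ≠ 1 → Th φ c = φ c + (φ c : ℂ)⁻¹ - 2) : classInner (Th ψ) (Th φ) = 2 := by
  classical
  let f : (S →* ℂˣ) → S → ℂ := fun ψ c => (ψ c : ℂ)
  have hi : ∀ ψ, IsIrrCharacter S (f ψ) := fun ψ => isIrrCharacter_of_hom ψ
  have ne : ∀ ψ φ, ψ ≠ φ → classInner (f ψ) (f φ) = 0 := fun ψ φ h =>
    (hi ψ).classInner_of_ne (hi φ) fun e => h (MonoidHom.ext fun c => Units.ext (congrFun e c))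
  rw [Th, classInner_indFun_eq S _ (f φ - f 1 + (f φ⁻¹ - f 1)) (isGenChar_indFun S (gen_sub φ)).isClassFunction
    fun c hc => (hv c fun e => hc (by simp [e])).trans (by simp [f]; ring)]
  change classInner (f ψ - f 1) _ = 2
  simp only [classInner_add_right, classInner_sub_left, classInner_sub_right, (hi 1).classInner_self,
    ne _ _ h1, ne _ _ h3, ne _ _ h4, ne _ _ h2.symm, ne _ _ (inv_ne_one.2 h2).symm]
  norm_num

/-- the two constituents -/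
structure Pr (θ χ₁ χ₂ : Y → ℂ) : Prop where
  i1 : IsIrrCharacter Y χ₁
  i2 : IsIrrCharacter Y χ₂
  eq : ∀ g, θ g = χ₁ g - χ₂ g - 1
  one : χ₁ 1 = χ₂ 1 + 1

variable {θ χ₁ χ₂ θ' χ₁' χ₂' : Y → ℂ}

theorem Pr.share (h : Pr θ χ₁ χ₂) (h' : Pr θ' χ₁' χ₂') (h1 : classInner θ (fun _ => 1) = -1)
    (h2 : classInner θ' (fun _ => 1) = -1) (h3 : classInner θ θ' = 2) (h4 : θ e = 0) (h5 : θ' e = 0) :
    χ₂' e = χ₂ e ∧ χ₂' 1 = χ₂ 1 := by
  have e1 : χ₁ - χ₂ = θ + fun _ => 1 := funext fun g => by simp [h.eq g]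
  have e2 : χ₁' - χ₂' = θ' + fun _ => 1 := funext fun g => by simp [h'.eq g]
  rcases share_of_inner_eq_one h.i1 h.i2 h'.i1 h'.i2 (by
    rw [e1, e2, classInner_add_left, classInner_add_right, classInner_add_right, h1, h3,
      ← H33.conj_classInner, h2, isIrrCharacter_one.classInner_self]
    norm_num) with ⟨rfl, -⟩ | ⟨-, rfl⟩
  · exact ⟨by linear_combination h'.eq e - h.eq e + h4 - h5, by linear_combination h.one - h'.one⟩
  · exact ⟨rfl, rfl⟩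

theorem Pr.sum (h : Pr θ χ₁ χ₂) (h4 : θ e = 0) :
    (∑ k, ∑ g, θ (g * e * g⁻¹ * (k * e * k⁻¹))) * (χ₂ 1 * (χ₂ 1 + 1)) =
      -(Nat.card Y * Nat.card Y * (χ₂ e - χ₂ 1) ^ 2) := by
  have e1 := sum_sum_conj h.i1 e e
  have e2 := sum_sum_conj h.i2 e e
  rw [h.one, show χ₁ e = χ₂ e + 1 by linear_combination h4 - h.eq e] at e1
  simp only [h.eq, Finset.sum_sub_distrib, Finset.sum_const, Finset.card_univ, nsmul_eq_mul, mul_one,
    ← Nat.card_eq_fintype_card]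
  linear_combination χ₂ 1 * e1 - (χ₂ 1 + 1) * e2

theorem cube_aux {w : ℂˣ} (h1 : w ≠ 1) (h : w ^ 3 = 1) : (w : ℂ) ^ 2 + w + 1 = 0 := by
  have : (w : ℂ) ^ 3 = 1 := by rw [← Units.val_pow_eq_pow_val, h, Units.val_one]
  exact mul_left_cancel₀ (sub_ne_zero.2 fun e : (w : ℂ) = 1 => h1 (Units.ext e)) (by linear_combination this)

theorem inv_aux {w : ℂˣ} (h : w ^ 3 = 1) : (w : ℂ)⁻¹ = w ^ 2 := by
  rw [← Units.val_inv_eq_inv_val, ← Units.val_pow_eq_pow_val, inv_eq_of_mul_eq_one_left (by rw [← pow_succ, h])]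

theorem lin9 {Q : Type*} [CommGroup Q] [Finite Q] (h9 : Nat.card Q = 9) {p : Q} (hp : p ≠ 1)
    (h3 : p ^ 3 = 1) : ∃ α β : Q →* ℂˣ, α p = 1 ∧ β p ≠ 1 ∧ (∃ q, α q ≠ 1) ∧
      ∀ x, α x = 1 → x ∈ zpowers p := by
  have h1 := card_eq_card_quotient_mul_card_subgroup (zpowers p)
  rw [h9, Nat.card_zpowers, orderOf_eq_prime h3 hp] at h1
  have h2 : Nat.card (Q ⧸ zpowers p) = 3 := by omega
  have : Fact (Nat.card (Q ⧸ zpowers p)).Prime := ⟨h2 ▸ Nat.prime_three⟩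
  have := Finite.one_lt_card_iff_nontrivial.1 (by omega : 1 < Nat.card (Q ⧸ zpowers p))
  obtain ⟨y, hy⟩ := exists_ne (1 : Q ⧸ zpowers p)
  obtain ⟨α, hα⟩ := CommGroup.exists_apply_ne_one_of_hasEnoughRootsOfUnity _ ℂ hy
  obtain ⟨β, hβ⟩ := CommGroup.exists_apply_ne_one_of_hasEnoughRootsOfUnity _ ℂ hp
  obtain ⟨q, rfl⟩ := QuotientGroup.mk_surjective y
  refine ⟨α.comp (QuotientGroup.mk' _), β, ?_, hβ, ⟨q, hα⟩, fun x hx => ?_⟩
  · rw [MonoidHom.comp_apply, QuotientGroup.mk'_apply, (QuotientGroup.eq_one_iff p).2 (mem_zpowers p), map_one]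
  · exact (QuotientGroup.eq_one_iff x).1 (mem_bot.1 ((α.ker.eq_bot_or_eq_top_of_prime_card.resolve_right
      fun e => hα (e.ge (mem_top _))).le hx))

theorem k9char {Q : Type*} [CommGroup Q] [Finite Q] (h9 : Nat.card Q = 9) (h3 : ∀ x : Q, x ^ 3 = 1)
    (π : S →* Q) (hπ : Function.Surjective π) {p : Q} (hp : p ≠ 1) (hτ : τ ∉ S)
    (hn : ∀ c : S, ∃ c' : S, τ * c * τ⁻¹ = c' ∧ π c' = (π c)⁻¹)
    (hTI : ∀ c : S, π c ≠ 1 → ∀ g : Y, g * c * g⁻¹ ∈ S → g ∈ S ∨ g * τ⁻¹ ∈ S)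
    (he : ∀ g (c : S), g * e * g⁻¹ = c → π c = 1)
    (hee : ∀ g g' (c : S), g * e * g⁻¹ * (g' * e * g'⁻¹) = c → π c ∈ zpowers p → π c = 1) :
    ∃ N : Subgroup Y, N.Normal ∧ e ∈ N ∧ ∀ c : S, (c : Y) ∈ N → π c = 1 := by
  classical
  obtain ⟨α, β, αp, βp, ⟨q, αq⟩, kα⟩ := lin9 h9 hp (h3 p)
  have c3 : ∀ (ψ : Q →* ℂˣ) x, ψ x ^ 3 = 1 := fun ψ x => by rw [← map_pow, h3, map_one]
  have s1 : ∀ (ψ : Q →* ℂˣ) (c : S), ψ.comp π c ≠ 1 → π c ≠ 1 := fun ψ c h e => h (by simp [e])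
  have inj : ∀ ψ φ : Q →* ℂˣ, ψ.comp π = φ.comp π → ψ = φ := fun ψ φ e => (MonoidHom.cancel_right hπ).1 e
  have val : ∀ (ψ : Q →* ℂˣ) (c : S), π c ≠ 1 → Th (ψ.comp π) c = ψ (π c) + (ψ (π c) : ℂ) ^ 2 - 2 :=
    fun ψ c hc => by
      obtain ⟨c', h1, h2⟩ := hn c
      rw [th_val _ hτ h1 (by simp [h2]) (hTI c hc), ← inv_aux (c3 ψ _)]
      rfl
  have zer : ∀ (ψ : Q →* ℂˣ) (g : Y), (∀ k (c : S), k * g * k⁻¹ = c → π c = 1) → Th (ψ.comp π) g = 0 :=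
    fun ψ g hg => H33.indFun_eq_zero_of _ _ _ fun c hc => by
      obtain ⟨k, hk⟩ := isConj_iff.1 hc
      simp [hg k c hk]
  have pr : ∀ ψ : Q →* ℂˣ, ψ ≠ 1 → ∃ χ₁ χ₂, Pr (Th (ψ.comp π)) χ₁ χ₂ := fun ψ hψ => by
    obtain ⟨x, hx⟩ := DFunLike.ne_iff.1 hψ
    obtain ⟨c, rfl⟩ := hπ x
    obtain ⟨χ₁, χ₂, h1, h2, h4, h5, -⟩ := pair_of_inverting S (ψ.comp π) ⟨c, fun e => hx (by
      have := c3 ψ (π c)
      rwa [pow_three, show ψ (π c) * ψ (π c) = 1 from eq_inv_iff_mul_eq_one.1 e, mul_one] at this)⟩ hτ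
      (fun c => let ⟨c', h1, h2⟩ := hn c; ⟨c', h1, by simp [h2]⟩)
      fun c z hc _ g hg => hTI c (s1 ψ c hc) g (hg ▸ z.2)
    exact ⟨χ₁, χ₂, h1, h2, h4, h5⟩
  have α1 : α ≠ 1 := fun e => αq (by simp [e])
  obtain ⟨a₁, a₂, ha⟩ := pr α α1
  have key : ∀ ψ : Q →* ℂˣ, ψ p ≠ 1 → ∃ χ₁ χ₂, Pr (Th (ψ.comp π)) χ₁ χ₂ ∧ χ₂ e = a₂ e ∧ χ₂ 1 = a₂ 1 :=
    fun ψ hψ => by
      have h1 : ψ ≠ 1 := fun e => hψ (by simp [e])
      obtain ⟨χ₁, χ₂, h⟩ := pr ψ h1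
      have n1 : α.comp π ≠ 1 := fun e => α1 (inj _ _ e)
      have n2 : ψ.comp π ≠ 1 := fun e => h1 (inj _ _ e)
      refine ⟨χ₁, χ₂, h, ha.share h (th_one _ n1) (th_one _ n2) (th_inner _ _ n1 n2
        (fun e => hψ (inj _ _ e ▸ αp)) (fun e => hψ ?_) fun c hc => ?_) (zer _ _ he) (zer _ _ he)⟩
      · rw [← inv_eq_one, ← MonoidHom.inv_apply, ← inj α ψ⁻¹ e, αp]
      · rw [val ψ c (s1 α c hc), ← inv_aux (c3 ψ _)]
        rfl
  obtain ⟨b₁, b₂, hb, b3, b4⟩ := key β βp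
  obtain ⟨c₁, c₂, hc, c4, c5⟩ := key (α * β) (by simpa [αp] using βp)
  obtain ⟨d₁, d₂, hd, d3, d4⟩ := key (α * β⁻¹) (by simpa [αp] using βp)
  have e1 := ha.sum (zer _ _ he)
  have e2 := hb.sum (zer _ _ he)
  have e3 := hc.sum (zer _ _ he)
  have e4 := hd.sum (zer _ _ he)
  rw [b3, b4] at e2
  rw [c4, c5] at e3
  rw [d3, d4] at e4
  have e5 : ∑ k : Y, ∑ g : Y, (2 * Th (α.comp π) (g * e * g⁻¹ * (k * e * k⁻¹)) -
      Th (β.comp π) (g * e * g⁻¹ * (k * e * k⁻¹)) - Th ((α * β).comp π) (g * e * g⁻¹ * (k * e * k⁻¹)) -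
      Th ((α * β⁻¹).comp π) (g * e * g⁻¹ * (k * e * k⁻¹))) = 0 :=
    Finset.sum_eq_zero fun k _ => Finset.sum_eq_zero fun g _ => by
      by_cases h : ∀ m (c : S), m * (g * e * g⁻¹ * (k * e * k⁻¹)) * m⁻¹ = c → π c = 1
      · simp only [zer _ _ h]; ring
      push Not at h
      obtain ⟨m, c, h1, h2⟩ := h
      have cl : ∀ ψ : S →* ℂˣ, Th ψ (g * e * g⁻¹ * (k * e * k⁻¹)) = Th ψ c := fun ψ => by
        rw [← h1, Th, (isGenChar_indFun S (gen_sub ψ)).isClassFunction.apply_conj]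
      have h4 := cube_aux (fun e => h2 (hee (m * g) (m * k) c (by rw [← h1]; group) (kα _ e))) (c3 α (π c))
      have h5 : (β (π c) : ℂ) ^ 3 = 1 := by rw [← Units.val_pow_eq_pow_val, c3, Units.val_one]
      simp only [cl, val _ c h2, MonoidHom.mul_apply, MonoidHom.inv_apply, Units.val_mul,
        Units.val_inv_eq_inv_val, inv_aux (c3 β _)]
      linear_combination (2 - β (π c) - (β (π c) : ℂ) ^ 2) * h4 - (α (π c) : ℂ) ^ 2 * β (π c) * h5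
  simp only [Finset.sum_sub_distrib, ← Finset.mul_sum] at e5
  have e6 : a₂ e = a₂ 1 := sub_eq_zero.1 (pow_eq_zero_iff two_ne_zero |>.1 (mul_left_cancel₀
    (mul_ne_zero (H33.natCard_ne_zero Y) (H33.natCard_ne_zero Y))
    (by linear_combination (a₂ 1 * (a₂ 1 + 1)) * e5 - 2 * e1 + e2 + e3 + e4)))
  have hin : ∀ {θ χ₁ χ₂ : Y → ℂ}, Pr θ χ₁ χ₂ → θ e = 0 → χ₂ e = χ₂ 1 → e ∈ charKer χ₁ ⊓ charKer χ₂ :=
    fun h h1 h2 => ⟨h.i1.mem_charKer.2 (by linear_combination h1 + h2 - h.eq e - h.one),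
      h.i2.mem_charKer.2 h2⟩
  have out : ∀ {ψ : Q →* ℂˣ} {χ₁ χ₂ : Y → ℂ}, Pr (Th (ψ.comp π)) χ₁ χ₂ → ∀ c : S, π c ≠ 1 →
      (c : Y) ∈ charKer χ₁ ⊓ charKer χ₂ → ψ (π c) = 1 := fun {ψ _ _} h c hc hk => by
    by_contra h1
    have := h.eq c
    rw [val ψ c hc, apply_of_mem_charKer hk.1, apply_of_mem_charKer hk.2, h.one] at this
    exact three_ne_zero (α := ℂ) (by linear_combination cube_aux h1 (c3 ψ _) - this)
  have := ha.i1.charKer_normal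
  have := ha.i2.charKer_normal
  have := hb.i1.charKer_normal
  have := hb.i2.charKer_normal
  refine ⟨(charKer a₁ ⊓ charKer a₂) ⊓ (charKer b₁ ⊓ charKer b₂), inferInstance,
    ⟨hin ha (zer _ _ he) e6, hin hb (zer _ _ he) (b3.trans (e6.trans b4.symm))⟩, fun c hc => ?_⟩
  by_contra h1
  obtain ⟨i, hi⟩ := kα _ (out ha c h1 hc.1)
  have h2 := out hb c h1 hc.2
  have h4 : orderOf (β p) = orderOf p := (orderOf_eq_prime (c3 β p) βp).trans (orderOf_eq_prime (h3 p) hp).symm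
  rw [← hi] at h1 h2
  rw [map_zpow, ← orderOf_dvd_iff_zpow_eq_one, h4, orderOf_dvd_iff_zpow_eq_one] at h2
  exact h1 h2

end H72.K9
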