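/- Job K9 of `blueprints/LOCAL3C.md`. -/
import Cfsg.Agent.H72.K9A
import Cfsg.Agent.H47.L43Sp
import Cfsg.Agent.H98.YMin
import Cfsg.Agent.H98.Coprime

set_option autoImplicit false
open Cfsg H56.L3 Subgroup H98 H47.L43
open scoped commutatorElement

namespace H72.K9

universe u

variable {G : Type u} [Group G] {x y g k : G}

theorem r333 (hx : x ^ 3 = 1) (hy : y ^ 3 = 1) (h : (x * y) ^ 3 = 1) :
    Commute (x * y⁻¹) (y⁻¹ * x) ∧ x * (x * y⁻¹) * x⁻¹ = (x * y⁻¹ * (y⁻¹ * x))⁻¹ := by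
  have e1 : x * x = x⁻¹ := eq_inv_of_mul_eq_one_left (by rw [← pow_three', hx])
  have e2 : y⁻¹ * y⁻¹ = y := by rw [← mul_inv_rev, inv_eq_of_mul_eq_one_left (by rw [← pow_three, hy])]
  have e3 : x * y⁻¹ * (y⁻¹ * x) = x * y * x := by rw [mul_assoc, ← mul_assoc y⁻¹, e2, mul_assoc]
  refine ⟨?_, by rw [e3, ← mul_assoc, e1]; group⟩
  rw [Commute, SemiconjBy, e3, mul_assoc y⁻¹, ← mul_assoc x x, e1]
  calc _ = y⁻¹ * x⁻¹ * y⁻¹ * ((y * x) ^ 3) := by rw [pow_three]; group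
    _ = _ := by rw [show y * x = y * (x * y) * y⁻¹ by group, conj_pow, h]; group

theorem c333 {Y : Subgroup G} (mx : x ∈ Y) (my : y ∈ Y) (hx : x ^ 3 = 1) (hy : y ^ 3 = 1)
    (h : (x * y) ^ 3 = 1) (r : ℤ) : ∃ c ∈ Y, c * x * c⁻¹ = (y⁻¹ * x) ^ (3 * r) * x := by
  obtain ⟨h1, h2⟩ := r333 hx hy h
  have h3 : x * (y⁻¹ * x) * x⁻¹ = x * y⁻¹ := by group
  have ma := mul_mem mx (inv_mem my)
  have mb := mul_mem (inv_mem my) mx
  generalize x * y⁻¹ = a at *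
  generalize y⁻¹ * x = b at *
  have h4 : x * (a * (b * b)) * x⁻¹ = a * b⁻¹ := by
    rw [← conj_mul, ← conj_mul, h2, h3, mul_inv_rev, mul_assoc, inv_mul_cancel_left, h1.inv_right.eq]
  have h5 : Commute (a * (b * b)) (a * b⁻¹) :=
    ((Commute.refl a).mul_right h1.inv_right).mul_left
      ((h1.symm.mul_right (Commute.refl b).inv_right).mul_left (h1.symm.mul_right (Commute.refl b).inv_right))
  refine ⟨(a * (b * b)) ^ r, zpow_mem (mul_mem ma (mul_mem mb mb)) r, ?_⟩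
  calc _ = (a * (b * b)) ^ r * (x * (a * (b * b)) ^ r * x⁻¹)⁻¹ * x := by group
    _ = _ := by
      rw [← conj_zpow, h4, ← inv_zpow, ← h5.inv_right.mul_zpow, zpow_mul, mul_inv_rev,
        inv_inv, ← h1.inv_left.eq, (h1.mul_right h1).eq, mul_assoc (b * b), mul_inv_cancel_left]
      congr 2
      rw [show (3 : ℤ) = (3 : ℕ) from rfl, zpow_natCast, pow_three']

theorem exists_part [Finite G] (b : G) : ∃ (r : ℤ) (k : ℕ), (b ^ (3 * r + 1)) ^ 3 ^ k = 1 := by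
  obtain ⟨k, m, hm, e⟩ := Nat.exists_eq_pow_mul_and_not_dvd (orderOf_pos b).ne' 3 (by norm_num)
  obtain ⟨r, hr⟩ : ∃ r : ℕ, m * m = 3 * r + 1 := ⟨m * m / 3, by
    have : m % 3 = 1 ∨ m % 3 = 2 := by omega
    have h2 : m * m % 3 = 1 := by rcases this with h | h <;> simp [Nat.mul_mod, h]
    omega⟩
  refine ⟨r, k, ?_⟩
  rw [show (3 * (r : ℤ) + 1) = (m * m : ℕ) by rw [hr]; push_cast; rfl, zpow_natCast, ← pow_mul,
    ← orderOf_dvd_iff_pow_eq_one, e]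
  exact ⟨m, by ring⟩

/-- the `(3,3,3)` trick -/
theorem t333 [Finite G] {Y : Subgroup G} (mx : x ∈ Y) (my : y ∈ Y) (hx : x ^ 3 = 1) (hy : y ^ 3 = 1)
    (h : (x * y) ^ 3 = 1) : ∃ P ≤ Y, IsPGroup 3 P ∧ ∃ c ∈ Y, ∃ c' ∈ Y, c * x * c⁻¹ ∈ P ∧
      c' * y * c'⁻¹ ∈ P ∧ c * x * c⁻¹ * (c' * y * c'⁻¹) = x * y := by
  have : Fact (Nat.Prime 3) := ⟨Nat.prime_three⟩
  obtain ⟨h1, h2⟩ := r333 hx hy h
  obtain ⟨r, k, hk⟩ := exists_part (y⁻¹ * x)
  obtain ⟨c, hc, e⟩ := c333 mx my hx hy h (-r)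
  obtain ⟨c', hc', e'⟩ := c333 (inv_mem my) (inv_mem mx) (by rw [inv_pow, hy, inv_one])
    (by rw [inv_pow, hx, inv_one]) (by rw [← mul_inv_rev, inv_pow, h, inv_one]) (-r)
  have e1 : x = (y⁻¹ * x)⁻¹ * (x * y)⁻¹ := by
    calc x = x⁻¹ * (x ^ 3) * x⁻¹ := by rw [pow_three]; group
      _ = _ := by rw [hx]; group
  have h3 : x * y * (y⁻¹ * x) * (x * y)⁻¹ = (x * y⁻¹ * (y⁻¹ * x))⁻¹ := by rw [← h2]; group
  have h4 : x * y * (x * y⁻¹) * (x * y)⁻¹ = y⁻¹ * x := by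
    calc _ = x * (x * y⁻¹)⁻¹ * (x * (x * y⁻¹) * x⁻¹) * (x * y⁻¹) * x⁻¹ := by group
      _ = (x * (x * y⁻¹) * x⁻¹)⁻¹ * (x * y⁻¹)⁻¹ := by nth_rw 1 [h2]; group
      _ = _ := by rw [h2, inv_inv, h1.eq, mul_inv_cancel_right]
  rw [inv_inv, ← conj_inv, inv_eq_iff_eq_inv, mul_inv_rev, inv_inv, ← zpow_neg, mul_neg, neg_neg] at e'
  have ma := mul_mem mx (inv_mem my)
  have mb := mul_mem (inv_mem my) mx
  have mh := mul_mem mx my
  have e2 : c * x * c⁻¹ * (c' * y * c'⁻¹) = x * y := by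
    calc _ = (y⁻¹ * x) ^ (3 * -r) * (x * y * (x * y⁻¹) ^ (3 * r) * (x * y)⁻¹) * (x * y) := by
          rw [e, e']; simp only [mul_assoc, inv_mul_cancel, mul_one]
      _ = _ := by rw [← conj_zpow, h4, ← zpow_add, mul_neg, neg_add_cancel, zpow_zero, one_mul]
  have e3 : c * x * c⁻¹ = ((y⁻¹ * x) ^ (3 * r + 1))⁻¹ * (x * y)⁻¹ := by
    calc _ = (y⁻¹ * x) ^ (3 * -r) * ((y⁻¹ * x)⁻¹ * (x * y)⁻¹) := by rw [← e1, e]
      _ = _ := by generalize y⁻¹ * x = b; group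
  generalize x * y⁻¹ = a at *
  generalize y⁻¹ * x = b at *
  generalize x * y = w at *
  have h5 : w * a ^ (3 * r + 1) * w⁻¹ = b ^ (3 * r + 1) := by rw [← conj_zpow, h4]
  have h6 : w * b ^ (3 * r + 1) * w⁻¹ = (a ^ (3 * r + 1) * b ^ (3 * r + 1))⁻¹ := by
    rw [← conj_zpow, h3, inv_zpow, h1.mul_zpow]
  have h7 := h1.zpow_zpow (3 * r + 1) (3 * r + 1)
  have ma' := zpow_mem ma (3 * r + 1)
  have mb' := zpow_mem mb (3 * r + 1)
  generalize a ^ (3 * r + 1) = α at *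
  generalize b ^ (3 * r + 1) = β at *
  have hA : IsPGroup 3 (zpowers α ⊔ zpowers β : Subgroup G) :=
    (isPGroup_zpowers (k := k) (by rwa [← h5, conj_pow, conj_eq_one_iff] at hk)).to_sup_of_normal_right'
      (isPGroup_zpowers hk) (zpowers_le.2 (mem_normalizer_of_cj_le (by
        rw [cj_zpowers, h7.eq, mul_inv_cancel_right])))
  have m1 : α ∈ zpowers α ⊔ zpowers β := mem_sup_left (mem_zpowers _)
  have m2 : β ∈ zpowers α ⊔ zpowers β := mem_sup_right (mem_zpowers _)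
  have m3 : c * x * c⁻¹ ∈ zpowers α ⊔ zpowers β ⊔ zpowers w :=
    e3 ▸ mul_mem_sup (inv_mem m2) (inv_mem (mem_zpowers _))
  refine ⟨zpowers α ⊔ zpowers β ⊔ zpowers w, sup_le (sup_le (zpowers_le.2 ma') (zpowers_le.2 mb'))
    (zpowers_le.2 mh), hA.to_sup_of_normal_left' (isPGroup_zpowers (k := 1) h)
      (zpowers_le.2 (mem_normalizer_of_cj_le ?_)), c, hc, c', hc', m3,
    (mul_mem_cancel_left m3).1 (e2 ▸ mem_sup_right (mem_zpowers _)), e2⟩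
  rw [cj_sup, cj_zpowers, cj_zpowers, h5, h6]
  exact sup_le le_sup_right (zpowers_le.2 (inv_mem (mul_mem m1 m2)))

theorem burnside [Finite G] {p : ℕ} [Fact p.Prime] {Q K : Subgroup G} (h : IsSyl p Q K)
    (hc : K ⊓ Nr Q ≤ Cn Q) : ¬ p ∣ Nat.card (res p K) := by
  obtain ⟨P, rfl⟩ := h.exists_sylow_map
  have hP : normalizer ((P : Subgroup K) : Set K) ≤ centralizer ((P : Subgroup K) : Set K) :=
    fun x hx y hy => Subtype.ext
      (hc ⟨x.2, le_normalizer_map K.subtype ⟨x, hx, rfl⟩⟩ y ⟨y, hy, rfl⟩)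
  have h1 : res p K ≤ (MonoidHom.transferSylow P hP).ker.map K.subtype :=
    res_le_of_forall_pow fun x hx => by
      obtain ⟨k, hk⟩ := P.isPGroup' (MonoidHom.transferSylow P hP ⟨x, hx⟩)
      exact ⟨k, ⟨x, hx⟩ ^ p ^ k, MonoidHom.mem_ker.2 (by rw [map_pow, hk]), rfl⟩
  refine not_dvd_card_of_le h1 ?_
  rw [card_map_of_injective K.subtype_injective]
  exact MonoidHom.not_dvd_card_ker_transferSylow P hP

variable {H S E : Subgroup G} {d τ p e : G} (h : K9 H S E d τ p e)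
include h

theorem dec' (hk : k ∈ Ce d) (hH : k ∈ H) : k ∈ S ∨ k * τ⁻¹ ∈ S := h.dec k ⟨hH, hk⟩

theorem norS (hk : k ∈ Ce d) (hH : k ∈ H) : k ∈ Nr S ∧ k ∈ Nr E := by
  rcases dec' h hk hH with e | e
  · exact ⟨le_normalizer e, h.nE e⟩
  · exact ⟨by simpa using mul_mem (le_normalizer e) h.τS, by simpa using mul_mem (h.nE e) h.τE⟩

theorem tri (hk : k ∈ Ce d) (hH : k ∈ H) {n : ℕ} (h3 : k ^ 3 ^ n = 1) : k ∈ S := by
  have h1 : τ * τ ∈ S := (h.dec _ (mul_mem h.τH h.τH)).elim id fun e => by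
    rw [mul_inv_cancel_right] at e
    exact mul_mem e e
  have h2 : k * k ∈ S := (dec' h hk hH).elim (fun e => mul_mem e e) fun e => by
    simpa [mul_assoc] using mul_mem (mul_mem e (conj_mem_of_mem_normalizer h.τS e)) h1
  obtain ⟨m, hm⟩ : Odd (3 ^ n) := Odd.pow (by decide)
  have := inv_mem (pow_mem h2 m)
  rwa [← sq, ← pow_mul, inv_eq_of_mul_eq_one_right (by rw [← pow_succ, ← hm, h3])] at this

omit h in
theorem cenZ (hk : k ∈ Ce d) (hx : x ∈ zpowers d) : k * x * k⁻¹ = x := by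
  obtain ⟨i, rfl⟩ := hx
  rw [← conj_zpow, mem_centralizer_singleton_iff.1 hk, mul_inv_cancel_right]

theorem loc' (hg : g ∈ S) (h1 : g ∉ zpowers d) (hk : k ∈ Ce d) (h2 : k * g * k⁻¹ * g⁻¹ ∈ zpowers d) :
    k ∈ H := by
  obtain ⟨n, hn⟩ := isPGroup_iff_forall.1 h.pS g hg
  induction n generalizing g with
  | zero => exact absurd (by rw [show g = 1 by simpa using hn]; exact one_mem _) h1
  | succ n ih =>
    by_cases h3 : g ^ 3 ∈ zpowers d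
    · exact h.loc g hg h1 h3 k hk h2
    refine ih (pow_mem hg 3) h3 ?_ (by rw [← pow_mul, ← pow_succ', hn])
    have h4 : Commute (k * g * k⁻¹ * g⁻¹) g := (mul_inv_eq_iff_eq_mul.1 (cenZ (h.SH hg).2 h2)).symm
    rw [← conj_pow, ← inv_mul_cancel_right (k * g * k⁻¹) g, h4.mul_pow, mul_inv_cancel_right]
    exact pow_mem h2 3

variable [Finite G]

theorem se (hg : g ∈ S) (h1 : g ∉ zpowers d) (hk : k ∈ Ce d) (h2 : k * g * k⁻¹ ∈ S) : k ∈ H := by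
  have : Fact (Nat.Prime 3) := ⟨Nat.prime_three⟩
  obtain ⟨z, hz, z1, z2⟩ := exists_fix_mod (Z := zpowers d) h.pS h.pS le_normalizer fun e => h1 (e hg)
  have key : ∀ a ∈ S, ∀ b, b ∉ zpowers d → k * b * k⁻¹ ∈ S → ⁅a, b⁆ ∈ zpowers d → k * a * k⁻¹ ∈ S :=
    fun a ha b hb h3 h4 => by
      have h5 : k * a * k⁻¹ ∈ Ce d := mul_mem (mul_mem hk (h.SH ha).2) (inv_mem hk)
      obtain ⟨n, hn⟩ := isPGroup_iff_forall.1 h.pS a ha
      refine tri h h5 (loc' h h3 (fun e => hb ?_) h5 ?_) (n := n) (by rw [conj_pow, hn]; group)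
      · have := cenZ (inv_mem hk) e
        rwa [← this, show k⁻¹ * (k * b * k⁻¹) * k⁻¹⁻¹ = b by group] at e
      · rwa [← cenZ hk h4, commutatorElement_def, ← conj_mul, ← conj_mul, ← conj_mul, ← conj_inv,
          ← conj_inv] at h4
  have h3 := key z hz g h1 h2 (z2 g hg)
  refine h.nS ⟨hk, mem_normalizer_of_cj_le ?_⟩
  rintro _ ⟨s, hs, rfl⟩
  exact key s hs z z1 h3 (by simpa using inv_mem (z2 s hs))

theorem syl : IsSyl 3 S (Ce d) :=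
  have : Fact (Nat.Prime 3) := ⟨Nat.prime_three⟩
  isSyl_of_isSyl_normalizer ⟨le_inf (h.SH.trans inf_le_right) le_normalizer, h.pS, fun R hR h1 h2 =>
    le_antisymm (fun g hg => let ⟨_, hn⟩ := isPGroup_iff_forall.1 hR g hg
      tri h (h2 hg).1 (h.nS (h2 hg)) hn) h1⟩

theorem notZ (hg : g ∉ E) : g ∉ zpowers d := fun e => hg (zpowers_le.2 h.dE e)

theorem eE (hk : k ∈ Ce d) (h2 : k * e * k⁻¹ ∈ S) : k * e * k⁻¹ ∈ E :=
  conj_mem_of_mem_normalizer (norS h hk (se h (h.ES h.em) h.en hk h2)).2 h.em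

theorem ee (hk : k ∈ Ce d) (hg : g ∈ Ce d) (h1 : k * e * k⁻¹ * (g * e * g⁻¹) ∈ S)
    (h3 : (k * e * k⁻¹ * (g * e * g⁻¹)) ^ 3 = 1) : k * e * k⁻¹ * (g * e * g⁻¹) ∈ E := by
  have : Fact (Nat.Prime 3) := ⟨Nat.prime_three⟩
  by_contra h2
  have he := (h.SH (h.ES h.em)).2
  obtain ⟨P, hP, h4, c, hc, c', hc', m1, m2, e1⟩ := t333 (mul_mem (mul_mem hk he) (inv_mem hk))
    (mul_mem (mul_mem hg he) (inv_mem hg)) (by rw [conj_pow, h.e3]; group) (by rw [conj_pow, h.e3]; group) h3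
  obtain ⟨m, hm, h5⟩ := (syl h).exists_le_cj h4 hP
  have h6 := mem_cj.1 (h5 (e1 ▸ mul_mem m1 m2))
  have h7 := norS h (inv_mem hm) (se h h1 (notZ h h2) (inv_mem hm) (by rwa [inv_inv]))
  rw [cj_eq_self (inv_mem_iff.1 h7.1)] at h5
  have key : ∀ c ∈ Ce d, ∀ k ∈ Ce d, c * (k * e * k⁻¹) * c⁻¹ ∈ P → c * (k * e * k⁻¹) * c⁻¹ ∈ E :=
    fun c hc k hk m => by
      rw [show c * (k * e * k⁻¹) * c⁻¹ = c * k * e * (c * k)⁻¹ by group] at m ⊢
      exact eE h (mul_mem hc hk) (h5 m)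
  exact h2 (e1 ▸ mul_mem (key c hc k hk m1) (key c' hc' g hg m2))

omit h in
theorem jobK9 : JobK9.{u} := fun G _ _ H S E d τ p e h => by
  classical
  have : Fact (Nat.Prime 3) := ⟨Nat.prime_three⟩
  have := Fintype.ofFinite (Ce d)
  have SY : S ≤ Ce d := h.SH.trans inf_le_right
  have := normal_subgroupOf_of_le_normalizer h.nE
  have h9 : Nat.card (S ⧸ E.subgroupOf S) = 9 := h.idx
  let _ : CommGroup (S ⧸ E.subgroupOf S) := { (inferInstance : Group _) with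
    mul_comm := (IsPGroup.isMulCommutative_of_card_eq_prime_sq (p := 3) h9).is_comm.comm }
  let π : S →* S ⧸ E.subgroupOf S := QuotientGroup.mk' _
  have hπ : ∀ c : S, π c = 1 ↔ (c : G) ∈ E := fun c => QuotientGroup.eq_one_iff c
  have h3 : ∀ x : S ⧸ E.subgroupOf S, x ^ 3 = 1 := fun x => by
    obtain ⟨c, rfl⟩ := QuotientGroup.mk_surjective x
    exact (hπ (c ^ 3)).2 (h.cube c c.2)
  have hp : π ⟨p, h.pm⟩ ≠ 1 := mt (hπ _).1 h.pn
  have hp2 : π ⟨p, h.pm⟩ * π ⟨p, h.pm⟩ ≠ 1 := fun e => hp (by rw [← h3 (π _), pow_three, e, mul_one])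
  have hi : ∀ c : S, π ⟨_, conj_mem_of_mem_normalizer h.τS c.2⟩ = (π c)⁻¹ := fun c =>
    eq_inv_of_mul_eq_one_left ((hπ (_ * c)).2 (h.inv c c.2))
  have hτ : τ ∉ S := fun e => hp2 (by
    have := hi ⟨p, h.pm⟩
    rw [show (⟨_, conj_mem_of_mem_normalizer h.τS h.pm⟩ : S) = ⟨τ, e⟩ * ⟨p, h.pm⟩ * ⟨τ, e⟩⁻¹ from rfl,
      map_mul, map_mul, map_inv, mul_inv_cancel_comm] at this
    exact eq_inv_iff_mul_eq_one.1 this)
  obtain ⟨N, hN, eN, hB⟩ := k9char (Y := Ce d) (S := S.subgroupOf (Ce d)) (τ := ⟨τ, h.τH.2⟩)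
    (e := ⟨e, SY (h.ES h.em)⟩) h9 h3 (π.comp (subgroupOfEquivOfLe SY).toMonoidHom)
    ((QuotientGroup.mk'_surjective _).comp (subgroupOfEquivOfLe SY).surjective) hp hτ
    (fun c => ⟨⟨_, show _ ∈ S from conj_mem_of_mem_normalizer h.τS c.2⟩, rfl, hi ⟨c, c.2⟩⟩)
    (fun c hc g hg => dec' h (k := g.1) g.2 (se h (g := c.1.1) (k := g.1) c.2 (notZ h (mt (hπ ⟨c, c.2⟩).2 hc)) g.2 hg))
    (fun g c hc => (hπ ⟨c, c.2⟩).2 (by
      have e1 : (g : G) * e * (g : G)⁻¹ = c := congrArg Subtype.val hc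
      exact e1 ▸ eE h g.2 (e1 ▸ c.2)))
    fun g g' c hc hz => (hπ ⟨c, c.2⟩).2 (by
      have e1 : (g : G) * e * (g : G)⁻¹ * ((g' : G) * e * (g' : G)⁻¹) = c := congrArg Subtype.val hc
      have key : ∀ s : S, π s = π ⟨p, h.pm⟩ → (s : G) ^ 3 = 1 := fun s hs => by
        have := h.ord _ ((hπ (⟨p, h.pm⟩⁻¹ * s)).1 (by rw [map_mul, map_inv, hs, inv_mul_cancel]))
        simpa using this
      obtain ⟨i, hi⟩ := (mem_zpowers_iff_mem_range_orderOf).1 hz |> Finset.mem_image.1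
      rw [orderOf_eq_prime (h3 _) hp, Finset.mem_range] at hi
      obtain ⟨h1, h2⟩ := hi
      interval_cases i
      · exact (hπ ⟨c, c.2⟩).1 (h2.symm.trans (pow_zero _))
      · exact e1 ▸ ee h g.2 g'.2 (e1 ▸ c.2) (e1 ▸ key ⟨c, c.2⟩ (h2.symm.trans (pow_one _)))
      · refine e1 ▸ ee h g.2 g'.2 (e1 ▸ c.2) (e1 ▸ ?_)
        have := key (⟨c, c.2⟩ : S)⁻¹ (by
          rw [map_inv, inv_eq_iff_mul_eq_one, ← h3 (π ⟨p, h.pm⟩), pow_succ, h2]; rfl)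
        simpa using this)
  have nN : Ce d ≤ Nr (N.map (Ce d).subtype) := fun k hk =>
    le_normalizer_map (Ce d).subtype ⟨⟨k, hk⟩, by rw [normalizer_eq_top]; trivial, rfl⟩
  have hT : S ⊓ N.map (Ce d).subtype ≤ E := by
    rintro _ ⟨hs, c, hc, rfl⟩
    exact (hπ ⟨c, hs⟩).1 (hB ⟨c, hs⟩ hc)
  have eN' : e ∈ N.map (Ce d).subtype := ⟨_, eN, rfl⟩
  have NY : N.map (Ce d).subtype ≤ Ce d := map_subtype_le N
  generalize N.map (Ce d).subtype = K at *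
  have hS := (syl h).inf_of_le_normalizer NY (SY.trans nN)
  have h4 := burnside hS fun n hn => by
    rcases dec' h (NY hn.1) (se h (h.ES h.em) h.en (NY hn.1)
      (conj_mem_of_mem_normalizer hn.2 (mem_inf.2 ⟨h.ES h.em, eN'⟩)).1) with e1 | e1
    · exact fun a ha => h.comm a (hT ha) n (hT ⟨e1, hn.1⟩)
    · refine absurd ?_ (inv_ne_one.2 hp2)
      have h5 := conj_mem_of_mem_normalizer h.τS h.pm
      have := (hπ (⟨_, e1⟩ * ⟨_, h5⟩ * ⟨_, e1⟩⁻¹ * ⟨p, h.pm⟩⁻¹)).2 (hT ⟨Subtype.prop _, by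
        simpa [mul_assoc] using mul_mem hn.1 (conj_mem_of_mem_normalizer (nN (SY h.pm)) (inv_mem hn.1))⟩)
      rwa [map_mul, map_mul, map_mul, map_inv, mul_inv_cancel_comm, hi ⟨p, h.pm⟩, map_inv, ← mul_inv] at this
  have h5 := hS.sup_res
  rw [h.sig _ ((Nat.prime_three.coprime_iff_not_dvd.2 h4).symm) fun j hj k hk => conj_mem_of_mem_normalizer
    (normalizer_le_normalizer_res K (nN (SY hj))) hk, sup_bot_eq] at h5
  exact fun k hk => se h (h.ES h.em) h.en hk (h5.ge (conj_mem_of_mem_normalizer (nN hk) eN')).1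

end H72.K9
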