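/- PN tower (S3399), item EZ. -/
import Cfsg.Agent.H42.PnSpec

set_option autoImplicit false
set_option linter.unusedSectionVars false

namespace H72.PnEz
open Equiv MulAction Pointwise H2.Ln H42.PN

section
variable {α : Type} [Fintype α] [DecidableEq α]

theorem card_orb_dvd (L : Subgroup (Perm α)) (a : α) : (orb L a).card ∣ Nat.card L := by
  have h : (orb L a : Set α) = MulAction.orbit L a := by
    ext b
    simp only [Finset.mem_coe, mem_orb, MulAction.mem_orbit_iff]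
    exact ⟨fun ⟨x, hx, e⟩ => ⟨⟨x, hx⟩, e⟩, fun ⟨x, e⟩ => ⟨x.1, x.2, e⟩⟩
  rw [← Set.ncard_coe_finset, h, ← MulAction.index_stabilizer]
  exact Subgroup.index_dvd_card _

theorem sw_mem {G : Subgroup (Perm α)} {U : Finset α} {g : Perm α} (hg : g ∈ sw G U) (a : α) :
    g a ∈ U ↔ a ∈ U := sm_eq_iff'.1 (mem_sw.1 hg).2 a

theorem cjK {G K : Subgroup (Perm α)} (h : Cx G K) {g k : Perm α} (hg : g ∈ sw G (fp K))
    (hk : k ∈ K) : g * k * g⁻¹ ∈ K := by
  refine h.full (mem_fx.2 ⟨G.mul_mem (G.mul_mem hg.1 (h.le hk)) (G.inv_mem hg.1), fun a ha => ?_⟩)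
  have h1 : g⁻¹ a ∈ fp K := (sw_mem ((sw G (fp K)).inv_mem hg) a).2 ha
  rw [Perm.mul_apply, Perm.mul_apply, mem_fp.1 h1 k hk]
  simp

theorem cjR {G K R : Subgroup (Perm α)} (h : C5 G K R) {g k : Perm α} (hg : g ∈ sw G (fp K))
    (hk : k ∈ R) : g * k * g⁻¹ ∈ R := by
  obtain ⟨h1, h2⟩ := (h.memR k).1 hk
  refine (h.memR _).2 ⟨cjK h.toCx hg h1, h2.imp (fun e => by simp [e]) fun h3 s hs e => ?_⟩
  refine h3 (g⁻¹ s) (fun h4 => hs ((sw_mem ((sw G (fp K)).inv_mem hg) s).1 h4)) ?_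
  rw [Perm.eq_inv_iff_eq]
  simpa using e

/-- The elements of `N` that centralise `R` and keep its orbits outside `F`. -/
def EE (G K R : Subgroup (Perm α)) : Subgroup (Perm α) where
  carrier := {y | y ∈ sw G (fp K) ∧ (∀ k ∈ R, y * k = k * y) ∧ ∀ s ∉ fp K, y s ∈ orb R s}
  one_mem' := ⟨Subgroup.one_mem _, fun _ _ => by simp, fun _ _ => self_mem_orb⟩
  mul_mem' := by
    rintro y z ⟨h1, h2, h3⟩ ⟨h4, h5, h6⟩
    refine ⟨Subgroup.mul_mem _ h1 h4, fun k hk => ?_, fun s hs => ?_⟩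
    · rw [mul_assoc, h5 k hk, ← mul_assoc, h2 k hk, mul_assoc]
    · obtain ⟨w, hw, e⟩ := mem_orb.1 (h6 s hs)
      rw [Perm.mul_apply, ← e, ← Perm.mul_apply, h2 w hw, Perm.mul_apply]
      exact orb_inv w hw _ (h3 s hs)
  inv_mem' := by
    rintro y ⟨h1, h2, h3⟩
    refine ⟨Subgroup.inv_mem _ h1, fun k hk => ?_, fun s hs => ?_⟩
    · exact (show Commute y k from h2 k hk).inv_left
    · obtain ⟨w, hw, e⟩ := mem_orb.1
        (h3 (y⁻¹ s) fun h4 => hs ((sw_mem (Subgroup.inv_mem _ h1) s).1 h4))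
      refine mem_orb.2 ⟨w⁻¹, R.inv_mem hw, ?_⟩
      rw [Perm.inv_eq_iff_eq, e]
      simp

theorem EE_norm {G K R : Subgroup (Perm α)} (h : C5 G K R) :
    ∀ g ∈ sw G (fp K), ∀ x ∈ EE G K R, g * x * g⁻¹ ∈ EE G K R := by
  rintro g hg x ⟨h1, h2, h3⟩
  have hg' := (sw G (fp K)).inv_mem hg
  refine ⟨Subgroup.mul_mem _ (Subgroup.mul_mem _ hg h1) hg', fun k hk => ?_, fun s hs => ?_⟩
  · have := h2 _ (cjR h hg' hk)
    rw [inv_inv] at this
    calc g * x * g⁻¹ * k = g * (x * (g⁻¹ * k * g)) * g⁻¹ := by group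
      _ = k * (g * x * g⁻¹) := by rw [this]; group
  · obtain ⟨w, hw, e⟩ := mem_orb.1 (h3 (g⁻¹ s) fun h4 => hs ((sw_mem hg' s).1 h4))
    exact mem_orb.2 ⟨_, cjR h hg hw, by simp only [Perm.mul_apply, e]⟩

theorem EE_pow {G K R : Subgroup (Perm α)} (h : C5 G K R) {y : Perm α} (hy : y ∈ EE G K R) :
    y ^ Nat.card R = 1 := by
  obtain ⟨h1, h2, h3⟩ := hy
  refine h.fai _ (G.pow_mem h1.1 _) fun s hs => ?_
  obtain ⟨w, hw, e⟩ := mem_orb.1 (h3 s hs)
  have key : ∀ j : ℕ, (y ^ j) s = (w ^ j) s := by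
    intro j
    induction j with
    | zero => simp
    | succ j ih =>
      have c : Commute (y ^ j) w := (show Commute y w from h2 w hw).pow_left j
      rw [pow_succ, Perm.mul_apply, ← e, ← Perm.mul_apply, c.eq, Perm.mul_apply, ih,
        ← Perm.mul_apply, ← pow_succ']
  have : w ^ Nat.card R = 1 := congrArg Subtype.val (pow_card_eq_one' (x := (⟨w, hw⟩ : R)))
  rw [key, this]
  rfl

theorem dvd_f {G K R : Subgroup (Perm α)} (h : C5 G K R) {l : ℕ} (hl : l.Prime)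
    (hd : l ∣ Nat.card R) : l ∣ (fp K).card := by
  haveI := Fact.mk hl
  obtain ⟨w, hw⟩ := exists_prime_orderOf_dvd_card' l hd
  have ho : orderOf (w : Perm α) = l := by rw [Subgroup.orderOf_coe, hw]
  obtain ⟨h1, h2⟩ := (h.memR w).1 w.2
  have h3 : ∀ s ∉ fp K, (w : Perm α) s ≠ s := h2.resolve_left fun e => by
    rw [e, orderOf_one] at ho
    exact hl.one_lt.ne ho
  have hs : (w : Perm α).support = (fp K)ᶜ := by
    ext s
    rw [Perm.mem_support, Finset.mem_compl]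
    exact ⟨fun h4 h5 => h4 (mem_fp.1 h5 _ h1), h3 s⟩
  obtain ⟨n, hn⟩ := Perm.cycleType_prime_order (σ := (w : Perm α)) (ho ▸ hl)
  have h4 := Perm.sum_cycleType (w : Perm α)
  rw [hn, Multiset.sum_replicate, smul_eq_mul, ho, hs, Finset.card_compl, h.half] at h4
  exact ⟨n + 1, by rw [mul_comm]; omega⟩
end

theorem jobEz : NS → EzJ := by
  intro hNS α _ _ G K R h y hy hc ho
  by_contra hK
  have hyE : y ∈ EE G K R := ⟨hy, hc, ho⟩
  have hmv : ∃ a ∈ fp K, y a ≠ a := by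
    by_contra hn
    push Not at hn
    exact hK (h.full (mem_fx.2 ⟨hy.1, hn⟩))
  have six := h.six
  have t2 : T2 (EE G K R) (fp K) := hNS α (sw G (fp K)) (fp K) (EE G K R) (by omega)
    (fun x hx => hx.2) h.t4 (fun x hx => hx.1) (EE_norm h) ⟨y, hyE, hmv⟩
  obtain ⟨a, ha, -⟩ := hmv
  obtain ⟨b, hb, hba⟩ := ex_out (fp K) [a] (by simp; omega)
  have hba : b ≠ a := by simpa using hba
  have e : orb (fx (EE G K R) {a}) b = (fp K).erase a := by
    ext c
    rw [mem_orb, Finset.mem_erase]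
    constructor
    · rintro ⟨x, hx, rfl⟩
      obtain ⟨h1, h2⟩ := mem_fx.1 hx
      refine ⟨fun e => hba (x.injective (e.trans (h2 a (by simp)).symm)), (sw_mem h1.1 b).2 hb⟩
    · rintro ⟨h1, h2⟩
      obtain ⟨g, hg, e1, e2⟩ := t2 a ha b hb a ha c h2 hba.symm h1.symm
      exact ⟨g, mem_fx.2 ⟨hg, by simpa using e1⟩, e2⟩
  have hd : (fp K).card - 1 ∣ Nat.card (EE G K R) := by
    rw [← Finset.card_erase_of_mem ha, ← e]
    exact (card_orb_dvd _ _).trans (Subgroup.card_dvd_of_le inf_le_left)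
  obtain ⟨l, hl, hl1⟩ := Nat.exists_prime_and_dvd (show (fp K).card - 1 ≠ 1 by omega)
  haveI := Fact.mk hl
  obtain ⟨x, hx⟩ := exists_prime_orderOf_dvd_card' l (hl1.trans hd)
  have h1 : l ∣ Nat.card R := by
    rw [← hx, ← Subgroup.orderOf_coe]
    exact orderOf_dvd_of_pow_eq_one (EE_pow h x.2)
  have h2 := (Nat.dvd_sub (dvd_f h hl h1) hl1)
  rw [show (fp K).card - ((fp K).card - 1) = 1 by omega] at h2
  exact hl.one_lt.ne' (Nat.dvd_one.1 h2)

end H72.PnEz
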