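import Cfsg.Agent.H52.RCSpec
import Cfsg.Agent.H88.Plane4

/-! A real element of order three of `PSL₃(4)` whose centraliser has odd order. -/

set_option autoImplicit false

namespace H72.RcRO2

open Subgroup H52.RC Matrix

universe u

theorem roc_of_equiv {S T : Type*} [Group S] [Group T] (e : S ≃* T) {x g : T} (h1 : x ≠ 1)
    (h3 : x ^ 3 = 1) (hg : g * x * g⁻¹ = x⁻¹) [Finite S]
    (hc : ∀ t : T, t * x = x * t → t * t = 1 → t = 1) : ROC S := by
  refine ⟨e.symm x, by simpa using h1, ?_, ⟨e.symm g, ?_⟩, ?_⟩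
  · rw [MulEquiv.orderOf_eq]
    exact Odd.of_dvd_nat (by decide : Odd 3) (orderOf_dvd_of_pow_eq_one h3)
  · rw [H52.RC.Inv, ← map_inv, ← map_mul, ← map_mul, hg, map_inv]
  · rw [← Nat.not_even_iff_odd, even_iff_two_dvd]
    intro h2
    obtain ⟨t, ht⟩ := exists_prime_orderOf_dvd_card' 2 h2
    have c : Commute (t : S) (e.symm x) := mem_C1.1 t.2
    have t2 : (t : S) * t = 1 := by
      have := pow_orderOf_eq_one t
      rw [ht, sq] at this
      exact congrArg Subtype.val this
    have := hc (e t) (by simpa using congrArg e c.eq) (by rw [← map_mul, t2, map_one])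
    have t1 : t = 1 := Subtype.ext (e.injective (by rw [this]; simp))
    rw [t1, orderOf_one] at ht
    exact absurd ht (by decide)

variable {F : Type} [Field F]

/-- The cyclic permutation matrix. -/
def pm (F : Type) [Field F] : Matrix.SpecialLinearGroup (Fin 3) F :=
  ⟨!![0, 1, 0; 0, 0, 1; 1, 0, 0], by simp [det_fin_three]⟩

/-- The negative of a transposition matrix. -/
def tm (F : Type) [Field F] : Matrix.SpecialLinearGroup (Fin 3) F :=
  ⟨!![-1, 0, 0; 0, 0, -1; 0, -1, 0], by simp [det_fin_three]⟩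

theorem pm_val : (pm F).1 = !![0, 1, 0; 0, 0, 1; 1, 0, 0] := rfl

theorem tm_val : (tm F).1 = !![-1, 0, 0; 0, 0, -1; 0, -1, 0] := rfl

theorem pm_cube : pm F ^ 3 = 1 := by
  refine Subtype.ext ?_
  rw [pow_three, Matrix.SpecialLinearGroup.coe_mul, Matrix.SpecialLinearGroup.coe_mul, pm_val,
    Matrix.SpecialLinearGroup.coe_one, Matrix.one_fin_three]
  simp

theorem tm_pm : pm F * tm F * pm F = tm F := by
  refine Subtype.ext ?_
  rw [Matrix.SpecialLinearGroup.coe_mul, Matrix.SpecialLinearGroup.coe_mul, pm_val, tm_val]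
  simp

theorem cen (h2 : (2 : F) = 0) (T : Matrix.SpecialLinearGroup (Fin 3) F)
    (h1 : (T * pm F)⁻¹ * (pm F * T) ∈ center (Matrix.SpecialLinearGroup (Fin 3) F))
    (h3 : T * T ∈ center (Matrix.SpecialLinearGroup (Fin 3) F)) :
    T ∈ center (Matrix.SpecialLinearGroup (Fin 3) F) := by
  set z := (T * pm F)⁻¹ * (pm F * T) with hz
  have e1 : pm F * T = T * pm F * z := by rw [hz, mul_inv_cancel_left]
  have c1 := mem_center_iff.1 h1
  have c3 := mem_center_iff.1 h3
  have e2 : z * z = 1 := by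
    have : T * T * pm F * (z * z) = T * T * pm F * 1 := by
      calc T * T * pm F * (z * z) = T * (T * pm F * z) * z := by simp only [mul_assoc]
        _ = T * pm F * (T * z) := by rw [← e1]; simp only [mul_assoc]
        _ = T * pm F * z * T := by rw [c1 T]; simp only [mul_assoc]
        _ = pm F * (T * T) := by rw [← e1, mul_assoc]
        _ = T * T * pm F * 1 := by rw [c3, mul_one]
    exact mul_left_cancel this
  obtain ⟨r, -, hr⟩ := Matrix.SpecialLinearGroup.mem_center_iff.1 h1
  have r1 : r = 1 := by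
    have := congrFun (congrFun (congrArg Subtype.val e2) 0) 0
    rw [Matrix.SpecialLinearGroup.coe_mul, ← hr, ← map_mul] at this
    have rr : r * r = 1 := by simpa using this
    have : (r - 1) ^ 2 = 0 := by linear_combination rr + (1 - r) * h2
    exact sub_eq_zero.1 (pow_eq_zero_iff two_ne_zero |>.1 this)
  have z1 : z = 1 := Subtype.ext (by rw [← hr, r1]; simp)
  rw [z1, mul_one] at e1
  obtain ⟨s, -, hs⟩ := Matrix.SpecialLinearGroup.mem_center_iff.1 h3
  have e1' := congrArg Subtype.val e1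
  rw [Matrix.SpecialLinearGroup.coe_mul, Matrix.SpecialLinearGroup.coe_mul, pm_val] at e1'
  rw [Matrix.SpecialLinearGroup.coe_mul] at hs
  have a := fun i j => congrFun (congrFun e1' i) j
  have b := fun i j => congrFun (congrFun hs i) j
  have a00 := a 0 0
  have a01 := a 0 1
  have a02 := a 0 2
  have a10 := a 1 0
  have a11 := a 1 1
  have a12 := a 1 2
  have b01 := b 0 1
  have b02 := b 0 2
  simp [Matrix.mul_apply, Fin.sum_univ_three] at a00 a01 a02 a10 a11 a12 b01 b02
  have c0 : T.1 0 2 = 0 := by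
    have : T.1 0 2 ^ 2 = 0 := by
      rw [a01, a11, a00] at b01
      linear_combination -b01 - T.1 0 0 * T.1 0 1 * h2
    exact pow_eq_zero_iff two_ne_zero |>.1 this
  have b0 : T.1 0 1 = 0 := by
    have : T.1 0 1 ^ 2 = 0 := by
      rw [a02, a12, a01] at b02
      linear_combination -b02 - T.1 0 0 * T.1 0 2 * h2
    exact pow_eq_zero_iff two_ne_zero |>.1 this
  have hT : T.1 = scalar (Fin 3) (T.1 0 0) := by
    have d10 := a00.trans c0
    have d12 := a02.trans b0
    have d20 := a10.trans d12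
    have d21 := a11.trans d10
    have d22 := a12.trans a01
    ext i j
    fin_cases i <;> fin_cases j <;> simp [b0, c0, d10, d12, d20, d21, d22, a01]
  refine mem_center_iff.2 fun g => Subtype.ext ?_
  rw [Matrix.SpecialLinearGroup.coe_mul, Matrix.SpecialLinearGroup.coe_mul, hT]
  exact (scalar_commute _ (fun _ => Commute.all _ _) _).eq.symm

theorem jobRO2 : JobRO2.{u} := by
  rintro S _ ⟨F, _, _, hF, ⟨e⟩⟩
  have hc : Nat.card S = 20160 := by rw [Nat.card_congr e.toEquiv, H88.card_psl_three_four hF]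
  have : Finite S := Nat.finite_of_card_ne_zero (by rw [hc]; decide)
  have h2 : (2 : F) = 0 := by
    have h4 := FiniteField.cast_card_eq_zero F
    rw [hF] at h4
    have : (2 : F) ^ 2 = 0 := by rw [← h4]; norm_num
    exact pow_eq_zero_iff two_ne_zero |>.1 this
  refine ⟨roc_of_equiv e (x := QuotientGroup.mk (pm F)) (g := QuotientGroup.mk (tm F))
    (fun h => ?_) ?_ ?_ fun t ht h1 => ?_, by rw [hc]; decide⟩
  · obtain ⟨r, -, hr⟩ := Matrix.SpecialLinearGroup.mem_center_iff.1 ((QuotientGroup.eq_one_iff _).1 h)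
    have := congrFun (congrFun hr 0) 1
    simp [pm_val] at this
  · rw [← QuotientGroup.mk_pow, pm_cube, QuotientGroup.mk_one]
  · rw [mul_inv_eq_iff_eq_mul, eq_inv_mul_iff_mul_eq, ← mul_assoc, ← QuotientGroup.mk_mul,
      ← QuotientGroup.mk_mul, tm_pm]
  · obtain ⟨T, rfl⟩ := QuotientGroup.mk_surjective t
    rw [← QuotientGroup.mk_mul] at h1
    rw [← QuotientGroup.mk_mul, ← QuotientGroup.mk_mul] at ht
    exact (QuotientGroup.eq_one_iff _).2
      (cen h2 T (QuotientGroup.eq.1 ht) ((QuotientGroup.eq_one_iff _).1 h1))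

end H72.RcRO2
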