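/- Burnside's argument for the primes dividing character degrees of a nonsolvable group. -/
import Cfsg.Agent.H23.TwoA
import Cfsg.Agent.H44.CD1

set_option autoImplicit false

namespace H72.Rho
open Cfsg Subgroup H28

universe u

/-- A nonidentity element whose class size is prime to `q`. -/
theorem exists_ind {G : Type*} [Group G] [Finite G] [Nontrivial G] {q : ℕ} (hq : q.Prime) :
    ∃ g : G, g ≠ 1 ∧ ¬ q ∣ H4.ind g := by
  by_cases h : q ∣ Nat.card G
  · have := Fact.mk hq
    obtain ⟨P⟩ : Nonempty (Sylow q G) := inferInstance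
    have hP : Nontrivial P := (Subgroup.nontrivial_iff_ne_bot _).mpr (P.ne_bot_of_dvd_card h)
    have hZ := P.isPGroup'.center_nontrivial
    obtain ⟨⟨g, hg⟩, hg1⟩ := exists_ne (1 : center (P : Subgroup G))
    refine ⟨g, fun h => hg1 (Subtype.ext (Subtype.ext h)), fun h => P.not_dvd_index (h.trans ?_)⟩
    exact H4.ind_dvd_of_le fun x hx => mem_centralizer_singleton_iff.mpr
      (congrArg Subtype.val (mem_center_iff.mp hg ⟨x, hx⟩))
  · obtain ⟨g, hg⟩ := exists_ne (1 : G)
    exact ⟨g, hg, fun e => h (e.trans (index_dvd_card _))⟩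

/-- In a nonabelian simple group some degree is prime to `p` and has a prime divisor `≠ q`. -/
theorem simple {G : Type*} [Group G] [Finite G] [IsSimpleGroup G] (hZ : center G = ⊥) {p q : ℕ}
    (hp : p.Prime) (hq : q.Prime) :
    ∃ d ∈ charDegrees G, ¬ p ∣ d ∧ ∃ r, r.Prime ∧ r ≠ q ∧ r ∣ d := by
  have := Fintype.ofFinite G
  obtain ⟨g, hg, hi⟩ := exists_ind (G := G) hq
  obtain ⟨χ, h, h1, hz, d, hd, hpd⟩ := H29.exists_irr_not_dvd_degree_ne_zero hp hg
  have e : charDegree χ = d := charDegree_eq hd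
  refine ⟨d, ⟨⟨χ, h⟩, e⟩, hpd, ?_⟩
  by_contra hn
  push Not at hn
  refine hz (H23.Two.vanish hZ h h1 hg ?_)
  rw [e]
  refine Nat.coprime_of_dvd fun r hr h2 h3 => ?_
  by_cases e : r = q
  · exact hi (e ▸ h3)
  · exact hn r hr e h2

/-- A property of degree sets passes from a nonabelian composition factor to the group. -/
theorem exists_simple (G : Type u) [Group G] [Finite G] (hG : ¬ Group.IsSolvable G) :
    ∃ (S : Type u) (_ : Group S) (_ : Finite S), IsSimpleGroup S ∧ center S = ⊥ ∧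
      ∀ d ∈ charDegrees S, ∃ e ∈ charDegrees G, d ∣ e := by
  induction hn : Nat.card G using Nat.strong_induction_on generalizing G with | _ n ih =>
  subst hn
  by_cases hs : IsSimpleGroup G
  · refine ⟨G, inferInstance, inferInstance, hs, ?_, fun d hd => ⟨d, hd, dvd_rfl⟩⟩
    refine (Normal.eq_bot_or_eq_top inferInstance).resolve_right fun h => hG ?_
    exact isSolvable_of_comm fun a b => mem_center_iff.1 (h ▸ mem_top b) a
  · have : Nontrivial G := by
      by_contra h
      rw [not_nontrivial_iff_subsingleton] at h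
      exact hG inferInstance
    obtain ⟨N, hN, h1, h2⟩ : ∃ N : Subgroup G, N.Normal ∧ N ≠ ⊥ ∧ N ≠ ⊤ := by
      by_contra h
      push Not at h
      exact hs ⟨fun N hN => or_iff_not_imp_left.2 (h N hN)⟩
    by_cases h3 : Group.IsSolvable N
    · have h4 : ¬ Group.IsSolvable (G ⧸ N) := fun _ =>
        hG (solvable_of_ker_le_range N.subtype (QuotientGroup.mk' N) (by simp))
      obtain ⟨S, _, _, a, b, c⟩ := ih _ (by
        rw [← card_mul_index N]
        exact lt_mul_left (Nat.card_pos) ((one_lt_card_iff_ne_bot N).2 h1)) (G ⧸ N) h4 rfl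
      exact ⟨S, _, ‹_›, a, b, fun d hd => (c d hd).imp fun e he => ⟨H44.cd_quot N he.1, he.2⟩⟩
    · obtain ⟨S, _, _, a, b, c⟩ := ih _ (by
        rw [← card_mul_index N]
        exact lt_mul_right (Nat.card_pos) (one_lt_index_of_ne_top h2)) N h3 rfl
      refine ⟨S, _, ‹_›, a, b, fun d hd => ?_⟩
      obtain ⟨e, he, h5⟩ := c d hd
      obtain ⟨k, -, hk⟩ := H44.cd_over N he
      exact ⟨_, hk, h5.mul_left k⟩

theorem third {G : Type*} [Group G] [Finite G] (hG : ¬ Group.IsSolvable G) {p q : ℕ}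
    (hp : p.Prime) (hq : q.Prime) : ∃ r ∈ degreePrimes G, r ≠ p ∧ r ≠ q := by
  obtain ⟨S, _, _, a, b, c⟩ := exists_simple G hG
  obtain ⟨d, hd, h1, r, hr, h2, h3⟩ := simple b hp hq
  obtain ⟨e, he, h4⟩ := c d hd
  exact ⟨r, ⟨hr, e, he, h3.trans h4⟩, fun e => h1 (e ▸ h3), h2⟩

end H72.Rho
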