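/- VC tower (row S4070), job BASE: a small base of a solvable primitive group. -/
import Cfsg.Agent.H91.VCSpec
import Cfsg.Agent.H33.SolvMain

set_option autoImplicit false

namespace H72.VC

open H91.VC H33.Solv Subgroup

variable {G M : Type} [Group G] [AddCommGroup M] [DistribMulAction G M] {H : Subgroup G} {β : G → M}

theorem base_of (a : Aff H β) {b : ℕ} (hb : Base G M b) : ∃ B : Finset (G ⧸ H), B.card ≤ b + 1 ∧
    ∀ g : G, (∀ x ∈ B, g • x = x) → ∀ x : G ⧸ H, g • x = x := by
  classical
  obtain ⟨v, hv⟩ := hb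
  choose x hx using fun i => a.surj (v i)
  have h1 : β 1 = 0 := by simpa using a.coc 1 1
  have key : ∀ g y : G, g • (y : G ⧸ H) = y ↔ β g + g • β y = β y := fun g y => by
    rw [← a.coc, a.eq, ← QuotientGroup.eq]; rfl
  refine ⟨insert ((1 : G) : G ⧸ H) (Finset.univ.image fun i => (x i : G ⧸ H)), ?_, fun g hg y => ?_⟩
  · exact (Finset.card_insert_le _ _).trans (Nat.add_le_add_right (Finset.card_image_le.trans (by simp)) 1)
  · have h2 : β g = 0 := by simpa [h1] using (key g 1).1 (hg _ (Finset.mem_insert_self _ _))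
    obtain ⟨y, rfl⟩ := QuotientGroup.mk_surjective y
    rw [key, h2, zero_add]
    refine hv g (fun i => ?_) _
    have := (key g (x i)).1 (hg _ (Finset.mem_insert_of_mem (Finset.mem_image_of_mem _ (Finset.mem_univ i))))
    rwa [h2, zero_add, hx] at this

theorem base_one (h : (Nat.card M).Prime) : Base G M 1 := by
  have := Fact.mk h
  obtain ⟨a, ha⟩ := (isAddCyclic_of_prime_card (rfl : Nat.card M = _)).exists_generator
  refine ⟨fun _ => a, fun g hg w => ?_⟩
  obtain ⟨k, rfl⟩ := ha w
  rw [smul_comm g k a, hg 0]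

theorem jobBASE : JobBASE := fun haff G _ _ H hs hH => by
  obtain ⟨M, _, _, _, β, a⟩ := haff G H hs hH
  by_cases hp : H.index.Prime
  · obtain ⟨B, h1, h2⟩ := base_of a (base_one (a.card ▸ hp))
    exact ⟨B, by omega, fun _ => h1, h2⟩
  · obtain ⟨B, h1, h2⟩ := base_of a (seress hs a.irr.cr)
    exact ⟨B, h1, fun h => absurd h hp, h2⟩

end H72.VC
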